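import Mathlib
import Cfsg.Agent.H18.PrimeDegree

/-! Odd-order automorphisms of doubly transitive groups (Feit): the incidence matrix between a permutation
representation and its twist by an automorphism of odd order. -/

set_option autoImplicit false

namespace H07.OddAut

open Matrix MulAction

theorem arith {n k N l X Y : ℤ} {r : ℕ} (hn : 2 ≤ n) (hk : 1 ≤ k) (hkn : k ≤ n) (hc : IsCoprime k n) (hl : 0 ≤ l)
    (h1 : k = N + l) (h2 : k ^ 2 = N + l * n) (h3 : X ^ 2 = N ^ (2 * r + 1)) (h4 : k ^ (2 * r + 1) = X + n * Y) :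
    k = 1 ∨ k = n - 1 := by
  have hN : IsCoprime N n := by
    have := hc.pow_left (m := 2)
    rw [h2] at this
    exact this.of_add_mul_right_left
  have hN0 : N ≠ 0 := by
    rintro rfl
    have := Int.isUnit_iff.1 (isCoprime_zero_left.1 hN)
    omega
  obtain ⟨t, rfl⟩ : N ^ r ∣ X := (Int.pow_dvd_pow_iff two_ne_zero).1 ⟨N, by rw [h3]; ring⟩
  have ht : t ^ 2 = N := mul_left_cancel₀ (pow_ne_zero (2 * r) hN0) (by linear_combination h3)
  have h5 : n ∣ (k ^ 2) ^ r - N ^ r := (Dvd.intro_left l (by linear_combination -h2)).trans (sub_dvd_pow_sub_pow _ _ r)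
  obtain ⟨u, hu⟩ : n ∣ k - t := (hN.pow_left (m := r)).symm.dvd_of_dvd_mul_left (by
    have : N ^ r * (k - t) = n * Y - k * ((k ^ 2) ^ r - N ^ r) := by linear_combination h4
    rw [this]
    exact dvd_sub (Dvd.intro _ rfl) (h5.mul_left _))
  have hkn' : k ≠ n := by
    rintro rfl
    have := Int.isUnit_iff.1 (isCoprime_self.1 hc)
    omega
  have h6 : t ≤ k := by nlinarith [sq_nonneg (2 * t - 1)]
  have h7 : -t ≤ k := by nlinarith [sq_nonneg (2 * t + 1)]
  have h8 : 0 ≤ u := by nlinarith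
  have h9 : u < 2 := by
    by_contra h
    have : k < n := by omega
    nlinarith
  obtain rfl | rfl : u = 0 ∨ u = 1 := by omega
  · left
    obtain rfl : k = t := by omega
    nlinarith
  · right
    obtain rfl : t = k - n := by omega
    have : n * ((n - k) * (n - k - 1)) = 0 := by
      subst ht
      obtain rfl : l = k - (k - n) ^ 2 := by omega
      linear_combination h2
    rcases mul_eq_zero.1 this with h | h
    · omega
    · rcases mul_eq_zero.1 h with h | h <;> omega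

variable {G Ω : Type*} [Group G] [MulAction G Ω] [Fintype Ω] [DecidableEq Ω]

/-- twisted equivariance -/
def Tw (β : MulAut G) (M : Matrix Ω Ω ℤ) : Prop := ∀ (g : G) x y, M (g • x) (β g • y) = M x y

omit [DecidableEq Ω] in
theorem Tw.mul {β γ : MulAut G} {M M' : Matrix Ω Ω ℤ} (h : Tw β M) (h' : Tw γ M') : Tw (γ * β) (M * M') :=
  fun g x z => by
    simp only [mul_apply]
    rw [← Equiv.sum_comp (toPerm (β g))]
    exact Finset.sum_congr rfl fun y _ => by rw [toPerm_apply, h, MulAut.mul_apply, h']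

theorem Tw.pow {β : MulAut G} {M : Matrix Ω Ω ℤ} (h : Tw β M) (m : ℕ) : Tw (β ^ m) (M ^ m) := by
  induction m with
  | zero => intro g x y; simp [one_apply]
  | succ m ih => rw [pow_succ', pow_succ]; exact ih.mul h

omit [Fintype Ω] [DecidableEq Ω] in
theorem Tw.transpose {β : MulAut G} {M : Matrix Ω Ω ℤ} (h : Tw β M) : Tw β⁻¹ Mᵀ := fun g x y => by
  simpa using h (β⁻¹ g) y x

omit [Fintype Ω] in
theorem Tw.span (h2 : IsMultiplyPretransitive G Ω 2) {a b : Ω} (hab : a ≠ b) {M : Matrix Ω Ω ℤ}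
    (h : Tw (1 : MulAut G) M) : M = (M a a - M a b) • (1 : Matrix Ω Ω ℤ) + M a b • of fun _ _ => 1 := by
  ext x y
  by_cases hxy : x = y
  · subst hxy
    have := isPretransitive_of_is_two_pretransitive (G := G) (α := Ω)
    obtain ⟨g, rfl⟩ := exists_smul_eq G a x
    simpa only [Matrix.add_apply, Matrix.smul_apply, MulAut.one_apply, one_apply_eq, of_apply, smul_eq_mul, mul_one, sub_add_cancel] using h g a a
  · obtain ⟨g, rfl, rfl⟩ := is_two_pretransitive_iff.1 h2 hab hxy
    simpa only [Matrix.add_apply, Matrix.smul_apply, MulAut.one_apply, one_apply_ne hxy, of_apply, smul_eq_mul, mul_one, mul_zero, zero_add]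
      using h g a b

theorem feit (h2 : IsMultiplyPretransitive G Ω 2) {a b : Ω} (hab : a ≠ b) {α : MulAut G} (hα : Odd (orderOf α))
    {A : Matrix Ω Ω ℤ} (hA : Tw α A) (h01 : ∀ x y, A x y = 0 ∨ A x y = 1) {k : ℕ} (hk : ∀ x, ∑ y, A x y = k)
    (hc : k.Coprime (Fintype.card Ω)) : k = 1 ∨ k = Fintype.card Ω - 1 := by
  have hn : 2 ≤ Fintype.card Ω := Fintype.one_lt_card_iff.2 ⟨a, b, hab⟩
  have := isPretransitive_of_is_two_pretransitive (G := G) (α := Ω)
  set J : Matrix Ω Ω ℤ := of fun _ _ => 1 with hJ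
  have hcol : ∀ y, ∑ x, A x y = k := by
    have h1 : ∀ y, ∑ x, A x y = ∑ x, A x a := fun y => by
      obtain ⟨g, rfl⟩ := exists_smul_eq G a y
      rw [← Equiv.sum_comp (toPerm (α⁻¹ g))]
      exact Finset.sum_congr rfl fun x _ => by simpa using hA (α⁻¹ g) x a
    have h3 : ∑ y, ∑ x, A x y = ∑ x, ∑ y, A x y := Finset.sum_comm
    simp only [h1, hk, Finset.sum_const, Finset.card_univ, nsmul_eq_mul] at h3
    intro y
    rw [h1, mul_left_cancel₀ (by norm_cast; omega) h3]
  have hAJ : A * J = (k : ℤ) • J := by ext x y; simp [mul_apply, hJ, hk]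
  have hAJ' : Aᵀ * J = (k : ℤ) • J := by ext x y; simp [mul_apply, hJ, hcol]
  have hJA : J * Aᵀ = (k : ℤ) • J := by ext x y; simp [mul_apply, hJ, hk]
  have hJJ : J * J = (Fintype.card Ω : ℤ) • J := by ext x y; simp [mul_apply, hJ]
  obtain ⟨N, l, hl, h1, e1⟩ : ∃ N l : ℤ, 0 ≤ l ∧ k = N + l ∧ A * Aᵀ = N • (1 : Matrix Ω Ω ℤ) + l • J := by
    refine ⟨_, _, ?_, ?_, Tw.span h2 hab (by simpa using hA.mul hA.transpose)⟩
    · rw [mul_apply]
      exact Finset.sum_nonneg fun y _ => by rcases h01 a y with h | h <;> rcases h01 b y with h' | h' <;> simp [h, h']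
    · rw [sub_add_cancel, mul_apply, ← hk a]
      exact Finset.sum_congr rfl fun y _ => by rcases h01 a y with h | h <;> simp [h]
  obtain ⟨r, hr⟩ := hα
  obtain ⟨X, Y, e2⟩ : ∃ X Y : ℤ, A ^ (2 * r + 1) = X • (1 : Matrix Ω Ω ℤ) + Y • J :=
    ⟨_, _, Tw.span h2 hab (by simpa only [← hr, pow_orderOf_eq_one] using hA.pow (orderOf α))⟩
  have e3 : ∀ j : ℕ, ∃ c : ℤ, A ^ j * (A ^ j)ᵀ = N ^ j • (1 : Matrix Ω Ω ℤ) + c • J := fun j => by
    induction j with
    | zero => exact ⟨0, by simp⟩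
    | succ j ih =>
      obtain ⟨c, hc⟩ := ih
      refine ⟨N ^ j * l + c * k * k, ?_⟩
      rw [pow_succ', transpose_mul, mul_assoc, ← mul_assoc (A ^ j), hc, add_mul, smul_mul_assoc, one_mul,
        smul_mul_assoc, hJA, mul_add, mul_smul_comm, mul_smul_comm, mul_smul_comm, hAJ, e1]
      module
  have e4 : ∀ j : ℕ, A ^ j * J = (k : ℤ) ^ j • J := fun j => by
    induction j with
    | zero => simp
    | succ j ih => rw [pow_succ', mul_assoc, ih, mul_smul_comm, hAJ, smul_smul, pow_succ]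
  have h3 : (k : ℤ) ^ 2 = N + l * Fintype.card Ω := by
    have := congrArg (fun M => (M * J) a a) e1
    simp only [mul_assoc, hAJ', mul_smul_comm, hAJ, add_mul, smul_mul_assoc, one_mul, hJJ] at this
    simpa [hJ, sq] using this
  have h4 : (k : ℤ) ^ (2 * r + 1) = X + Fintype.card Ω * Y := by
    have := congrArg (fun M => M a a) (e4 (2 * r + 1))
    simp only [e2, add_mul, smul_mul_assoc, one_mul, hJJ] at this
    simpa [hJ, mul_comm] using this.symm
  have h5 : X ^ 2 = N ^ (2 * r + 1) := by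
    obtain ⟨c, hc⟩ := e3 (2 * r + 1)
    rw [e2, transpose_add, transpose_smul, transpose_smul, transpose_one, show Jᵀ = J from rfl] at hc
    simp only [add_mul, mul_add, smul_mul_assoc, mul_smul_comm, one_mul, mul_one, hJJ] at hc
    have k1 := congrArg (fun M => M a a) hc
    have k2 := congrArg (fun M => M a b) hc
    simp only [hJ, Matrix.add_apply, Matrix.smul_apply, one_apply_eq, one_apply_ne hab, of_apply, smul_eq_mul] at k1 k2
    linear_combination k1 - k2
  have hk1 : 1 ≤ k := Nat.pos_of_ne_zero fun h => by rw [h, Nat.coprime_zero_left] at hc; omega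
  have hk2 : (k : ℤ) ≤ Fintype.card Ω := by
    rw [← hk a]
    simpa using Finset.sum_le_card_nsmul Finset.univ (A a) 1 fun y _ => by rcases h01 a y with h | h <;> simp [h]
  have := arith (by omega) (by omega) hk2 (Nat.isCoprime_iff_coprime.2 hc) hl h1 h3 h5 h4
  omega

theorem orbit_card (h2 : IsMultiplyPretransitive G Ω 2) (o : Ω) {α : MulAut G} (hα : Odd (orderOf α)) (ω : Ω)
    (hk : (Nat.card (orbit ((stabilizer G o).map α.toMonoidHom) ω)).Coprime (Fintype.card Ω)) :
    Nat.card (orbit ((stabilizer G o).map α.toMonoidHom) ω) = 1 ∨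
      Nat.card (orbit ((stabilizer G o).map α.toMonoidHom) ω) = Fintype.card Ω - 1 := by
  classical
  set Δ := orbit ((stabilizer G o).map α.toMonoidHom) ω
  rcases subsingleton_or_nontrivial Ω with h | h
  · exact Or.inl (Nat.card_eq_one_iff_unique.2 ⟨inferInstance, ⟨_, mem_orbit_self ω⟩⟩)
  obtain ⟨a, b, hab⟩ := exists_pair_ne Ω
  have := isPretransitive_of_is_two_pretransitive (G := G) (α := Ω)
  choose f hf using exists_smul_eq G o
  have hΔ : ∀ h ∈ stabilizer G o, ∀ y ∈ Δ, α h • y ∈ Δ := fun h hh y hy =>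
    mem_orbit_of_mem_orbit (⟨α h, h, hh, rfl⟩ : (stabilizer G o).map α.toMonoidHom) hy
  refine feit h2 hab hα (A := of fun x y => if (α (f x))⁻¹ • y ∈ Δ then 1 else 0) (fun g x y => ?_)
    (fun x y => by simp [em']) (fun x => ?_) hk
  · have h1 : (f (g • x))⁻¹ * g * f x ∈ stabilizer G o := by simp [mul_smul, hf, inv_smul_eq_iff]
    simp only [of_apply]
    refine if_congr ⟨fun h => ?_, fun h => ?_⟩ rfl rfl
    · simpa [mul_smul] using hΔ _ (inv_mem h1) _ h
    · simpa [mul_smul] using hΔ _ h1 _ h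
  · simp only [of_apply]
    rw [← Equiv.sum_comp (toPerm (α (f x)))]
    simp [Set.ncard_eq_toFinset_card']

theorem exists_perm [Finite G] [IsPretransitive G Ω] (o : Ω) {α : MulAut G} {ω : Ω}
    (hk : Nat.card (orbit ((stabilizer G o).map α.toMonoidHom) ω) = 1 ∨
      Nat.card (orbit ((stabilizer G o).map α.toMonoidHom) ω) = Fintype.card Ω - 1) :
    ∃ σ : Equiv.Perm Ω, ∀ (g : G) x, σ (g • x) = α g • σ x := by
  obtain ⟨z, hz⟩ : ∃ z : Ω, ∀ h ∈ stabilizer G o, α h • z = z := by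
    rcases hk with hk | hk
    · obtain ⟨h1, -⟩ := Nat.card_eq_one_iff_unique.1 hk
      exact ⟨ω, fun h hh => congrArg Subtype.val (h1.elim
        ⟨_, mem_orbit ω (⟨α h, h, hh, rfl⟩ : (stabilizer G o).map α.toMonoidHom)⟩ ⟨_, mem_orbit_self ω⟩)⟩
    · have h1 := Set.ncard_add_ncard_compl (orbit ((stabilizer G o).map α.toMonoidHom) ω)
      have h3 : 0 < Fintype.card Ω := Fintype.card_pos_iff.2 ⟨o⟩
      rw [← Nat.card_coe_set_eq, hk, Nat.card_eq_fintype_card] at h1
      obtain ⟨z, hz⟩ := Set.ncard_eq_one.1 (show (orbit ((stabilizer G o).map α.toMonoidHom) ω)ᶜ.ncard = 1 by omega)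
      refine ⟨z, fun h hh => Set.mem_singleton_iff.1 (hz ▸ fun h4 => ?_)⟩
      refine (show z ∈ (orbit ((stabilizer G o).map α.toMonoidHom) ω)ᶜ from hz ▸ rfl) ?_
      have h5 : α h⁻¹ • α h • z ∈ _ :=
        mem_orbit_of_mem_orbit (⟨α h⁻¹, h⁻¹, inv_mem hh, rfl⟩ : (stabilizer G o).map α.toMonoidHom) h4
      rwa [map_inv, inv_smul_smul] at h5
  choose f hf using exists_smul_eq G o
  have h1 : ∀ (g : G) x, α (f (g • x)) • z = α g • α (f x) • z := fun g x => by
    have := hz ((f (g • x))⁻¹ * g * f x) (by simp [mul_smul, hf, inv_smul_eq_iff])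
    simpa [mul_smul, eq_inv_smul_iff] using this.symm
  refine ⟨Equiv.ofBijective (fun x => α (f x) • z) (Finite.surjective_iff_bijective.1 fun y => ?_), h1⟩
  obtain ⟨g, rfl⟩ := exists_smul_eq G (α (f o) • z) y
  exact ⟨α⁻¹ g • o, by simp [h1]⟩

theorem normalizes (G : Subgroup (Equiv.Perm Ω)) {α : MulAut G} {σ : Equiv.Perm Ω}
    (h : ∀ (g : G) x, σ (g • x) = α g • σ x) : σ ∈ Subgroup.normalizer (G : Set (Equiv.Perm Ω)) ∧
      ∀ g : G, ((α g : G) : Equiv.Perm Ω) = σ * (g : Equiv.Perm Ω) * σ⁻¹ := by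
  have h1 : ∀ g : G, ((α g : G) : Equiv.Perm Ω) = σ * (g : Equiv.Perm Ω) * σ⁻¹ := fun g =>
    eq_mul_inv_of_mul_eq (Equiv.ext fun x => (h g x).symm)
  refine ⟨Subgroup.mem_normalizer_fintype fun g hg => ?_, h1⟩
  rw [← h1 ⟨g, hg⟩]
  exact (α _).2

theorem hall [Finite G] (h2 : IsMultiplyPretransitive G Ω 2) (o : Ω)
    (hH : (Nat.card (stabilizer G o)).Coprime (stabilizer G o).index) {α : MulAut G} (hα : Odd (orderOf α)) :
    ∃ σ : Equiv.Perm Ω, ∀ (g : G) x, σ (g • x) = α g • σ x := by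
  have := isPretransitive_of_is_two_pretransitive (G := G) (α := Ω)
  refine exists_perm o (orbit_card h2 o hα o ?_)
  rw [index_stabilizer_of_transitive, Nat.card_eq_fintype_card (α := Ω),
    ← Subgroup.card_map_of_injective (f := α.toMonoidHom) α.injective] at hH
  refine hH.coprime_dvd_left ?_
  rw [Nat.card_congr (orbitEquivQuotientStabilizer _ _)]
  exact Subgroup.card_quotient_dvd_card _

/-- automorphisms induced by permutations -/
def ind (G Ω : Type*) [Group G] [MulAction G Ω] : Subgroup (MulAut G) where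
  carrier := {α | ∃ σ : Equiv.Perm Ω, ∀ (g : G) x, σ (g • x) = α g • σ x}
  one_mem' := ⟨1, fun _ _ => rfl⟩
  mul_mem' := fun ⟨σ, h⟩ ⟨τ, h'⟩ => ⟨σ * τ, fun g x => by simp [h, h']⟩
  inv_mem' := fun {α} ⟨σ, h⟩ => ⟨σ⁻¹, fun g x => σ.injective (by simp [h])⟩

theorem comm_ind [Finite G] [FaithfulSMul G Ω] [IsPretransitive G Ω] (hp : (Fintype.card Ω).Prime) {α β : MulAut G}
    (hα : α ∈ ind G Ω) (hβ : β ∈ ind G Ω) : (β * α)⁻¹ * (α * β) ∈ (MulAut.conj : G →* MulAut G).range := by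
  have := Fact.mk hp
  obtain ⟨x, hx⟩ := exists_prime_orderOf_dvd_card' _ (H18.exists_orderOf_eq_prime_degree (G := G) (α := Ω) rfl)
  obtain ⟨e, he⟩ := H18.exists_coords (α := Ω) rfl hx
  have h2 := H18.not_sq_dvd_card_of_faithful (G := G) (α := Ω) hp (by have := hp.pos; omega)
  have key : ∀ γ ∈ ind G Ω, ∃ g : G, ∃ δ ∈ ind G Ω, γ = MulAut.conj g * δ ∧ ∃ k : ℤ, δ x = x ^ k := fun γ hγ => by
    obtain ⟨g, k, hk⟩ := H18.exists_conj_mem_zpowers h2 hx ((γ.orderOf_eq x).trans hx)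
    exact ⟨g⁻¹, MulAut.conj g * γ, mul_mem ⟨toPerm g, fun h y => by simp [mul_smul]⟩ hγ, by simp, k, hk.symm⟩
  obtain ⟨g, α, hα', rfl, k, hk⟩ := key α hα
  obtain ⟨g', β, hβ', rfl, k', hk'⟩ := key β hβ
  have hN : (MulAut.conj : G →* MulAut G).range.Normal := ⟨by
    rintro _ ⟨g, rfl⟩ φ
    exact ⟨φ g, by ext; simp⟩⟩
  rw [← QuotientGroup.eq]
  have h1 : ∀ g : G, ((MulAut.conj g : MulAut G) : MulAut G ⧸ (MulAut.conj : G →* MulAut G).range) = 1 :=
    fun g => (QuotientGroup.eq_one_iff _).2 ⟨g, rfl⟩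
  simp only [QuotientGroup.mk_mul, h1, one_mul]
  rw [← QuotientGroup.mk_mul, ← QuotientGroup.mk_mul, QuotientGroup.eq]
  obtain ⟨σ, hσ⟩ := mul_mem (inv_mem (mul_mem hβ' hα')) (mul_mem hα' hβ')
  have h3 : ((β * α)⁻¹ * (α * β)) x = x := by
    rw [MulAut.mul_apply, MulAut.inv_apply, MulEquiv.symm_apply_eq]
    simp only [MulAut.mul_apply, hk, hk', map_zpow, ← _root_.zpow_mul, mul_comm]
  generalize (β * α)⁻¹ * (α * β) = γ at hσ h3
  obtain ⟨τ, ⟨j, rfl⟩, hτ⟩ := H18.exists_translation he (e (σ (e.symm 0)))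
  have h4 : ∀ y, σ y = x ^ j • y := fun y => by
    obtain ⟨_, ⟨i, rfl⟩, hi⟩ := H18.exists_translation he (e y)
    have h5 : y = x ^ i • e.symm 0 := e.injective (by simpa using (hi (e.symm 0)).symm)
    have h6 : σ (e.symm 0) = x ^ j • e.symm 0 := e.injective (by simpa using (hτ (e.symm 0)).symm)
    rw [h5, hσ, map_zpow, h3, h6, smul_smul, smul_smul, ← _root_.zpow_add, ← _root_.zpow_add, add_comm]
  refine ⟨x ^ j, MulEquiv.ext fun g => FaithfulSMul.eq_of_smul_eq_smul (α := Ω) fun y => ?_⟩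
  have := hσ g ((x ^ j)⁻¹ • y)
  rw [h4, h4, smul_inv_smul] at this
  rw [← this, MulAut.conj_apply, mul_smul, mul_smul]

theorem solvable_of_odd_comm {X Y : Type*} [Group X] [Group Y] [Finite Y] (f : Y →* X) (hf : Function.Surjective f)
    (h : ∀ a b : Y, Odd (orderOf a) → Odd (orderOf b) → f a * f b = f b * f a) : Group.IsSolvable X := by
  have := Finite.of_surjective f hf
  let O := Subgroup.closure (f '' {a : Y | Odd (orderOf a)})
  have : O.Normal := ⟨fun n hn g => by
    obtain ⟨g, rfl⟩ := hf g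
    refine Subgroup.closure_induction ?_ (by simp) (fun x y _ _ hx hy => by simpa [mul_assoc] using mul_mem hx hy)
      (fun x _ hx => by simpa [mul_assoc] using inv_mem hx) hn
    rintro _ ⟨a, ha, rfl⟩
    exact Subgroup.subset_closure ⟨g * a * g⁻¹, ((MulAut.conj g).orderOf_eq a).symm.subst (motive := Odd) ha, by simp⟩⟩
  have := Subgroup.isMulCommutative_closure (k := f '' {a : Y | Odd (orderOf a)}) (by
    rintro _ ⟨a, ha, rfl⟩ _ ⟨b, hb, rfl⟩
    exact h a b ha hb)
  have : Group.IsSolvable O := Group.isSolvable_of_comm mul_comm'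
  have h2 : IsPGroup 2 (X ⧸ O) := fun q => by
    obtain ⟨q, rfl⟩ := QuotientGroup.mk_surjective q
    obtain ⟨a, rfl⟩ := hf q
    obtain ⟨k, m, hm, e⟩ := Nat.exists_eq_two_pow_mul_odd (orderOf_pos a).ne'
    refine ⟨k, (QuotientGroup.eq_one_iff (f a ^ 2 ^ k)).2 (Subgroup.subset_closure ⟨a ^ 2 ^ k, ?_, map_pow _ _ _⟩)⟩
    exact hm.of_dvd_nat (orderOf_dvd_of_pow_eq_one (by rw [← pow_mul, ← e, pow_orderOf_eq_one]))
  have := h2.isNilpotent
  exact Group.isSolvable_of_ker_le_range O.subtype (QuotientGroup.mk' O) (by simp)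

theorem out_solvable [Finite G] [IsSimpleGroup G] (H : Subgroup G) (hH : H.index.Prime)
    [(MulAut.conj : G →* MulAut G).range.Normal] :
    Group.IsSolvable (MulAut G ⧸ (MulAut.conj : G →* MulAut G).range) := by
  classical
  by_cases hs : Group.IsSolvable G
  · have : IsMulCommutative G := ⟨⟨IsSimpleGroup.comm_iff_isSolvable.2 hs⟩⟩
    have : IsCyclic G := by
      let _ : CommGroup G := IsMulCommutative.instCommGroup
      infer_instance
    have : Group.IsSolvable (MulAut G) := Group.isSolvable_of_comm fun a b =>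
      (IsCyclic.mulAutMulEquiv G).injective (by rw [map_mul, map_mul, mul_comm])
    infer_instance
  have := Fintype.ofFinite (G ⧸ H)
  have hp : (Fintype.card (G ⧸ H)).Prime := by rwa [← Nat.card_eq_fintype_card]
  have : FaithfulSMul G (G ⧸ H) := by
    rw [faithfulSMul_iff]
    intro g hg
    refine (H.normalCore_normal.eq_bot_or_eq_top.resolve_right fun e => ?_).le
      (H.normalCore_eq_ker ▸ (Equiv.ext hg : toPermHom G (G ⧸ H) g = 1))
    rw [top_le_iff.1 (e.ge.trans H.normalCore_le), Subgroup.index_top] at hH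
    exact Nat.not_prime_one hH
  have h2 := (H18.burnside_prime_degree (G := G) hp).resolve_left hs
  have h3 : (Nat.card (stabilizer G ((1 : G) : G ⧸ H))).Coprime (stabilizer G ((1 : G) : G ⧸ H)).index := by
    rw [stabilizer_quotient]
    refine ((Nat.Prime.coprime_iff_not_dvd hH).2 fun h => H18.not_sq_dvd_card_of_faithful (G := G) (α := G ⧸ H) hH
      (by rw [← Nat.card_eq_fintype_card]; have := hH.pos; change H.index < _; omega) ?_).symm
    rw [← H.card_mul_index, sq]
    exact mul_dvd_mul_right h _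
  exact solvable_of_odd_comm (QuotientGroup.mk' _) (QuotientGroup.mk'_surjective _) fun a b ha hb =>
    QuotientGroup.eq.2 (comm_ind hp (hall h2 _ h3 hb) (hall h2 _ h3 ha))

end H07.OddAut
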