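import Mathlib
import Cfsg.Agent.H05.ONan4
import Cfsg.Agent.H09.SLBasic

/-! Recognition of `PSL₃(3)` from a conjugation-invariant set behaving like the transvections. -/

set_option autoImplicit false

namespace H07.CG3

open Subgroup

/-- incidence in the plane of order three, from the difference set `{0, 1, 3, 9}` -/
def I (p l : Fin 13) : Prop :=
  (p.val + l.val) % 13 = 0 ∨ (p.val + l.val) % 13 = 1 ∨ (p.val + l.val) % 13 = 3 ∨ (p.val + l.val) % 13 = 9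

instance : DecidableRel I := fun p l => by unfold I; infer_instance

theorem P1 : ∀ p l, I p l → ∀ q m, I q m → (I q l ∧ I p m ↔ p = q ∨ l = m) := by decide +kernel
theorem P2 : ∀ p q, ∃ l, I p l ∧ I q l := by decide +kernel
theorem P3 : ∀ m p, I p m → ∀ q, I q m → p ≠ q → ∀ x, I x m → p ≠ x → q ≠ x → ∀ y, I y m → p ≠ y → q ≠ y →
    x ≠ y → ∀ r, I r m → p ≠ r → r = q ∨ r = x ∨ r = y := by decide +kernel
theorem P5 : ∀ p l, I p l → ∃ m, I p m ∧ m ≠ l ∧ ∃ q, I q l ∧ p ≠ q := by decide +kernel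
theorem P6 : ∀ p l, I p l → ∀ q m, I q m → (∀ r n, I r n → (p = r ∨ l = n) → (q = r ∨ m = n)) →
    q = p ∧ m = l := by decide +kernel
theorem P7 : ∀ a b d, a ≠ b → a ≠ d → ∃ m, I b m ∧ I d m ∧ ∃ p, I p m ∧ p ≠ b ∧ p ≠ d ∧
    ∃ l, I p l ∧ ¬ I b l ∧ I a l := by decide +kernel
theorem P8 : ∀ b d : Fin 13, ∃ a, a ≠ b ∧ a ≠ d := by decide +kernel

variable {H : Type*} [Group H]

/-- a set `T` with centres `c` and axes `a` -/
structure Cf (T : H → Prop) (c a : H → Fin 13) : Prop where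
  inc : ∀ {t}, T t → I (c t) (a t)
  ex : ∀ {p l}, I p l → ∃ t, T t ∧ c t = p ∧ a t = l
  comm : ∀ {s t}, T s → T t → (s * t = t * s ↔ c s = c t ∨ a s = a t)
  conj : ∀ h {t}, T t → T (h * t * h⁻¹)
  two : ∀ {s t}, T s → T t → c s = c t → a s = a t → s = t ∨ s = t⁻¹
  ord : ∀ {t}, T t → t ^ 3 = 1

theorem dich {α β : Type*} {S : α → Prop} {x y : α → β} (h : ∀ s t, S s → S t → x s = x t ∨ y s = y t) :
    (∀ s t, S s → S t → x s = x t) ∨ ∀ s t, S s → S t → y s = y t := by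
  by_cases h1 : ∀ s t, S s → S t → x s = x t
  · exact Or.inl h1
  push Not at h1
  obtain ⟨s, t, hs, ht, hne⟩ := h1
  have e := (h s t hs ht).resolve_left hne
  have k : ∀ u, S u → y u = y s := fun u hu => by
    by_contra hu'
    exact hne (((h u s hu hs).resolve_right hu').symm.trans ((h u t hu ht).resolve_right (e ▸ hu')))
  exact Or.inr fun u v hu hv => (k u hu).trans (k v hv).symm

theorem conj_comm (h s t : H) : h * s * h⁻¹ * (h * t * h⁻¹) = h * t * h⁻¹ * (h * s * h⁻¹) ↔ s * t = t * s := by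
  simp only [conj_mul, mul_left_inj, mul_right_inj]

namespace Cf
variable {T : H → Prop} {c a : H → Fin 13} (hc : Cf T c a)
include hc

theorem dA (h : H) (p : Fin 13) :
    (∀ s t, T s ∧ c s = p → T t ∧ c t = p → c (h * s * h⁻¹) = c (h * t * h⁻¹)) ∨
      ∀ s t, T s ∧ c s = p → T t ∧ c t = p → a (h * s * h⁻¹) = a (h * t * h⁻¹) :=
  dich (x := fun s => c (h * s * h⁻¹)) (y := fun s => a (h * s * h⁻¹)) fun s t hs ht =>
    (hc.comm (hc.conj h hs.1) (hc.conj h ht.1)).1 ((conj_comm h s t).2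
      ((hc.comm hs.1 ht.1).2 (Or.inl (hs.2.trans ht.2.symm))))

theorem dB (h : H) (l : Fin 13) :
    (∀ s t, T s ∧ a s = l → T t ∧ a t = l → c (h * s * h⁻¹) = c (h * t * h⁻¹)) ∨
      ∀ s t, T s ∧ a s = l → T t ∧ a t = l → a (h * s * h⁻¹) = a (h * t * h⁻¹) :=
  dich (x := fun s => c (h * s * h⁻¹)) (y := fun s => a (h * s * h⁻¹)) fun s t hs ht =>
    (hc.comm (hc.conj h hs.1) (hc.conj h ht.1)).1 ((conj_comm h s t).2
      ((hc.comm hs.1 ht.1).2 (Or.inr (hs.2.trans ht.2.symm))))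

theorem not_both (h : H) {p l : Fin 13} (hI : I p l) {x : H → Fin 13} (hx : x = c ∨ x = a)
    (h1 : ∀ s t, T s ∧ c s = p → T t ∧ c t = p → x (h * s * h⁻¹) = x (h * t * h⁻¹))
    (h2 : ∀ s t, T s ∧ a s = l → T t ∧ a t = l → x (h * s * h⁻¹) = x (h * t * h⁻¹)) : False := by
  obtain ⟨m, hm, hml, q, hq, hpq⟩ := P5 p l hI
  obtain ⟨u, hu, cu, au⟩ := hc.ex hI
  obtain ⟨s, hs, cs, as⟩ := hc.ex hm
  obtain ⟨t, ht, ct, at'⟩ := hc.ex hq
  have e := (h1 s u ⟨hs, cs⟩ ⟨hu, cu⟩).trans (h2 u t ⟨hu, au⟩ ⟨ht, at'⟩)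
  have := (hc.comm hs ht).1 ((conj_comm h s t).1 ((hc.comm (hc.conj h hs) (hc.conj h ht)).2
    (hx.imp (fun k => by rw [← k]; exact e) fun k => by rw [← k]; exact e)))
  rw [cs, ct, as, at'] at this
  tauto

theorem axis_of (h : H) {p l : Fin 13} (hI : I p l) (hp : ∀ u, T u → c u = p → h * u * h⁻¹ = u) {s : H}
    (hs : T s) (as : a s = l) : a (h * s * h⁻¹) = l := by
  obtain ⟨u, hu, cu, au⟩ := hc.ex hI
  rcases hc.dB h l with h2 | h2
  · exact (hc.not_both h hI (Or.inl rfl) (fun s t hs ht => by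
      rw [hp s hs.1 hs.2, hp t ht.1 ht.2, hs.2, ht.2]) h2).elim
  · rw [h2 s u ⟨hs, as⟩ ⟨hu, au⟩, hp u hu cu, au]

theorem pres (h : H) {p : Fin 13} (hp : ∀ u, T u → c u = p → h * u * h⁻¹ = u) {s t : H} (hs : T s) (ht : T t)
    (e : c s = c t) : c (h * s * h⁻¹) = c (h * t * h⁻¹) := by
  obtain ⟨l, hl, hq⟩ := P2 p (c t)
  rcases hc.dA h (c t) with h1 | h1
  · exact h1 s t ⟨hs, e⟩ ⟨ht, rfl⟩
  · exact (hc.not_both h hq (Or.inr rfl) h1 fun s t hs ht => by
      rw [hc.axis_of h hl hp hs.1 hs.2, hc.axis_of h hl hp ht.1 ht.2]).elim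

/-- pairs (element, permutation of the points it induces) -/
def R : Subgroup (H × Equiv.Perm (Fin 13)) where
  carrier := {x | ∀ t, T t → c (x.1 * t * x.1⁻¹) = x.2 (c t)}
  one_mem' := fun t _ => by simp
  mul_mem' := fun {x y} hx hy t ht => by
    have := hx _ (hc.conj y.1 ht)
    rw [hy t ht] at this
    simpa [mul_assoc] using this
  inv_mem' := fun {x} hx t ht => by
    have := hx _ (hc.conj x.1⁻¹ ht)
    simp only [mul_assoc, inv_inv, mul_inv_cancel_left, mul_inv_cancel, mul_one] at this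
    simp [this, mul_assoc]

theorem mem_R {x : H × Equiv.Perm (Fin 13)} : x ∈ hc.R ↔ ∀ t, T t → c (x.1 * t * x.1⁻¹) = x.2 (c t) := Iff.rfl

theorem surj (p : Fin 13) : ∃ t, T t ∧ c t = p := by
  obtain ⟨l, hl, -⟩ := P2 p p
  obtain ⟨t, ht, e, -⟩ := hc.ex hl
  exact ⟨t, ht, e⟩

theorem R_inj {h : H} {π ρ : Equiv.Perm (Fin 13)} (h1 : (h, π) ∈ hc.R) (h2 : (h, ρ) ∈ hc.R) : π = ρ := by
  ext1 p
  obtain ⟨t, ht, rfl⟩ := hc.surj p
  exact (h1 t ht).symm.trans (h2 t ht)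

theorem exists_R {t : H} (ht : T t) : ∃ π, (t, π) ∈ hc.R := by
  choose g hg cg using hc.surj
  have k1 : ∀ u, T u → c u = c t → t * u * t⁻¹ = u := fun u hu e => by
    rw [← (hc.comm hu ht).2 (Or.inl e), mul_inv_cancel_right]
  have k2 : ∀ u, T u → c u = c t → t⁻¹ * u * t⁻¹⁻¹ = u := fun u hu e => by
    rw [inv_inv, mul_assoc, (hc.comm hu ht).2 (Or.inl e), inv_mul_cancel_left]
  refine ⟨⟨fun p => c (t * g p * t⁻¹), fun p => c (t⁻¹ * g p * t⁻¹⁻¹), fun p => ?_, fun p => ?_⟩,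
    fun s hs => hc.pres t k1 hs (hg _) (cg _).symm⟩
  · beta_reduce
    rw [hc.pres t⁻¹ k2 (hg _) (hc.conj t (hg p)) (cg _)]
    simp [mul_assoc, cg]
  · beta_reduce
    rw [hc.pres t k1 (hg _) (hc.conj t⁻¹ (hg p)) (cg _)]
    simp [mul_assoc, cg]

variable {t : H} {π : Equiv.Perm (Fin 13)} (ht : T t) (hπ : (t, π) ∈ hc.R)
include ht hπ

theorem fix {q : Fin 13} (hq : I q (a t)) : π q = q := by
  obtain ⟨s, hs, rfl, as⟩ := hc.ex hq
  have := hπ s hs
  rw [← (hc.comm hs ht).2 (Or.inr as), mul_inv_cancel_right] at this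
  exact this.symm

theorem line {q m : Fin 13} (hm : I (c t) m) (hq : I q m) : I (π q) m := by
  obtain ⟨s, hs, rfl, as⟩ := hc.ex hq
  have := hc.inc (hc.conj t hs)
  rwa [hc.axis_of t hm (fun u hu e => by rw [← (hc.comm hu ht).2 (Or.inl e), mul_inv_cancel_right]) hs as,
    hπ s hs] at this

theorem cube : π ^ 3 = 1 := by
  have := hc.R.pow_mem hπ 3
  rw [Prod.pow_mk, hc.ord ht] at this
  exact hc.R_inj this hc.R.one_mem

theorem move {q : Fin 13} (hq : ¬ I q (a t)) : π q ≠ q := fun e => by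
  obtain ⟨m, hm, hqm⟩ := P2 (c t) q
  obtain ⟨s, hs, rfl, as⟩ := hc.ex hqm
  have h1 := hc.axis_of t hm (fun u hu e => by rw [← (hc.comm hu ht).2 (Or.inl e), mul_inv_cancel_right]) hs as
  have h2 : t * s * t⁻¹ = s := by
    rcases hc.two (hc.conj t hs) hs ((hπ s hs).trans e) (h1.trans as.symm) with h | h
    · exact h
    · have h3 : t ^ 2 * s * (t ^ 2)⁻¹ = s := by
        rw [show t ^ 2 * s * (t ^ 2)⁻¹ = t * (t * s * t⁻¹) * t⁻¹ by simp [sq, mul_assoc], h,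
          show t * s⁻¹ * t⁻¹ = (t * s * t⁻¹)⁻¹ by group, h, inv_inv]
      conv_lhs => rw [← h3]
      rw [show t * (t ^ 2 * s * (t ^ 2)⁻¹) * t⁻¹ = t ^ 3 * s * (t ^ 3)⁻¹ by group, hc.ord ht]
      simp
  rcases (hc.comm ht hs).1 (mul_inv_eq_iff_eq_mul.1 h2) with h | h
  · exact hq (h ▸ hc.inc ht)
  · exact hq (h ▸ hc.inc hs)

omit ht hπ

theorem stab {x b d : Fin 13} (hb : x ≠ b) (hd : x ≠ d) : ∃ y ∈ hc.R, y.2 x = x ∧ y.2 b = d := by
  obtain ⟨m, bm, dm, p, pm, pb, pd, l, pl, bl, xl⟩ := P7 x b d hb hd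
  obtain ⟨t, ht, rfl, rfl⟩ := hc.ex pl
  obtain ⟨π, hπ⟩ := hc.exists_R ht
  have hx := hc.fix ht hπ xl
  have hp := hc.fix ht hπ pl
  have h1 := hc.move ht hπ bl
  have h3 : π (π (π b)) = b := by simpa [pow_succ] using congrArg (· b) (hc.cube ht hπ)
  have n1 : c t ≠ π b := fun e => pb (π.injective (hp.trans e))
  rcases P3 m _ pm b bm pb (π b) (hc.line ht hπ pm bm) n1 h1.symm (π (π b))
    (hc.line ht hπ pm (hc.line ht hπ pm bm)) (fun e => n1 (π.injective (hp.trans e)))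
    (fun e => h1 (by rw [e, h3, ← e])) (fun e => h1 (π.injective e).symm) d dm pd with e | e | e
  · exact ⟨1, hc.R.one_mem, rfl, e.symm⟩
  · exact ⟨_, hπ, hx, e.symm⟩
  · exact ⟨_, hc.R.mul_mem hπ hπ, by simp [hx], e.symm⟩

theorem two_trans {x y z w : Fin 13} (h1 : x ≠ y) (h2 : z ≠ w) : ∃ g ∈ hc.R, g.2 x = z ∧ g.2 y = w := by
  obtain ⟨o, o1, o2⟩ := P8 x z
  obtain ⟨g, hg, -, e⟩ := hc.stab o1 o2
  obtain ⟨k, hk, e1, e2⟩ := hc.stab (x := z) (b := g.2 y) (fun h => h1 (g.2.injective (e.trans h))) h2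
  exact ⟨k * g, hc.R.mul_mem hk hg, by simp [e, e1], by simp [e2]⟩

theorem main [Finite H]
    (hH : Nat.card H = Nat.card (Matrix.ProjectiveSpecialLinearGroup (Fin 3) (ZMod 3))) :
    Nonempty (H ≃* Matrix.ProjectiveSpecialLinearGroup (Fin 3) (ZMod 3)) := by
  let φ : hc.R →* Equiv.Perm (Fin 13) := (MonoidHom.snd _ _).comp hc.R.subtype
  let ψ : hc.R →* H := (MonoidHom.fst _ _).comp hc.R.subtype
  have hψ : Function.Injective ψ := fun x y e => Subtype.ext (Prod.ext e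
    (hc.R_inj (h := x.1.1) x.2 (by rw [show x.1.1 = y.1.1 from e]; exact y.2)))
  let S : Set φ.range := {g | ∃ t, T t ∧ c t = 0 ∧ (t, g.1) ∈ hc.R}
  have hS : ∀ x ∈ S, ∀ y ∈ S, x * y = y * x := by
    rintro x ⟨s, hs, cs, hx⟩ y ⟨t, ht, ct, hy⟩
    have h1 := hc.R.mul_mem hx hy
    have h2 := hc.R.mul_mem hy hx
    rw [Prod.mk_mul_mk] at h1 h2
    rw [(hc.comm hs ht).2 (Or.inl (cs.trans ct.symm))] at h1
    exact Subtype.ext (hc.R_inj h1 h2)
  obtain ⟨p, N, hN, -⟩ := H05.ON.of_normal (G := φ.range) (X := Fin 13)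
    (fun g hg => Subtype.ext (Equiv.ext hg))
    (fun x y z w h1 h2 => by
      obtain ⟨g, hg, e⟩ := hc.two_trans h1 h2
      exact ⟨⟨g.2, ⟨g, hg⟩, rfl⟩, e⟩) 0 (closure S)
    (fun n hn => (closure_le (MulAction.stabilizer φ.range (0 : Fin 13))).2 (by
      rintro x ⟨t, ht, ct, hx⟩
      exact hc.fix ht hx (ct ▸ hc.inc ht)) hn)
    (fun g hg n hn => by
      refine closure_induction (fun x ⟨t, ht, ct, hx⟩ => subset_closure ?_) (by simp)
        (fun x y _ _ hx hy => by simpa [mul_assoc] using mul_mem hx hy)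
        (fun x _ hx => by simpa [mul_assoc] using inv_mem hx) hn
      obtain ⟨g, ⟨⟨k, γ⟩, hk⟩, rfl⟩ := g
      exact ⟨k * t * k⁻¹, hc.conj k ht, (hk t ht).trans (ct ▸ hg),
        hc.R.mul_mem (hc.R.mul_mem hk hx) (hc.R.inv_mem hk)⟩)
    (fun x hx y hy => by
      have := isMulCommutative_closure hS
      exact congrArg Subtype.val (mul_comm' (⟨x, hx⟩ : closure S) ⟨y, hy⟩))
    (by
      obtain ⟨t, ht, ct, at'⟩ := hc.ex (p := 0) (l := 0) (by decide)
      obtain ⟨π, hπ⟩ := hc.exists_R ht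
      refine ⟨⟨π, ⟨_, hπ⟩, rfl⟩, subset_closure ⟨t, ht, ct, hπ⟩, fun e => ?_, 1, by decide,
        hc.fix ht hπ (by rw [at']; decide)⟩
      exact hc.move ht hπ (q := 2) (by rw [at']; decide) (congrArg (fun g : φ.range => g.1 2) e))
  obtain ⟨m, F, _, _, hm, hX, M, -, ⟨e⟩, -⟩ := hN.main
  have hq : 2 ≤ Fintype.card F := Fintype.one_lt_card
  have key : m = 2 ∧ Fintype.card F = 3 := by
    rw [Nat.card_eq_fintype_card, Fintype.card_fin, ← Nat.geomSum_eq hq] at hX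
    generalize Fintype.card F = q at hX hq
    obtain ⟨k, rfl⟩ := Nat.exists_eq_add_of_le hm
    rw [show 2 + k + 1 = 3 + k by ring, Finset.sum_range_add] at hX
    simp only [Finset.sum_range_succ, Finset.range_zero, Finset.sum_empty] at hX
    have h3 : q ≤ 3 := by
      generalize ∑ x ∈ Finset.range k, q ^ (3 + x) = z at hX
      nlinarith
    rcases k with _ | k
    · rw [Finset.sum_range_zero] at hX
      interval_cases q <;> omega
    · rw [Finset.sum_range_succ'] at hX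
      interval_cases q <;> omega
  obtain ⟨rfl, hF⟩ := key
  obtain ⟨e'⟩ := H09.nonempty_psl_equiv_of_card_eq (ι := Fin 3) (F := F) (K := ZMod 3) (by simpa using hF)
  have c1 : Nat.card M = Nat.card H := (Nat.card_congr (e.trans e').toEquiv).trans hH.symm
  have c2 := Nat.card_le_card_of_injective _ hψ
  have : Finite hc.R := Finite.of_injective _ hψ
  have c3 := Nat.card_le_card_of_surjective _ φ.rangeRestrict_surjective
  have c4 := M.card_le_card_group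
  have hM : M = ⊤ := M.eq_top_of_card_eq (by omega)
  exact ⟨(MulEquiv.ofBijective ψ ((Nat.bijective_iff_injective_and_card _).2 ⟨hψ, by omega⟩)).symm.trans
    ((MulEquiv.ofBijective φ.rangeRestrict ((Nat.bijective_iff_surjective_and_card _).2
      ⟨φ.rangeRestrict_surjective, by omega⟩)).trans
      ((topEquiv.symm.trans (MulEquiv.subgroupCongr hM.symm)).trans (e.trans e')))⟩

end Cf

end H07.CG3
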