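import Mathlib
import Cfsg.Agent.H07.CG3a
import Cfsg.Agent.H19.Recog

/-! The transvections of `SL₃(3)` are visible in the commuting graph. -/

set_option autoImplicit false

namespace H07.CG3

open Subgroup Matrix

variable {H : Type*} [Group H]

/-- the data read off from the commuting graph -/
structure Base (θ : Fin 13 → Fin 13 → Bool → H) : Prop where
  big : ∀ h, (h ≠ 1 ∧ 27 ∣ Nat.card (centralizer ({h} : Set H))) ↔ ∃ p l e, I p l ∧ h = θ p l e
  comm : ∀ {p l q m} e e', I p l → I q m → (θ p l e * θ q m e' = θ q m e' * θ p l e ↔ p = q ∨ l = m)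
  same : ∀ {p l} g, I p l → g * θ p l true = θ p l true * g → g * θ p l false = θ p l false * g
  inj : ∀ {p l}, I p l → θ p l true ≠ θ p l false

theorem card_cent_conj (k h : H) :
    Nat.card (centralizer ({k * h * k⁻¹} : Set H)) = Nat.card (centralizer ({h} : Set H)) := by
  refine Nat.card_congr ((MulAut.conj k⁻¹).toEquiv.subtypeEquiv fun g => ?_)
  simp only [mem_centralizer_singleton_iff]
  rw [← conj_comm k⁻¹]
  simp [mul_assoc]

namespace Base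
variable {θ : Fin 13 → Fin 13 → Bool → H} (hb : Base θ)
include hb

theorem ne {p l : Fin 13} (h : I p l) (e : Bool) : θ p l e ≠ 1 := ((hb.big _).2 ⟨p, l, e, h, rfl⟩).1

theorem key {p l : Fin 13} (hI : I p l) {h : H} (h1 : h ≠ 1)
    (hh : ∀ g, g * θ p l true = θ p l true * g → g * h = h * g) : h = θ p l true ∨ h = θ p l false := by
  obtain ⟨q, m, e, hq, rfl⟩ := (hb.big h).1 ⟨h1, ((hb.big _).2 ⟨p, l, true, hI, rfl⟩).2.trans
    (card_dvd_of_le fun g hg => mem_centralizer_singleton_iff.2 (hh g (mem_centralizer_singleton_iff.1 hg)))⟩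
  obtain ⟨rfl, rfl⟩ := P6 p l hI q m hq fun r n hr h =>
    (hb.comm e true hq hr).1 (hh _ ((hb.comm true true hI hr).2 h).symm).symm
  cases e <;> simp

theorem inv {p l : Fin 13} (hI : I p l) : θ p l true * θ p l false = 1 := by
  by_contra h
  rcases hb.key hI h (fun g hg => by rw [← mul_assoc, hg, mul_assoc, hb.same g hI hg, mul_assoc]) with e | e
  · exact hb.ne hI _ (mul_eq_left.1 e)
  · exact hb.ne hI _ (mul_eq_right.1 e)

theorem cube {p l : Fin 13} (hI : I p l) : θ p l true ^ 3 = 1 := by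
  rcases hb.key hI (h := θ p l true * θ p l true) (fun e => hb.inj hI (mul_left_cancel (e.trans (hb.inv hI).symm)))
    (fun g hg => by rw [← mul_assoc, hg, mul_assoc, hg, mul_assoc]) with e | e
  · exact (hb.ne hI _ (mul_eq_left.1 e)).elim
  · rw [pow_succ', sq, e, hb.inv hI]

theorem cf : ∃ (T : H → Prop) (c a : H → Fin 13), Cf T c a := by
  have h0 : ∀ h : H, (∃ p l e, I p l ∧ h = θ p l e) → ∃ p l e, I p l ∧ h = θ p l e := fun _ h => h
  choose! c a e h1 h2 using h0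
  refine ⟨fun h => ∃ p l e, I p l ∧ h = θ p l e, c, a, fun ht => h1 _ ht, fun {p l} hI => ?_,
    fun {s t} hs ht => ?_, fun k t ht => ?_, fun {s t} hs ht e1 e2 => ?_, ?_⟩
  · have ht : ∃ q m e, I q m ∧ θ p l true = θ q m e := ⟨p, l, true, hI, rfl⟩
    exact ⟨_, ht, P6 p l hI _ _ (h1 _ ht) fun r n hr h => (hb.comm _ true (h1 _ ht) hr).1
      (by rw [← h2 _ ht]; exact (hb.comm true true hI hr).2 h)⟩
  · rw [← hb.comm (e s) (e t) (h1 s hs) (h1 t ht), ← h2 s hs, ← h2 t ht]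
  · obtain ⟨h3, h4⟩ := (hb.big t).2 ht
    exact (hb.big _).1 ⟨by simpa [mul_inv_eq_iff_eq_mul] using h3, by rwa [card_cent_conj]⟩
  · have h3 := h2 s hs
    have h4 := h2 t ht
    have h5 := hb.inv (h1 t ht)
    rw [e1, e2] at h3
    generalize c t = p at h3 h4 h5
    generalize a t = l at h3 h4 h5
    rw [h3, h4]
    cases e s <;> cases e t
    · exact Or.inl rfl
    · exact Or.inr (eq_inv_of_mul_eq_one_right h5)
    · exact Or.inr (eq_inv_of_mul_eq_one_left h5)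
    · exact Or.inl rfl
  · rintro _ ⟨p, l, e, hI, rfl⟩
    cases e
    · rw [eq_inv_of_mul_eq_one_right (hb.inv hI), inv_pow, hb.cube hI, inv_one]
    · exact hb.cube hI

theorem transfer [Finite H] {K : Type*} [Group K] [Finite K] (f : {h : K // h ≠ 1} ≃ {g : H // g ≠ 1})
    (hf : ∀ x y : {h : K // h ≠ 1}, (x : K) * y = y * x ↔ (f x : H) * f y = f y * f x) :
    ∃ η : Fin 13 → Fin 13 → Bool → K, Base η := by
  have h0 : ∀ p l e, I p l → ∃ x : K, ∃ hx : x ≠ 1, (f ⟨x, hx⟩ : H) = θ p l e := fun p l e h =>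
    ⟨_, (f.symm ⟨_, hb.ne h e⟩).2, by simp⟩
  choose! η h1 h2 using h0
  refine ⟨η, fun h => ⟨fun ⟨h3, h4⟩ => ?_, ?_⟩, fun e e' hp hq => ?_, fun g hI hg => ?_, fun hI e => ?_⟩
  · rw [H19.card_centralizer_eq_of_commGraph f hf ⟨h, h3⟩] at h4
    obtain ⟨p, l, e, hI, h5⟩ := (hb.big _).1 ⟨(f ⟨h, h3⟩).2, h4⟩
    exact ⟨p, l, e, hI, congrArg Subtype.val (f.injective (Subtype.ext (h5.trans (h2 p l e hI).symm)))⟩
  · rintro ⟨p, l, e, hI, rfl⟩
    refine ⟨h1 p l e hI, ?_⟩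
    rw [H19.card_centralizer_eq_of_commGraph f hf ⟨_, h1 p l e hI⟩, h2 p l e hI]
    exact ((hb.big _).2 ⟨p, l, e, hI, rfl⟩).2
  · rw [hf ⟨_, h1 _ _ e hp⟩ ⟨_, h1 _ _ e' hq⟩, h2 _ _ _ hp, h2 _ _ _ hq, hb.comm e e' hp hq]
  · by_cases g1 : g = 1
    · simp [g1]
    rw [hf ⟨g, g1⟩ ⟨_, h1 _ _ _ hI⟩, h2 _ _ _ hI] at hg ⊢
    exact hb.same _ hI hg
  · refine hb.inj hI ?_
    rw [← h2 _ _ _ hI, ← h2 _ _ _ hI]
    simp only [e]

end Base

/-- points -/
def pt : Fin 13 → Fin 3 → ZMod 3 := ![![1, 0, 0], ![0, 1, 0], ![0, 0, 1], ![2, 1, 0], ![0, 2, 1], ![2, 1, 2],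
  ![1, 1, 1], ![2, 2, 1], ![2, 0, 2], ![1, 1, 0], ![0, 1, 1], ![2, 1, 1], ![2, 0, 1]]
/-- lines -/
def ln : Fin 13 → Fin 3 → ZMod 3 := ![![0, 0, 1], ![0, 1, 0], ![1, 0, 1], ![0, 1, 2], ![1, 2, 1], ![1, 2, 2],
  ![1, 1, 2], ![1, 2, 0], ![1, 0, 2], ![0, 1, 1], ![1, 1, 1], ![1, 1, 0], ![1, 0, 0]]
/-- sign -/
def sg (e : Bool) : ZMod 3 := if e then 1 else -1

theorem I_iff : ∀ p l, I p l ↔ ln l ⬝ᵥ pt p = 0 := by decide +kernel
theorem pt_ex : ∀ v : Fin 3 → ZMod 3, v ≠ 0 → ∃ p e, v = sg e • pt p := by decide +kernel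
theorem ln_ex : ∀ v : Fin 3 → ZMod 3, v ≠ 0 → ∃ p e, v = sg e • ln p := by decide +kernel
theorem pt_ne : ∀ p e, sg e • pt p ≠ 0 := by decide +kernel
theorem ln_ne : ∀ p, ln p ≠ 0 := by decide +kernel
theorem sg_mul : ∀ e e', ∃ d, sg e * sg e' = sg d := by decide +kernel
theorem sg_ne : ∀ e, sg e ≠ 0 := by decide +kernel

/-- transvection matrices -/
def mat (p l : Fin 13) (e : Bool) : Matrix (Fin 3) (Fin 3) (ZMod 3) := 1 + vecMulVec (sg e • pt p) (ln l)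

theorem det_mat : ∀ p l, I p l → ∀ e, (mat p l e).det = 1 := by
  simp only [det_fin_three]; decide +kernel

theorem conj_mat : ∀ p l, I p l → ∃ w u : Fin 3 → ZMod 3, ln l ⬝ᵥ w = 0 ∧ ln l ⬝ᵥ u = 1 ∧
    (of ![pt p, w, u])ᵀ.det = 1 ∧ ∀ e, mat p l e * (of ![pt p, w, u])ᵀ = (of ![pt p, w, u])ᵀ * mat 0 0 e := by
  simp only [det_fin_three]; decide +kernel

theorem mat_inv : ∀ p l, I p l → mat p l true * mat p l false = 1 ∧ mat p l true ≠ mat p l false := by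
  decide +kernel

theorem tv_comm {F : Type*} [Field F] {v φ w ψ : Fin 3 → F} (hv : v ≠ 0) (hφ : φ ≠ 0) (hw : w ≠ 0) (hψ : ψ ≠ 0)
    (h2 : ψ ⬝ᵥ w = 0) :
    (1 + vecMulVec v φ) * (1 + vecMulVec w ψ) = (1 + vecMulVec w ψ) * (1 + vecMulVec v φ) ↔
      φ ⬝ᵥ w = 0 ∧ ψ ⬝ᵥ v = 0 := by
  have : (1 + vecMulVec v φ) * (1 + vecMulVec w ψ) = (1 + vecMulVec w ψ) * (1 + vecMulVec v φ) ↔
      (φ ⬝ᵥ w) • vecMulVec v ψ = (ψ ⬝ᵥ v) • vecMulVec w φ := by
    simp only [add_mul, mul_add, one_mul, mul_one, vecMulVec_mul_vecMulVec, vecMulVec_smul]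
    rw [← sub_eq_zero, ← sub_eq_zero (a := _ • _)]
    congr! 1
    abel
  rw [this]
  refine ⟨fun h => ?_, fun h => by rw [h.1, h.2, zero_smul, zero_smul]⟩
  have h3 := congrArg (· *ᵥ w) h
  simp only [smul_mulVec, vecMulVec_mulVec, h2, MulOpposite.op_zero, zero_smul, smul_zero] at h3
  have h4 : φ ⬝ᵥ w = 0 ∨ ψ ⬝ᵥ v = 0 := by
    rcases smul_eq_zero.1 h3.symm with h | h
    · exact Or.inr h
    · exact Or.inl (by simpa [hw] using h)
  rcases h4 with h4 | h4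
  · rw [h4, zero_smul, eq_comm, smul_eq_zero] at h
    exact ⟨h4, h.resolve_right (by simp [hw, hφ])⟩
  · rw [h4, zero_smul, smul_eq_zero] at h
    exact ⟨h.resolve_right (by simp [hv, hψ]), h4⟩

open Classical in
/-- transvections -/
noncomputable def tv (p l : Fin 13) (e : Bool) : SpecialLinearGroup (Fin 3) (ZMod 3) :=
  if h : I p l then ⟨mat p l e, det_mat p l h e⟩ else 1

theorem tv_val {p l : Fin 13} (h : I p l) (e : Bool) : (tv p l e).1 = mat p l e := by simp [tv, h]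

theorem vmul (g h : SpecialLinearGroup (Fin 3) (ZMod 3)) : (g * h).1 = g.1 * h.1 := rfl
theorem vext {g h : SpecialLinearGroup (Fin 3) (ZMod 3)} : g = h ↔ g.1 = h.1 := Subtype.ext_iff

/-- unitriangular group -/
def U : Subgroup (SpecialLinearGroup (Fin 3) (ZMod 3)) where
  carrier := {g | ∃ a b c : ZMod 3, g.1 = !![1, a, b; 0, 1, c; 0, 0, 1]}
  one_mem' := ⟨0, 0, 0, by decide +kernel⟩
  mul_mem' := by
    rintro g h ⟨a, b, c, e⟩ ⟨a', b', c', e'⟩
    exact ⟨a' + a, b' + (a * c' + b), c' + c, by simp [e, e']⟩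
  inv_mem' := by
    rintro g ⟨a, b, c, e⟩
    exact ⟨-a, a * c - b, -c, by simp [e, adjugate_fin_three]⟩

theorem U_p : IsPGroup 3 U := by
  have k : ∀ a b c : ZMod 3, !![1, a, b; 0, 1, c; 0, 0, 1] ^ 3 = 1 := by decide +kernel
  rintro ⟨g, a, b, c, e⟩
  exact ⟨1, Subtype.ext (vext.2 (show g.1 ^ 3 = 1 by rw [e, k]))⟩

theorem cent_U {g : SpecialLinearGroup (Fin 3) (ZMod 3)} (h1 : g ≠ 1) (h : ∀ u ∈ U, u * g = g * u) :
    ∃ e, g = tv 0 0 e := by
  have h2 : !![1, 1, 0; 0, 1, 0; 0, 0, 1] * g.1 = g.1 * !![1, 1, 0; 0, 1, 0; 0, 0, 1] :=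
    vext.1 (h ⟨!![1, 1, 0; 0, 1, 0; 0, 0, 1], by simp [det_fin_three]⟩ ⟨1, 0, 0, rfl⟩)
  have h3 : !![1, 0, 0; 0, 1, 1; 0, 0, 1] * g.1 = g.1 * !![1, 0, 0; 0, 1, 1; 0, 0, 1] :=
    vext.1 (h ⟨!![1, 0, 0; 0, 1, 1; 0, 0, 1], by simp [det_fin_three]⟩ ⟨0, 0, 1, rfl⟩)
  have h4 := g.2
  have h5 : g.1 ≠ 1 := fun e => h1 (Subtype.ext e)
  suffices ∃ e, g.1 = mat 0 0 e from this.imp fun e he => Subtype.ext (he.trans (tv_val (by decide) e).symm)
  generalize g.1 = M at h2 h3 h4 h5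
  rw [M.eta_fin_three] at h2 h3 h4 h5 ⊢
  generalize M 0 0 = a, M 0 1 = b, M 0 2 = c, M 1 0 = d, M 1 1 = e, M 1 2 = f, M 2 0 = x, M 2 1 = y,
    M 2 2 = z at h2 h3 h4 h5 ⊢
  simp only [mul_fin_three, EmbeddingLike.apply_eq_iff_eq, vecCons_inj] at h2 h3
  obtain ⟨⟨a1, a2, a3, -⟩, -⟩ := h2
  obtain ⟨⟨-, -, b1, -⟩, ⟨b2, b3, b4, -⟩, -⟩ := h3
  obtain rfl : d = 0 := by linear_combination a1
  obtain rfl : e = a := by linear_combination a2
  obtain rfl : f = 0 := by linear_combination a3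
  obtain rfl : b = 0 := by linear_combination -b1
  obtain rfl : x = 0 := by linear_combination b2
  obtain rfl : y = 0 := by linear_combination b3
  obtain rfl : z = e := by linear_combination b4
  rw [det_fin_three] at h4
  revert z c
  decide +kernel

theorem card_SL : Nat.card (SpecialLinearGroup (Fin 3) (ZMod 3)) = 3 ^ 3 * 208 := by
  have h := H09.card_SL_mul (ι := Fin 3) (F := ZMod 3)
  rw [H09.card_GL] at h
  simp only [ZMod.card, Fintype.card_fin, Fin.prod_univ_three] at h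
  change _ = (3 ^ 3 - 3 ^ 0) * (3 ^ 3 - 3 ^ 1) * (3 ^ 3 - 3 ^ 2) at h
  omega

theorem tv_conj (k : SpecialLinearGroup (Fin 3) (ZMod 3)) (e : Bool) :
    ∃ p l d, I p l ∧ k * tv 0 0 e * k⁻¹ = tv p l d := by
  have h1 : k.1 * (k⁻¹).1 = 1 := by rw [← vmul, mul_inv_cancel]; rfl
  have h2 : (k⁻¹).1 * k.1 = 1 := by rw [← vmul, inv_mul_cancel]; rfl
  obtain ⟨p, d, hp⟩ := pt_ex (k.1 *ᵥ (sg e • pt 0)) fun h => pt_ne 0 e (by
    simpa only [mulVec_mulVec, h2, one_mulVec, mulVec_zero] using congrArg ((k⁻¹).1 *ᵥ ·) h)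
  obtain ⟨l, d', hl⟩ := ln_ex (ln 0 ᵥ* (k⁻¹).1) fun h => ln_ne 0 (by
    simpa only [vecMul_vecMul, h2, vecMul_one, zero_vecMul] using congrArg (· ᵥ* k.1) h)
  obtain ⟨x, hx⟩ := sg_mul d' d
  have hI : I p l := by
    have : (ln 0 ᵥ* (k⁻¹).1) ⬝ᵥ (k.1 *ᵥ (sg e • pt 0)) = 0 := by
      rw [dotProduct_mulVec, vecMul_vecMul, h2, vecMul_one, dotProduct_smul, (I_iff 0 0).1 (by decide), smul_zero]
    rw [hp, hl, smul_dotProduct, dotProduct_smul] at this
    simpa [sg_ne, I_iff] using this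
  refine ⟨p, l, x, hI, vext.2 ?_⟩
  rw [tv_val hI, vmul, vmul, tv_val (by decide), mat, mul_add, mul_one,
    add_mul, h1, mul_vecMulVec, vecMulVec_mul, hp, hl, mat, vecMulVec_smul, ← smul_vecMulVec, smul_smul, hx]

theorem base_SL : Base tv := by
  have := Fact.mk Nat.prime_three
  obtain ⟨Q, hQ⟩ := U_p.exists_le_sylow
  have hc : Nat.card Q = 3 ^ 3 := by
    rw [Q.card_eq_multiplicity, card_SL, Nat.factorization_mul (by norm_num) (by norm_num),
      Nat.Prime.factorization_pow Nat.prime_three, Finsupp.add_apply, Finsupp.single_eq_same,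
      Nat.factorization_eq_zero_of_not_dvd (by norm_num)]
  have hs : ∀ {p l} (g : SpecialLinearGroup (Fin 3) (ZMod 3)), I p l →
      (g * tv p l true = tv p l true * g ↔ g * tv p l false = tv p l false * g) := fun {p l} g hI => by
    have : tv p l false = (tv p l true)⁻¹ := eq_inv_of_mul_eq_one_right (vext.2 (by
      rw [vmul, tv_val hI, tv_val hI]; exact (mat_inv p l hI).1))
    rw [this]
    exact Commute.inv_right_iff.symm
  refine ⟨fun g => ⟨fun ⟨h1, h2⟩ => ?_, ?_⟩, fun {p l q m} e e' hp hq => ?_, fun g hI => (hs g hI).1,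
    fun {p l} hI e => (mat_inv p l hI).2 (by rw [← tv_val hI, e, tv_val hI])⟩
  · obtain ⟨K, hK⟩ := Sylow.exists_subgroup_card_pow_prime 3 (n := 3) h2
    have hK' : Nat.card (K.map (centralizer {g}).subtype) = 3 ^ 3 := by rwa [card_map_of_injective (subtype_injective _)]
    obtain ⟨S, hS⟩ := (IsPGroup.of_card hK').exists_le_sylow
    obtain ⟨k, rfl⟩ := MulAction.exists_smul_eq (SpecialLinearGroup (Fin 3) (ZMod 3)) Q S
    have h3 := eq_of_le_of_card_ge hS (by rw [hK', ← hc, Nat.card_congr (Q.equivSMul k).toEquiv])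
    obtain ⟨e, he⟩ := cent_U (g := k⁻¹ * g * k) (by simpa [mul_assoc, inv_mul_eq_iff_eq_mul] using h1) fun u hu => by
      have h4 : k * u * k⁻¹ ∈ K.map (centralizer {g}).subtype := by
        rw [h3]; exact smul_mem_pointwise_smul _ (MulAut.conj k) _ (hQ hu)
      have h5 := mem_centralizer_singleton_iff.1 (map_subtype_le _ h4)
      rw [← conj_comm k]
      simpa [mul_assoc] using h5
    obtain ⟨p, l, d, hI, h⟩ := tv_conj k e
    exact ⟨p, l, d, hI, by rw [← h, ← he]; group⟩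
  · rintro ⟨p, l, e, hI, rfl⟩
    have : Nontrivial Q := Finite.one_lt_card_iff_nontrivial.1 (by rw [hc]; norm_num)
    have := Q.isPGroup'.center_nontrivial
    obtain ⟨⟨z, hz⟩, z1⟩ := exists_ne (1 : center Q)
    have h1 : ∀ u ∈ (Q : Subgroup _), u * z.1 = z.1 * u := fun u hu =>
      congrArg Subtype.val (mem_center_iff.1 hz ⟨u, hu⟩)
    obtain ⟨d, hd⟩ := cent_U (g := z.1) (fun h => z1 (Subtype.ext (Subtype.ext h))) fun u hu => h1 u (hQ hu)
    obtain ⟨w, u, -, -, h2, h3⟩ := conj_mat p l hI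
    obtain ⟨k, hk⟩ : ∃ k : SpecialLinearGroup (Fin 3) (ZMod 3), k.1 = (of ![pt p, w, u])ᵀ := ⟨⟨_, h2⟩, rfl⟩
    have h4 : tv p l e = k * tv 0 0 e * k⁻¹ := eq_mul_inv_of_mul_eq (vext.2 (by
      rw [vmul, vmul, tv_val hI, tv_val (by decide), hk, h3]))
    refine ⟨fun h => pt_ne p e ?_, ?_⟩
    · simpa [tv_val hI, mat, ln_ne] using vext.1 h
    · rw [h4, card_cent_conj]
      refine (hc.symm.dvd : 27 ∣ _).trans (card_dvd_of_le fun u hu => mem_centralizer_singleton_iff.2 ?_)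
      have h5 := h1 u hu
      rw [hd] at h5
      cases d <;> cases e
      exacts [h5, (hs u (by decide)).2 h5, (hs u (by decide)).1 h5, h5]
  · rw [vext, vmul, vmul, tv_val hp, tv_val hq, mat, mat,
      tv_comm (pt_ne _ _) (ln_ne _) (pt_ne _ _) (ln_ne _) (by rw [dotProduct_smul, (I_iff _ _).1 hq, smul_zero]),
      ← P1 p l hp q m hq]
    simp [sg_ne, I_iff]

theorem recog [Finite H]
    (f : {h : H // h ≠ 1} ≃ {g : ProjectiveSpecialLinearGroup (Fin 3) (ZMod 3) // g ≠ 1})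
    (hf : ∀ x y : {h : H // h ≠ 1}, (x : H) * y = y * x ↔
      (f x : ProjectiveSpecialLinearGroup (Fin 3) (ZMod 3)) * f y = f y * f x) :
    Nonempty (H ≃* ProjectiveSpecialLinearGroup (Fin 3) (ZMod 3)) := by
  have hZ : center (SpecialLinearGroup (Fin 3) (ZMod 3)) = ⊥ := by
    rw [← card_eq_one, H09.card_center_SL]; simp
  let e : ProjectiveSpecialLinearGroup (Fin 3) (ZMod 3) ≃* SpecialLinearGroup (Fin 3) (ZMod 3) :=
    (QuotientGroup.quotientMulEquivOfEq hZ).trans QuotientGroup.quotientBot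
  obtain ⟨η, hη⟩ := base_SL.transfer (f.trans (e.toEquiv.subtypeEquiv fun g => by simp)) fun x y => by
    rw [hf]
    simp only [Equiv.trans_apply, Equiv.subtypeEquiv_apply, MulEquiv.toEquiv_eq_coe, EquivLike.coe_coe,
      ← map_mul, EmbeddingLike.apply_eq_iff_eq]
  obtain ⟨T, c, a, hc⟩ := hη.cf
  exact hc.main (H19.card_eq_of_commGraph f)

end H07.CG3
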