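import Cfsg.Agent.H07.CharBasic
import Cfsg.Agent.H07.Det
import Cfsg.Agent.H05.FrobeniusSchur

/-!
# Groups with `χ(1) - χ(u) = 4` or `χ(u) = 0` for all non-principal irreducible `χ`: character part
-/

set_option autoImplicit false

namespace H07.D4

open Cfsg H05 Finset
open scoped ComplexConjugate

variable {G : Type*} [Group G] [Fintype G] {u : G} {χ ρ Θ Θ' η : G → ℂ} {d v d' v' : ℤ}

local notation "⟪" a ", " b "⟫" => classInner a b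

def Hyp (u : G) : Prop := ∀ χ : G → ℂ, IsIrrCharacter G χ → χ ≠ 1 → χ 1 - χ u = 4 ∨ χ u = 0

theorem ci (a b c e : G → ℂ) (h : ∀ g, a g * conj (b g) = c g * conj (e g)) : ⟪a, b⟫ = ⟪c, e⟫ := by
  simp only [classInner_def, h]

omit [Fintype G] in
theorem Hyp.lin [Finite G] (h : Hyp u) (φ : G →* ℂˣ) : φ = 1 := by
  by_contra h1
  have h2 := norm_monoidHom_eq_one φ u
  rcases h _ (isIrrCharacter_monoidHom φ) (fun h3 => h1 (by ext g; simpa using congrFun h3 g)) with h3 | h3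
  · rw [show (φ u : ℂ) = -3 by simp at h3; linear_combination -h3] at h2; norm_num at h2
  · simp [h3] at h2

omit [Fintype G] in
theorem Hyp.roots [Finite G] (h : Hyp u) (hχ : IsCharacter G χ) {n : ℕ} (hn : χ 1 = n) (g : G) :
    ∃ ω : Fin n → ℂ, (∀ i, ‖ω i‖ = 1) ∧ ∏ i, ω i = 1 ∧ ∀ k : ℕ, χ (g ^ k) = ∑ i, ω i ^ k := by
  obtain rfl := charDegree_eq_of_apply_one hn
  obtain ⟨ω, h1, h2⟩ := hχ.exists_roots g
  exact ⟨ω, fun i => Complex.norm_eq_one_of_pow_eq_one (h1 i) (orderOf_pos g).ne',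
    by rw [← detHom_eq_prod hχ g ω h2, h.lin (detHom χ)]; rfl, h2⟩

omit [Fintype G] in
theorem Hyp.newton [Finite G] (h : Hyp u) (hχ : IsCharacter G χ) (h3 : χ 1 = 3) (g : G) :
    χ (g * g) = χ g ^ 2 - 2 * conj (χ g) := by
  obtain ⟨ω, h1, h2, h4⟩ := h.roots hχ (n := 3) h3 g
  have h5 : ∀ i, ω i * conj (ω i) = 1 := fun i => by rw [Complex.mul_conj, Complex.normSq_eq_norm_sq, h1]; simp
  have h6 := h4 1
  rw [← sq, h4 2, pow_one] at *
  simp only [h6, Fin.sum_univ_three, Fin.prod_univ_three, pow_one, map_add] at *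
  linear_combination -2 * (conj (ω 0) + conj (ω 1) + conj (ω 2)) * h2 + 2 * ω 1 * ω 2 * h5 0 +
    2 * ω 0 * ω 2 * h5 1 + 2 * ω 0 * ω 1 * h5 2

structure Ch (u : G) (Θ : G → ℂ) (d v : ℤ) : Prop where
  ch : IsCharacter G Θ
  deg : Θ 1 = d
  val : Θ u = v
  sq : Θ (u * u) = d

omit [Fintype G] in
theorem Ch.mul (h : Ch u Θ d v) (h' : Ch u Θ' d' v') : Ch u (Θ * Θ') (d * d') (v * v') :=
  ⟨h.ch.mul h'.ch, by simp [h.deg, h'.deg], by simp [h.val, h'.val], by simp [h.sq, h'.sq]⟩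

theorem Ch.star (h : Ch u Θ d v) : Ch u (star Θ) d v :=
  ⟨h.ch.conj, by simp [h.deg], by simp [h.val], by simp [h.sq]⟩

omit [Fintype G] in
theorem Ch.one : Ch u (1 : G → ℂ) 1 1 := ⟨isCharacter_one, by simp, by simp, by simp⟩

theorem Ch.sub (h : Ch u Θ d v) (hη : IsIrrCharacter G η) (h' : Ch u η d' v') (h0 : ⟪Θ, η⟫ ≠ 0) :
    Ch u (Θ - η) (d - d') (v - v') :=
  ⟨h.ch.sub_constituent hη h0, by simp [h.deg, h'.deg], by simp [h.val, h'.val], by simp [h.sq, h'.sq]⟩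

theorem irr_star (h : IsIrrCharacter G χ) : IsIrrCharacter G (star χ) := h.conj

theorem Hyp.ne_two (h : Hyp u) (hχ : IsIrrCharacter G χ) (h2 : χ 1 = 2) : χ u ≠ -2 := fun h3 => by
  have e : ⟪χ * star χ, 1⟫ = 1 := (ci _ _ _ _ (by simp)).trans hχ.classInner_self
  have h4 := (hχ.isCharacter.mul (irr_star hχ).isCharacter).sub_constituent isIrrCharacter_one
    (e.trans_ne one_ne_zero)
  obtain ⟨η, hη, h5⟩ := h4.exists_constituent fun h5 => by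
    have := congrFun h5 1
    norm_num [h2] at this
  have h6 := apply_eq_of_constituent h4 hη h5 (x := u) (by simp [h2, h3, map_ofNat])
  rcases h η hη (by rintro rfl; exact h5 (by rw [classInner_sub_left, e, isIrrCharacter_one.classInner_self, sub_self]))
    with h7 | h7
  · simp [h6] at h7
  · exact hη.apply_one_ne_zero (h6 ▸ h7)

theorem Hyp.deg (h : Hyp u) (hχ : IsIrrCharacter G χ) (h1 : χ ≠ 1) :
    χ u = 0 ∨ ∃ d : ℤ, 3 ≤ d ∧ χ 1 = d ∧ χ u = d - 4 := by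
  refine or_iff_not_imp_left.2 fun h0 => ?_
  have h2 := (h χ hχ h1).resolve_right h0
  obtain ⟨n, hn, h3⟩ := hχ.exists_degree_pos
  refine ⟨n, ?_, by simpa using h3, by rw [← h2, h3]; simp⟩
  by_contra! h4
  obtain rfl | rfl : n = 1 ∨ n = 2 := by omega
  · obtain ⟨φ, rfl⟩ := hχ.isCharacter.exists_monoidHom (by simpa using h3)
    exact h1 (by rw [h.lin φ]; rfl)
  · exact h.ne_two hχ h3 (by rw [h3] at h2; linear_combination -h2)

theorem Hyp.irr (h : Hyp u) (hχ : IsIrrCharacter G χ) (h1 : χ ≠ 1) (h2 : χ (u * u) = χ 1) :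
    ∃ d v : ℤ, Ch u χ d v ∧ 4 ≤ d - v ∧ (d - v = 4 ∨ v = 0 ∧ 4 ∣ d) ∧ 3 ≤ d := by
  rcases h.deg hχ h1 with h3 | ⟨d, hd, h3, h4⟩
  swap
  · exact ⟨d, d - 4, ⟨hχ.isCharacter, h3, by simpa using h4, h2.trans h3⟩, by omega, by omega, hd⟩
  obtain ⟨n, hn, h4⟩ := hχ.exists_degree_pos
  obtain ⟨ω, h5, h6, h7⟩ := h.roots hχ.isCharacter h4 u
  have h8 : ∀ i, ω i = 1 ∨ ω i = -1 := fun i => sq_eq_one_iff.1 <|
    eq_one_of_sum_eq_card (fun i => ω i ^ 2) (by simp [h5]) (by rw [← h7, sq, h2, h4]; simp) i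
  classical
  let m := #{i | ω i = -1}
  have h9 : ∀ f : ℂ → ℂ, ∀ i, f (ω i) = if ω i = -1 then f (-1) else f 1 := fun f i => by
    rcases h8 i with h | h <;> simp [h, show (1 : ℂ) ≠ -1 by norm_num]
  have e1 : (-1 : ℂ) ^ m = 1 := by simpa [prod_ite] using (prod_congr rfl fun i _ => h9 id i).symm.trans h6
  have e2 : (n : ℂ) = 2 * m := by
    have := h7 1
    rw [pow_one, h3, sum_congr rfl fun i _ => h9 (fun x => x ^ 1) i] at this
    have e := card_filter_add_card_filter_not (s := univ) (fun i => ω i = -1)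
    rw [card_fin] at e
    simp [sum_ite] at this
    rw [← e]; push_cast; linear_combination -this
  obtain ⟨k, hk⟩ := (neg_one_pow_eq_one_iff_even (by norm_num)).1 e1
  have e3 : n = 2 * m := by exact_mod_cast e2
  exact ⟨n, 0, ⟨hχ.isCharacter, by simpa using h4, by simpa using h3, by simpa [h4] using h2⟩, by omega,
    by omega, by omega⟩

theorem ci_add_ne (h : IsCharacter G Θ) (h' : IsCharacter G Θ') (hη : IsCharacter G η) (h0 : ⟪Θ, η⟫ ≠ 0) :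
    ⟪Θ + Θ', η⟫ ≠ 0 := by
  obtain ⟨m, hm⟩ := h.exists_classInner_eq_nat hη
  obtain ⟨n, hn⟩ := h'.exists_classInner_eq_nat hη
  rw [classInner_add_left, hm, hn, ← Nat.cast_add, Nat.cast_ne_zero]
  rw [hm, Nat.cast_ne_zero] at h0
  omega

theorem Hyp.bound (h : Hyp u) (hΘ : Ch u Θ d v) (h1 : ⟪Θ, 1⟫ = 0) :
    (Θ = 0 ∧ d = v ∨ 4 ≤ d - v) ∧ (v < 0 → ∃ ρ, IsIrrCharacter G ρ ∧ Ch u ρ 3 (-1) ∧ ⟪Θ, ρ⟫ ≠ 0) := by
  refine hΘ.ch.induction_on (P := fun Θ => ∀ d v, Ch u Θ d v → ⟪Θ, 1⟫ = 0 → (Θ = 0 ∧ d = v ∨ 4 ≤ d - v) ∧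
    (v < 0 → ∃ ρ, IsIrrCharacter G ρ ∧ Ch u ρ 3 (-1) ∧ ⟪Θ, ρ⟫ ≠ 0)) (fun d v hΘ _ => ?_)
    (fun χ hχ d v hΘ h1 => ?_) (fun φ ψ hφ hψ ih ih' d v hΘ h1 => ?_) d v hΘ h1
  · obtain rfl : 0 = d := by simpa [eq_comm] using hΘ.deg
    obtain rfl : 0 = v := by simpa [eq_comm] using hΘ.val
    simp
  · obtain ⟨d', v', h2, h3, h4, h5⟩ := h.irr hχ (by rintro rfl; simp [hχ.classInner_self] at h1)
      (hΘ.sq.trans hΘ.deg.symm)
    obtain rfl : d = d' := by exact_mod_cast hΘ.deg.symm.trans h2.deg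
    obtain rfl : v = v' := by exact_mod_cast hΘ.val.symm.trans h2.val
    refine ⟨.inr h3, fun h6 => ⟨χ, hχ, ?_, by simp [hχ.classInner_self]⟩⟩
    obtain ⟨rfl, rfl⟩ : d = 3 ∧ v = -1 := by omega
    exact h2
  have e1 : ⟪φ, 1⟫ = 0 := by_contra fun h2 => ci_add_ne hφ hψ isCharacter_one h2 h1
  have e2 : ⟪ψ, 1⟫ = 0 := by_contra fun h2 => ci_add_ne hψ hφ isCharacter_one h2 (add_comm φ ψ ▸ h1)
  have e3 := apply_eq_of_add_apply_eq hφ hψ (hΘ.sq.trans hΘ.deg.symm)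
  obtain ⟨n, hn⟩ := hφ.exists_degree
  obtain ⟨w, hw⟩ : ∃ w : ℤ, φ u = w := by
    obtain ⟨s, hs, rfl⟩ := hφ.exists_multiset
    suffices ∀ η ∈ s, ∃ w : ℤ, η u = w by
      clear * - this
      induction s using Multiset.induction_on with
      | empty => exact ⟨0, by simp⟩
      | cons a s ih =>
        obtain ⟨w, hw⟩ := ih fun η hη => this η (Multiset.mem_cons_of_mem hη)
        obtain ⟨w', hw'⟩ := this a (Multiset.mem_cons_self ..)
        exact ⟨w' + w, by simp [hw, hw']⟩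
    intro η hη
    by_cases h2 : η = 1
    · exact ⟨1, by simp [h2]⟩
    exact (h.deg (hs η hη) h2).elim (fun h => ⟨0, by simp [h]⟩) fun ⟨d, _, _, h⟩ => ⟨d - 4, by simp [h]⟩
  have c1 : Ch u φ n w := ⟨hφ, by simpa using hn, hw, by simpa [hn] using e3⟩
  have c2 : Ch u ψ (d - n) (v - w) := ⟨hψ, by simp [← hΘ.deg, hn], by simp [← hΘ.val, hw],
    by simp [← hΘ.sq, e3, hn]⟩
  obtain ⟨a1, a2⟩ := ih _ _ c1 e1
  obtain ⟨b1, b2⟩ := ih' _ _ c2 e2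
  refine ⟨?_, fun h2 => ?_⟩
  · rcases a1 with ⟨rfl, a1⟩ | a1 <;> rcases b1 with ⟨rfl, b1⟩ | b1 <;> first | omega | exact .inl ⟨by simp, by omega⟩
  by_cases h3 : w < 0
  · obtain ⟨ρ, r1, r2, r3⟩ := a2 h3
    exact ⟨ρ, r1, r2, ci_add_ne hφ hψ r1.isCharacter r3⟩
  · obtain ⟨ρ, r1, r2, r3⟩ := b2 (by omega)
    exact ⟨ρ, r1, r2, add_comm φ ψ ▸ ci_add_ne hψ hφ r1.isCharacter r3⟩

theorem Hyp.peel (h : Hyp u) (hΘ : Ch u Θ d v) (h1 : ⟪Θ, 1⟫ = 0) (h2 : d ≠ 0) :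
    ∃ η d' v', IsIrrCharacter G η ∧ Ch u η d' v' ∧ 4 ≤ d' - v' ∧ (d' - v' = 4 ∨ v' = 0 ∧ 4 ∣ d') ∧
      Ch u (Θ - η) (d - d') (v - v') ∧ ⟪Θ - η, 1⟫ = 0 := by
  obtain ⟨η, hη, h3⟩ := hΘ.ch.exists_constituent fun h3 => h2 (by simpa [h3, eq_comm] using hΘ.deg)
  have h4 : η ≠ 1 := by rintro rfl; exact h3 h1
  obtain ⟨d', v', h5, h6, h7, -⟩ := h.irr hη h4 (apply_eq_of_constituent hΘ.ch hη h3 (hΘ.sq.trans hΘ.deg.symm))
  exact ⟨η, d', v', hη, h5, h6, h7, hΘ.sub hη h5 h3, by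
    rw [classInner_sub_left, h1, hη.classInner_of_ne isIrrCharacter_one h4, sub_zero]⟩

theorem Hyp.irr_of (h : Hyp u) (hΘ : Ch u Θ d v) (h1 : ⟪Θ, 1⟫ = 0) (h2 : d ≠ 0) (h4 : d - v = 4) :
    IsIrrCharacter G Θ := by
  obtain ⟨η, d', v', a1, -, a2, -, a3, a4⟩ := h.peel hΘ h1 h2
  rcases (h.bound a3 a4).1 with ⟨b, -⟩ | b
  · exact sub_eq_zero.1 b ▸ a1
  · omega

theorem Hyp.nine (h : Hyp u) (hΘ : Ch u Θ 9 1) (h1 : ⟪Θ, 1⟫ = 0) : ⟪Θ, Θ⟫ = 2 := by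
  obtain ⟨η, d', v', a1, a5, a2, a6, a3, a4⟩ := h.peel hΘ h1 (by norm_num)
  have h2 : 9 - d' ≠ 0 ∧ d' - v' = 4 := by
    rcases (h.bound a3 a4).1 with ⟨b, b'⟩ | b
    · obtain rfl := sub_eq_zero.1 b
      obtain rfl : 9 = d' := by exact_mod_cast hΘ.deg.symm.trans a5.deg
      omega
    · refine ⟨fun h3 => ?_, by omega⟩
      have : ((1 - v' : ℤ) : ℂ) = 0 :=
        a3.val.symm.trans (congrFun (a3.ch.eq_zero_of_apply_one (by simpa [h3] using a3.deg)) u)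
      norm_cast at this
      omega
  have h3 := h.irr_of a3 a4 h2.1 (by omega)
  have h4 : η ≠ Θ - η := fun h4 => by
    have := a5.deg.symm.trans ((congrFun h4 1).trans a3.deg)
    norm_cast at this
    omega
  rw [← add_sub_cancel η Θ, classInner_add_left, classInner_add_right, classInner_add_right, a1.classInner_self,
    h3.classInner_self, a1.classInner_of_ne h3 h4, h3.classInner_of_ne a1 h4.symm]
  norm_num

end H07.D4
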