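import Cfsg.Agent.H07.D4a

/-!
# Groups with `χ(1) - χ(u) = 4` or `χ(u) = 0`: the characters of degree three; `|C(u)| = 4`
-/

set_option autoImplicit false

namespace H07.D4

open Cfsg H05 Finset
open scoped ComplexConjugate

variable {G : Type*} [Group G] [Fintype G] {u : G} {χ ρ τ α β : G → ℂ} {d v d' v' : ℤ}

local notation "⟪" a ", " b "⟫" => classInner a b

theorem ci_deg (h1 : IsIrrCharacter G α) (h2 : IsIrrCharacter G β) (c1 : Ch u α d v) (c2 : Ch u β d' v')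
    (h : d ≠ d' := by norm_num) : ⟪α, β⟫ = 0 :=
  h1.classInner_of_ne h2 fun e => h (by exact_mod_cast c1.deg.symm.trans (e ▸ c2.deg))

structure T3 (u : G) (χ : G → ℂ) : Prop where
  irr : IsIrrCharacter G χ
  c : Ch u χ 3 (-1)

theorem T3.star (h : T3 u χ) : T3 u (star χ) := ⟨irr_star h.irr, h.c.star⟩

theorem T3.one (h : T3 u χ) : ⟪χ, 1⟫ = 0 := ci_deg h.irr isIrrCharacter_one h.c Ch.one

theorem T3.th (h : T3 u χ) : Ch u (χ * Star.star χ - 1) 8 0 ∧ ⟪χ * Star.star χ, 1⟫ = 1 :=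
  have e : ⟪χ * Star.star χ, 1⟫ = 1 := (ci _ _ _ _ (by simp)).trans h.irr.classInner_self
  ⟨(h.c.mul h.c.star).sub isIrrCharacter_one Ch.one (e.trans_ne one_ne_zero), e⟩

namespace Hyp
variable (h : Hyp u)
include h

theorem sym (hχ : T3 u χ) : Ch u (χ * χ - star χ) 6 2 :=
  ⟨by convert hχ.c.ch.symSq using 2; simp [h.newton hχ.c.ch hχ.c.deg]; ring, by norm_num [hχ.c.deg],
    by norm_num [hχ.c.val], by norm_num [hχ.c.sq]⟩

theorem two (hχ : T3 u χ) (hρ : T3 u ρ) (hne : χ ≠ ρ) : ⟪χ * star χ, ρ * star ρ⟫ = 2 :=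
  (ci _ _ _ _ (by simp [mul_comm, mul_left_comm])).trans (h.nine (hχ.c.mul hρ.c.star)
    ((ci _ _ _ _ (by simp)).trans (hχ.irr.classInner_of_ne hρ.irr hne)))

theorem re5 (hχ : T3 u χ) (hr : star χ = χ) : IsIrrCharacter G (χ * χ - χ - 1) ∧ Ch u (χ * χ - χ - 1) 5 1 ∧
    ⟪χ * χ - χ - 1, 1⟫ = 0 ∧ ⟪χ * χ, χ⟫ = 1 ∧ ⟪χ * χ, χ * χ⟫ = 3 := by
  have e1 : ⟪χ * χ - χ, 1⟫ = 1 := by simpa [classInner_sub_left, hχ.one, hr] using hχ.th.2
  have c := (by simpa [hr] using h.sym hχ : Ch u (χ * χ - χ) 6 2).sub isIrrCharacter_one Ch.one (e1.trans_ne one_ne_zero)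
  have e2 : ⟪χ * χ - χ - 1, 1⟫ = 0 := by rw [classInner_sub_left, e1, isIrrCharacter_one.classInner_self, sub_self]
  have i := h.irr_of c e2 (by norm_num) (by norm_num)
  refine ⟨i, c, e2, ?_⟩
  rw [show χ * χ = (χ * χ - χ - 1) + χ + 1 by ring]
  norm_num [classInner_add_left, classInner_add_right, i.classInner_self, hχ.irr.classInner_self, hχ.one, e2,
    isIrrCharacter_one.classInner_self, ci_deg i hχ.irr c hχ.c, ci_deg hχ.irr i hχ.c c,
    (classInner_eq_zero_comm ..).1 hχ.one, (classInner_eq_zero_comm ..).1 e2]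

theorem nr6 (hχ : T3 u χ) (hr : star χ ≠ χ) : IsIrrCharacter G (χ * χ - star χ) :=
  h.irr_of (h.sym hχ) (by
    rw [classInner_sub_left, hχ.star.one, ci _ _ χ (star χ) (by simp), hχ.irr.classInner_of_ne hχ.star.irr hr.symm,
      sub_zero]) (by norm_num) (by norm_num)

theorem nr8 (hχ : T3 u χ) (hr : star χ ≠ χ) : IsIrrCharacter G (χ * star χ - 1) :=
  hχ.th.1.ch.isIrr_of_norm_one (by
    have := h.two hχ hχ.star hr.symm
    rw [star_star, mul_comm (star χ)] at this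
    norm_num [classInner_sub_left, classInner_sub_right, this, hχ.th.2, isIrrCharacter_one.classInner_self,
      ← classInner_conj_symm _ (1 : G → ℂ)])

theorem abs_eq (hχ : T3 u χ) (hr : star χ ≠ χ) (hρ : T3 u ρ) : ρ * star ρ = χ * star χ ∧ star ρ ≠ ρ := by
  have e : ρ * star ρ = χ * star χ := by
    by_cases hne : ρ = χ
    · rw [hne]
    refine sub_left_injective (hρ.th.1.ch.eq_of_constituent_of_degree_eq (h.nr8 hχ hr) ?_
      (hρ.th.1.deg.trans hχ.th.1.deg.symm))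
    norm_num [classInner_sub_left, classInner_sub_right, h.two hρ hχ hne, hχ.th.2, hρ.th.2,
      isIrrCharacter_one.classInner_self, ← classInner_conj_symm _ (1 : G → ℂ)]
  refine ⟨e, fun h1 => ?_⟩
  have := h.two hχ hχ.star hr.symm
  rw [star_star, mul_comm (star χ), ← e, h1, (h.re5 hρ h1).2.2.2.2] at this
  norm_num at this

theorem ten (hχ : T3 u χ) (hr : star χ ≠ χ) : Ch u (χ * (χ * χ - star χ) - (χ * star χ - 1)) 10 (-2) ∧
    ⟪χ * (χ * χ - star χ) - (χ * star χ - 1), 1⟫ = 0 ∧ ⟪χ * (χ * χ - star χ) - (χ * star χ - 1), χ⟫ = 0 := by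
  have c := h.sym hχ
  have i := h.nr6 hχ hr
  have j := h.nr8 hχ hr
  have e1 : ⟪χ * (χ * χ - star χ), 1⟫ = 0 := (ci _ _ _ _ (by simp [mul_comm])).trans (ci_deg i hχ.star.irr c hχ.star.c)
  obtain ⟨n, hn⟩ := (c.ch.mul c.ch).exists_classInner_eq_nat hχ.c.ch
  have e2 : ⟪χ * χ - star χ, χ * χ - star χ + star χ⟫ = 1 := by
    rw [classInner_add_right, i.classInner_self, ci_deg i hχ.star.irr c hχ.star.c, add_zero]
  refine ⟨(hχ.c.mul c).sub j hχ.th.1 ?_, ?_, ?_⟩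
  · rw [classInner_sub_right, e1, sub_zero, show ⟪χ * (χ * χ - star χ), χ * star χ⟫ = n + 1 by
      rw [← hn, ← e2]; simp only [classInner_def, ← mul_add, ← sum_add_distrib]; congr 2; ext; simp; ring]
    exact_mod_cast n.succ_ne_zero
  · rw [classInner_sub_left, e1, ci_deg j isIrrCharacter_one hχ.th.1 Ch.one, sub_zero]
  · rw [classInner_sub_left, ci_deg j hχ.irr hχ.th.1 hχ.c, ci _ _ (χ * χ - star χ) (χ * star χ - 1 + 1) (by simp; intros; ring),
      classInner_add_right, ci_deg i j c hχ.th.1, ci_deg i isIrrCharacter_one c Ch.one]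
    simp

theorem cube (hχ : T3 u χ) (hr : star χ ≠ χ) (hρ : T3 u ρ) (g : G) :
    ρ g ^ 3 + conj (ρ g) ^ 3 = χ g ^ 3 + conj (χ g) ^ 3 := by
  have e1 := congrFun (h.abs_eq hχ hr hρ).1 g
  have e2 := congrFun (h.abs_eq hχ hr hρ).1 (g * g)
  simp [h.newton hχ.c.ch hχ.c.deg, h.newton hρ.c.ch hρ.c.deg, map_ofNat] at e1 e2
  linear_combination -e2 / 2 + (ρ g * conj (ρ g) + χ g * conj (χ g) + 4) / 2 * e1

theorem real (hχ : T3 u χ) : star χ = χ := by
  by_contra hr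
  let S : (G → ℂ) → G → ℂ := fun χ => χ * (χ * χ - star χ) - (χ * star χ - 1)
  have hY : ∀ α, T3 u α → S χ + star (S χ) = S α + star (S α) := fun α hα => by
    ext g
    have e1 := congrFun (h.abs_eq hχ hr hα).1 g
    simp [S] at e1 ⊢
    linear_combination 4 * e1 - h.cube hχ hr hα g
  have hS := fun α (hα : T3 u α) => h.ten hα (h.abs_eq hχ hr hα).2
  have h1 : ∀ α, T3 u α → ⟪S χ + star (S χ), α⟫ ≠ 0 → ⟪S α, star α⟫ = 1 ∧
      α * α - star α = star (α * α - star α) := fun α hα h1 => by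
    have i := h.nr6 hα (h.abs_eq hχ hr hα).2
    have e : ⟪S α, star α⟫ = ⟪α * α - star α, star (α * α - star α)⟫ := by
      rw [classInner_sub_left, ci_deg (h.nr8 hα (h.abs_eq hχ hr hα).2) hα.star.irr hα.th.1 hα.star.c,
        ci _ _ (α * α - star α) (star (α * α - star α) + α) (by simp; intros; ring), classInner_add_right,
        ci_deg i hα.irr (h.sym hα) hα.c, sub_zero, add_zero]
    rw [hY α hα, classInner_add_left, (hS α hα).2.2, zero_add, ci _ _ (star α) (S α) (by simp [mul_comm]),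
      Ne, classInner_eq_zero_comm, e] at h1
    have e2 := i.eq_of_classInner_ne_zero (irr_star i) h1
    exact ⟨by rw [e, ← e2, i.classInner_self], e2⟩
  have h2 : ∀ α β, T3 u α → T3 u β → ⟪S χ + star (S χ), β⟫ ≠ 0 → ∀ g, conj (α g) = α g →
      β g + conj (β g) = -1 → α g + conj (α g) = β g + conj (β g) := fun α β hα hβ h2 g e1 e2 => by
    by_contra e3
    have nα := (h.abs_eq hχ hr hα).2
    have e4 := congrFun (h.abs_eq hα nα hβ).1 g
    have e5 := h.cube hα nα hβ g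
    simp [e1] at e3 e4 e5
    have e6 : α g = 1 := by
      have : (α g - 1) ^ 2 * (2 * α g + 1) = 0 := by
        linear_combination -e5 + 3 * e4 + ((β g + conj (β g)) ^ 2 - (β g + conj (β g)) + 1 - 3 * β g * conj (β g)) * e2
      simpa [sub_eq_zero, show 2 * α g + 1 ≠ 0 from fun e => e3 (by linear_combination e - e2)] using this
    have e7 : α (g * g * (g * g)) = 3 := by norm_num [h.newton hα.c.ch hα.c.deg, e6]
    have e8 := apply_eq_of_constituent ((hS α hα).1.ch.add (hS α hα).1.star.ch) hβ.irr (hY α hα ▸ h2)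
      (x := g * g * (g * g)) (by simp [e7, hα.c.deg])
    rw [hβ.c.deg, h.newton hβ.c.ch hβ.c.deg, h.newton hβ.c.ch hβ.c.deg] at e8
    simp [map_ofNat, e6] at e8 e4
    have e9 : conj (β g) = -1 - β g := by linear_combination e2
    rw [e9] at e4 e8
    have : β g = 1 := by linear_combination e8 / 3 + (β g ^ 2 + 3 * β g + 2) / 3 * e4
    norm_num [this] at e4
  obtain ⟨α, a1, a2, a3⟩ := (h.bound (hS χ hχ).1 (hS χ hχ).2.1).2 (by norm_num)
  have hα : T3 u α := ⟨a1, a2⟩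
  have nα := (h.abs_eq hχ hr hα).2
  replace a3 := ci_add_ne (hS χ hχ).1.ch (hS χ hχ).1.star.ch a2.ch a3
  obtain ⟨a4, a5⟩ := h1 α hα a3
  have c := (hS α hα).1.sub hα.star.irr hα.star.c (a4.trans_ne one_ne_zero)
  obtain ⟨β, b1, b2, b3⟩ := (h.bound c (by rw [classInner_sub_left, (hS α hα).2.1, hα.star.one, sub_zero])).2 (by norm_num)
  have hβ : T3 u β := ⟨b1, b2⟩
  have n1 : α ≠ β := by
    rintro rfl
    exact b3 (by rw [classInner_sub_left, (hS α hα).2.2, hα.star.irr.classInner_of_ne a1 nα, sub_zero])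
  have n2 : star α ≠ β := by
    rintro rfl
    exact b3 (by rw [classInner_sub_left, a4, b1.classInner_self, sub_self])
  have b4 : ⟪S χ + star (S χ), β⟫ ≠ 0 := by
    have := ci_add_ne (c.ch) (hα.star.c.ch.add (hS α hα).1.star.ch) b2.ch b3
    rwa [← add_assoc, sub_add_cancel, ← hY α hα] at this
  obtain ⟨g, hg⟩ : ∃ g, α g + conj (α g) ≠ β g + conj (β g) := by
    by_contra! h3
    have := congrArg (⟪·, β⟫) (funext h3 : α + star α = β + star β)
    simp [classInner_add_left, a1.classInner_of_ne b1 n1, hα.star.irr.classInner_of_ne b1 n2, b1.classInner_self,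
      hβ.star.irr.classInner_of_ne b1 (h.abs_eq hχ hr hβ).2] at this
  have h3 : ∀ α : G → ℂ, α * α - star α = star (α * α - star α) → conj (α g) = α g ∨ α g + conj (α g) = -1 :=
    fun α e => by
      have := congrFun e g
      simp at this
      exact (mul_eq_zero.1 (by linear_combination -this)).imp sub_eq_zero.1 eq_neg_of_add_eq_zero_left
  rcases h3 α a5 with e1 | e1 <;> rcases h3 β (h1 β hβ b4).2 with e2 | e2
  · have e4 := congrFun (h.abs_eq hα nα hβ).1 g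
    have e5 := h.cube hα nα hβ g
    simp [e1, e2] at hg e4 e5
    rcases mul_self_eq_mul_self_iff.1 e4 with e | e
    · exact hg (by rw [e])
    · exact hg (by rw [e] at e5; rw [e, pow_eq_zero_iff (n := 3) (a := α g) (by norm_num) |>.1 (by linear_combination -e5 / 4)]; simp)
  · exact hg (h2 α β hα hβ b4 g e1 e2)
  · exact hg (h2 β α hβ hα a3 g e2 e1).symm
  · exact hg (e1.trans e2.symm)

theorem gold (hχ : T3 u χ) (hρ : T3 u ρ) (hne : χ ≠ ρ) {g : G} (hg : χ g ≠ ρ g) :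
    χ g + ρ g = 1 ∧ χ g ^ 2 = χ g + 1 := by
  obtain ⟨i, c, e, -⟩ := h.re5 hχ (h.real hχ)
  obtain ⟨i', c', e', -⟩ := h.re5 hρ (h.real hρ)
  have h1 := h.two hχ hρ hne
  rw [h.real hχ, h.real hρ, show χ * χ = (χ * χ - χ - 1) + χ + 1 by ring,
    show ρ * ρ = (ρ * ρ - ρ - 1) + ρ + 1 by ring] at h1
  simp only [classInner_add_left, classInner_add_right, e, hχ.one, isIrrCharacter_one.classInner_self,
    ci_deg i hρ.irr c hρ.c, ci_deg hχ.irr i' hχ.c c', hχ.irr.classInner_of_ne hρ.irr hne,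
    (classInner_eq_zero_comm ..).1 hρ.one, (classInner_eq_zero_comm ..).1 e'] at h1
  have h2 := congrFun (i.eq_of_classInner_ne_zero i' fun h2 => by norm_num [h2] at h1)
  have h3 := h2 g
  have h4 := h2 (g * g)
  have r1 : conj (χ g) = χ g := congrFun (h.real hχ) g
  have r2 : conj (ρ g) = ρ g := congrFun (h.real hρ) g
  simp [h.newton hχ.c.ch hχ.c.deg, h.newton hρ.c.ch hρ.c.deg, r1, r2] at h3 h4
  have h5 : ρ g = 1 - χ g := by
    have := mul_left_cancel₀ (sub_ne_zero.2 hg) (show _ * (ρ g + χ g) = _ * 1 by linear_combination h3)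
    linear_combination this
  rw [h5] at hg h4 ⊢
  exact ⟨by ring, mul_left_cancel₀ (sub_ne_zero.2 hg) (by linear_combination -h4 / 2)⟩

theorem vals (hχ : T3 u χ) (hρ : T3 u ρ) (hne : χ ≠ ρ) {g : G} (hg : χ g = ρ g) :
    χ g ^ 2 * (χ g ^ 2 - 2 * χ g - 3) = 0 := by
  have r : ∀ χ, T3 u χ → ∀ g, χ g = (χ g).re := fun χ hχ g => (Complex.conj_eq_iff_re.1 (congrFun (h.real hχ) g)).symm
  let P : ℂ → ℝ := fun x => x.re ^ 2 * (x.re ^ 2 - 2 * x.re - 3)
  have h1 : ∀ χ, T3 u χ → ∀ g, P (χ g) ≤ 0 := fun χ hχ g => by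
    have := (Complex.re_le_norm _).trans (hχ.c.ch.norm_le_norm_one (g * g))
    rw [h.newton hχ.c.ch hχ.c.deg, hχ.c.deg, r χ hχ g] at this
    norm_num [sq] at this
    exact mul_nonpos_of_nonneg_of_nonpos (sq_nonneg _) (by nlinarith)
  have h2 : ∀ χ, T3 u χ → ∑ g, P (χ g) = -2 * Nat.card G := fun χ hχ => by
    obtain ⟨-, -, -, e1, e2⟩ := h.re5 hχ (h.real hχ)
    have := congrArg Complex.re (show ∑ g, (P (χ g) : ℂ) = Nat.card G * (⟪χ * χ, χ * χ⟫ - 2 * ⟪χ * χ, χ⟫ - 3 * ⟪χ, χ⟫) by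
      simp only [mul_sub, mul_left_comm (Nat.card G : ℂ), card_mul_classInner, mul_sum, ← sum_sub_distrib]
      refine sum_congr rfl fun g _ => ?_
      simp [P, ← r χ hχ g, show conj (χ g) = χ g from congrFun (h.real hχ) g]
      ring)
    rw [e1, e2, hχ.irr.classInner_self] at this
    simp at this ⊢
    linarith
  have h3 : ∑ g, ((χ g).re - (ρ g).re) ^ 2 = 2 * Nat.card G := by
    have := congrArg Complex.re (show ∑ g, ((((χ g).re - (ρ g).re) ^ 2 : ℝ) : ℂ) = Nat.card G * ⟪χ - ρ, χ - ρ⟫ by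
      rw [card_mul_classInner]
      refine sum_congr rfl fun g _ => ?_
      simp [← r χ hχ g, ← r ρ hρ g, show conj (χ g) = χ g from congrFun (h.real hχ) g,
        show conj (ρ g) = ρ g from congrFun (h.real hρ) g, sq])
    simp only [classInner_sub_left, classInner_sub_right, hχ.irr.classInner_self, hρ.irr.classInner_self,
      hχ.irr.classInner_of_ne hρ.irr hne, hρ.irr.classInner_of_ne hχ.irr hne.symm, ← Complex.ofReal_sum, Complex.ofReal_re] at this
    simp at this ⊢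
    linarith
  have h4 := (sum_eq_zero_iff_of_nonpos (s := univ)
    (f := fun g => P (χ g) + P (ρ g) + 2 * ((χ g).re - (ρ g).re) ^ 2) fun g _ => by
      by_cases hg : χ g = ρ g
      · simpa [hg] using h1 ρ hρ g
      obtain ⟨e1, e2⟩ := h.gold hχ hρ hne hg
      rw [r χ hχ g] at e2
      have e3 := congrArg Complex.re e1
      norm_cast at e2
      simp only [P, Complex.add_re, Complex.one_re] at e3 ⊢
      rw [show (ρ g).re = 1 - (χ g).re by linarith]
      exact le_of_eq (by linear_combination (2 * (χ g).re ^ 2 - 2 * (χ g).re + 2) * e2)).1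
    (by rw [sum_add_distrib, sum_add_distrib, ← mul_sum, h2 χ hχ, h2 ρ hρ, h3]; ring) g (mem_univ g)
  rw [r χ hχ g]
  simp only [← hg, sub_self, P] at h4
  norm_cast
  linarith

theorem no_three (hχ : T3 u χ) (hρ : T3 u ρ) (hτ : T3 u τ) (h1 : χ ≠ ρ) (h2 : χ ≠ τ) (h3 : ρ ≠ τ) : False := by
  have k : ∀ χ ρ τ, T3 u χ → T3 u ρ → T3 u τ → χ ≠ ρ → χ ≠ τ → ∀ g, χ g ≠ ρ g → χ g ≠ τ g :=
    fun χ ρ τ hχ hρ hτ h1 h2 g hg e => by
      have e1 := (h.gold hχ hρ h1 hg).2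
      have e2 := h.vals hχ hτ h2 e
      have : χ g = -3 / 4 := by linear_combination -e2 / 4 + (χ g ^ 2 - χ g - 3) / 4 * e1
      norm_num [this] at e1
  obtain ⟨g, hg⟩ := Function.ne_iff.1 h1
  exact k ρ χ τ hρ hχ hτ h1.symm h3 g hg.symm (by
    linear_combination (h.gold hχ hρ h1 hg).1 - (h.gold hχ hτ h2 (k χ ρ τ hχ hρ hτ h1 h2 g hg)).1)

theorem t3 (hχ : IsIrrCharacter G χ) (h1 : χ 1 = 3) (h2 : χ u = -1) : T3 u χ :=
  ⟨hχ, hχ.isCharacter, by simpa, by simpa, by norm_num [h.newton hχ.isCharacter h1, h2]⟩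

theorem main (hu : u ≠ 1) : (∃ χ ρ, T3 u χ ∧ T3 u ρ ∧ χ ≠ ρ) ∧ Nat.card (Subgroup.centralizer ({u} : Set G)) = 4 := by
  classical
  let A : Finset (IrrCharacter G) := {χ | T3 u χ.1}
  let o : IrrCharacter G := ⟨1, isIrrCharacter_one⟩
  have h0 := congrArg Complex.re (sum_degree_mul_apply_of_ne hu)
  rw [Complex.re_sum, Complex.zero_re] at h0
  have h1 : ∀ χ : IrrCharacter G, χ ∉ A → 0 ≤ (χ.1 1 * χ.1 u).re ∧ ((χ.1 1 * χ.1 u).re = 0 → χ.1 u = 0) := fun χ hχ => by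
    by_cases h2 : χ.1 = 1
    · simp [h2]
    rcases h.deg χ.2 h2 with h3 | ⟨d, h3, h4, h5⟩
    · simp [h3]
    have h6 : d ≠ 3 := by rintro rfl; exact hχ (mem_filter.2 ⟨mem_univ _, h.t3 χ.2 h4 (by rw [h5]; norm_num)⟩)
    rw [h4, h5]
    norm_cast
    exact ⟨by have : 4 ≤ d := by omega
              positivity, fun h7 => by simpa [show d ≠ 0 by omega] using h7⟩
  have h2 : o ∉ A := fun h2 => by simpa [o] using (mem_filter.1 h2).2.c.deg
  have h3 : ∀ χ ∈ A, (χ.1 1 * χ.1 u).re = -3 ∧ ‖χ.1 u‖ ^ 2 = 1 := fun χ hχ => by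
    simp [(mem_filter.1 hχ).2.c.deg, (mem_filter.1 hχ).2.c.val]
  obtain ⟨χ, hχ⟩ : A.Nonempty := by
    by_contra! h4
    have := single_le_sum (fun χ _ => (h1 χ (by simp [h4])).1) (mem_univ o)
    rw [h0] at this
    norm_num [o] at this
  have hχ' := (mem_filter.1 hχ).2
  obtain ⟨i, c, e, -⟩ := h.re5 hχ' (h.real hχ')
  let ψ : IrrCharacter G := ⟨_, i⟩
  have h4 : ψ ∉ insert o A := by
    rw [mem_insert, not_or]
    exact ⟨fun h4 => by simpa [o] using c.deg.symm.trans (congrFun (congrArg Subtype.val h4) 1),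
      fun h4 => by simpa using c.deg.symm.trans (mem_filter.1 h4).2.c.deg⟩
  have h5 : #A ≤ 2 := not_lt.1 fun h5 => by
    obtain ⟨a, b, c, ha, hb, hc, n1, n2, n3⟩ := two_lt_card_iff.1 h5
    exact h.no_three (mem_filter.1 ha).2 (mem_filter.1 hb).2 (mem_filter.1 hc).2 (Subtype.coe_ne_coe.2 n1)
      (Subtype.coe_ne_coe.2 n2) (Subtype.coe_ne_coe.2 n3)
  have h6 := sum_irr_norm_sq u
  rw [← sum_add_sum_compl (insert ψ (insert o A)), sum_insert h4, sum_insert h2] at h0 h6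
  rw [sum_congr rfl fun χ hχ => (h3 χ hχ).1] at h0
  rw [sum_congr rfl fun χ hχ => (h3 χ hχ).2] at h6
  have h7 : ∀ χ ∈ (insert ψ (insert o A))ᶜ, χ ∉ A := fun χ hχ h7 => by simp [h7] at hχ
  have h8 := sum_nonneg fun χ hχ => (h1 χ (h7 χ hχ)).1
  have h9 : (#A : ℝ) ≤ 2 := by exact_mod_cast h5
  have e1 : (ψ.1 1 * ψ.1 u).re = 5 ∧ ‖ψ.1 u‖ ^ 2 = 1 := by norm_num [ψ, c.deg, c.val]
  have e2 : (o.1 1 * o.1 u).re = 1 ∧ ‖o.1 u‖ ^ 2 = 1 := by norm_num [o]
  rw [e1.1, e2.1, sum_const, nsmul_eq_mul] at h0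
  rw [e1.2, e2.2, sum_const, nsmul_eq_mul, sum_eq_zero fun χ hχ => by
    rw [(h1 χ (h7 χ hχ)).2 ((sum_eq_zero_iff_of_nonneg
      fun χ hχ => (h1 χ (h7 χ hχ)).1).1 (by linarith) χ hχ)]; simp] at h6
  obtain ⟨a, b, ha, hb, hab⟩ := one_lt_card_iff.1 (show 1 < #A from Nat.cast_lt (α := ℝ).1 (by push_cast; linarith))
  exact ⟨⟨_, _, (mem_filter.1 ha).2, (mem_filter.1 hb).2, Subtype.coe_ne_coe.2 hab⟩, Nat.cast_injective (R := ℝ) (by push_cast; linarith)⟩

end Hyp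

end H07.D4
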