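import Cfsg.Agent.H26.CsA
import Cfsg.Agent.H19.Dm0

/-!
Part B6 of the 3-local characterization of `S₈`: the exceptional configuration.
-/

set_option autoImplicit false
set_option synthInstance.maxSize 4000

namespace H07.Dm
open Equiv Subgroup H19.Dm

variable {G : Type*} [Group G] [Finite G] {F : P35 →* G} {s : G} {φ : A5 × A5 →* G}

theorem cen : ∀ x : P35, x * z = z * x → x * (1, c3.1) = (1, c3.1) * x → x * (1, a1.1) = (1, a1.1) * x →
    x * (1, (tw a1).1) = (1, (tw a1).1) * x → x * x = 1 → x = 1 := by decide +kernel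

omit [Finite G] in
theorem tt : F t * F t = 1 := by rw [← map_mul, k0.1, map_one]

theorem cov (h : Hy F s) (k : HB F s φ) (hi : φ.range.index = 4) (g : G) :
    ∃ c, (c = 1 ∨ c = F t ∨ c = s ∨ c = s * F t) ∧ c⁻¹ * g ∈ φ.range := by
  classical
  have ti : (F t)⁻¹ = F t := inv_eq_of_mul_eq_one_right tt
  have e1 : F t * s = s * F t := h.st.symm
  have e2 : F t * (s * F t) = s := by rw [h.st, ← mul_assoc, tt, one_mul]
  have e3 : s * (s * F t) = F t := by rw [← mul_assoc, h.s2, one_mul]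
  have n : ∀ a b : G, a⁻¹ * b ∉ φ.range → ((a : G ⧸ φ.range) ≠ b) := fun a b x y => x (QuotientGroup.eq.1 y)
  have n1 := n 1 (F t) (by simpa using k.nt)
  have n2 := n 1 s (by simpa using k.ns)
  have n3 := n 1 (s * F t) (by simpa using k.nst)
  have n4 := n (F t) s (by rw [ti, e1]; exact k.nst)
  have n5 := n (F t) (s * F t) (by rw [ti, e2]; exact k.ns)
  have n6 := n s (s * F t) (by rw [h.si', e3]; exact k.nt)
  haveI := Fintype.ofFinite (G ⧸ φ.range)
  have c : ({((1 : G) : G ⧸ φ.range), (F t : G ⧸ φ.range), (s : G ⧸ φ.range), ((s * F t : G) : G ⧸ φ.range)} : Finset _) = Finset.univ := by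
    apply Finset.eq_univ_of_card
    rw [← Nat.card_eq_fintype_card, ← index_eq_card, hi, Finset.card_insert_of_notMem (by simp only [Finset.mem_insert, Finset.mem_singleton, not_or]; exact ⟨n1, n2, n3⟩),
      Finset.card_insert_of_notMem (by simp only [Finset.mem_insert, Finset.mem_singleton, not_or]; exact ⟨n4, n5⟩),
      Finset.card_pair n6]
  have m := c ▸ Finset.mem_univ (g : G ⧸ φ.range)
  simp only [Finset.mem_insert, Finset.mem_singleton] at m
  rcases m with m | m | m | m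
  exacts [⟨_, .inl rfl, QuotientGroup.eq.1 m.symm⟩, ⟨_, .inr (.inl rfl), QuotientGroup.eq.1 m.symm⟩,
    ⟨_, .inr (.inr (.inl rfl)), QuotientGroup.eq.1 m.symm⟩, ⟨_, .inr (.inr (.inr rfl)), QuotientGroup.eq.1 m.symm⟩]

omit [Finite G] in
theorem cj (h : Hy F s) (k : HB F s φ) {c : G} (hc : c = 1 ∨ c = F t ∨ c = s ∨ c = s * F t) :
    c * c = 1 ∧ ∀ n ∈ φ.range, c * n * c ∈ φ.range := by
  have a : ∀ n ∈ φ.range, s * n * s ∈ φ.range := by
    rintro _ ⟨⟨x, y⟩, rfl⟩; exact ⟨_, (k.cs x y).symm⟩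
  have b : ∀ n ∈ φ.range, F t * n * F t ∈ φ.range := by
    rintro _ ⟨⟨x, y⟩, rfl⟩; exact ⟨_, (k.ct x y).symm⟩
  rcases hc with rfl | rfl | rfl | rfl
  · exact ⟨one_mul _, fun n m => by simpa using m⟩
  · exact ⟨tt, b⟩
  · exact ⟨h.s2, a⟩
  · refine ⟨h.tw.s2, fun n m => ?_⟩
    have := a _ (b n m)
    rwa [show s * (F t * n * F t) * s = s * F t * n * (F t * s) by simp only [mul_assoc], ← h.st] at this

theorem nrm (h : Hy F s) (k : HB F s φ) (hi : φ.range.index = 4) : φ.range.Normal := ⟨fun n m g => by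
  obtain ⟨c, hc, e⟩ := cov h k hi g
  obtain ⟨c2, cn⟩ := cj h k hc
  have := cn _ (mul_mem (mul_mem e m) (inv_mem e))
  have ci : c⁻¹ = c := inv_eq_of_mul_eq_one_right c2
  rwa [ci, show c * (c * g * n * (c * g)⁻¹) * c = (c * c) * g * n * g⁻¹ * (c⁻¹ * c) by group, c2, inv_mul_cancel, one_mul, mul_one] at this⟩

theorem sq (h : Hy F s) (k : HB F s φ) (hi : φ.range.index = 4) (g : G) : g ^ 2 ∈ φ.range := by
  obtain ⟨c, hc, e⟩ := cov h k hi g
  obtain ⟨c2, cn⟩ := cj h k hc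
  have := mul_mem (cn _ e) e
  have ci : c⁻¹ = c := inv_eq_of_mul_eq_one_right c2
  rwa [ci, show c * (c * g) * c * (c * g) = (c * c) * g * (c * c) * g by group, c2, one_mul, mul_one, ← pow_two] at this

theorem b6 (h : Hy F s) (k : HB F s φ) (hi : φ.range.index = 4) :
    ∃ N : Subgroup G, N.Normal ∧ Cfsg.generalizedFittingSubgroup G = N ∧
      Nonempty (N ≃* alternatingGroup (Fin 5) × alternatingGroup (Fin 5)) ∧
      (∀ K : Subgroup G, K.Normal → K ≤ N → K = ⊥ ∨ K = N) ∧ N.index = 4 ∧ ∀ g : G, g ^ 2 ∈ N := by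
  have h1 : ∀ a, ∃ b, s * φ (a, 1) * s⁻¹ = φ (1, b) := fun a => ⟨a, by rw [h.si', k.cs]⟩
  have h2 : ∀ b, ∃ a, s * φ (1, b) * s⁻¹ = φ (a, 1) := fun a => ⟨a, by rw [h.si', k.cs]⟩
  have hN := nrm h k hi
  refine Cfsg.Agent.H26.Cs.exc φ k.inj hN hi (sq h k hi) (fun M n p2 => ?_) s h1 h2
  have v1 : ∀ x : A5, φ (x, 1) = F (1, x.1) := fun x => by
    rw [k.val, show ((1, (1 : A5).1) : P35) = 1 from rfl, map_one, mul_one, h.s2, mul_one]
  have b : M ⊓ φ.range = ⊥ := (Cfsg.Agent.H26.Cs.minn φ k.inj s h1 h2 (M ⊓ φ.range) inferInstance inf_le_right).resolve_right fun e => by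
    have m : φ (c3, 1) ∈ M := (e.ge ⟨_, rfl⟩).1
    obtain ⟨j, hj⟩ := p2 ⟨_, m⟩
    have o1 : orderOf (φ (c3, 1)) ∣ 2 ^ j := orderOf_dvd_of_pow_eq_one (congrArg Subtype.val hj)
    have o2 : orderOf (φ (c3, 1)) ∣ 3 := orderOf_dvd_of_pow_eq_one (by
      rw [← map_pow, show ((c3, 1) : A5 × A5) ^ 3 = 1 by decide +kernel, map_one])
    have := Nat.eq_one_of_dvd_coprimes (Nat.Coprime.pow_left j (by decide : Nat.Coprime 2 3)) o1 o2
    exact absurd (k.inj ((orderOf_eq_one_iff.1 this).trans (map_one φ).symm)) (by decide +kernel)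
  refine eq_bot_iff.2 fun m hm => mem_bot.2 ?_
  have cm : ∀ x ∈ φ.range, m * x = x * m := fun x hx => by
    have : m * x * m⁻¹ * x⁻¹ ∈ M ⊓ φ.range :=
      mem_inf.2 ⟨by rw [mul_assoc, mul_assoc, ← mul_assoc x]; exact M.mul_mem hm (n.conj_mem _ (M.inv_mem hm) x),
        φ.range.mul_mem (hN.conj_mem x hx m) (φ.range.inv_mem hx)⟩
    rw [b, mem_bot, mul_inv_eq_one, mul_inv_eq_iff_eq_mul] at this
    exact this
  have m2 : m * m = 1 := by
    have : m ^ 2 ∈ M ⊓ φ.range := ⟨pow_mem hm 2, sq h k hi m⟩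
    rwa [b, mem_bot, pow_two] at this
  obtain ⟨x, rfl, cx⟩ := h.cz (g := m) (cm _ ⟨(1, c3), by rw [← k.cs, v1]; exact h.sz'⟩)
  have q : ∀ a : A5, x * (1, a.1) = (1, a.1) * x := fun a => h.inj (by rw [map_mul, map_mul]; exact cm _ ⟨_, v1 a⟩)
  rw [cen x cx (q _) (q _) (q _) (h.inj (by rw [map_mul, m2, map_one])), map_one]

end H07.Dm
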