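import Cfsg.Agent.H07.MinNA
import Cfsg.Agent.BG.Api3

/-! Irreducible products: `prod_irr_sum`, `fitting_eq_center_of_prod` (Isaacs). -/

namespace H07
open Cfsg H05 H06 H01
open scoped ComplexConjugate commutatorElement Pointwise TensorProduct

variable {G : Type*} [Group G] {χ ψ : G → ℂ}

theorem prod_irr_sum [Fintype G] (hχ : IsCharacter G χ) (hψ : IsCharacter G ψ)
    (h : IsIrrCharacter G fun g => χ g * ψ g) (a b x y : G) :
    χ 1 * ψ 1 * ∑ g, χ (g * a * g⁻¹ * x) * ψ (g * b * g⁻¹ * y) =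
      Nat.card G * (χ a * ψ b) * (χ x * ψ y) := by
  obtain ⟨n, ρ, rfl⟩ := hχ
  obtain ⟨m, τ, rfl⟩ := hψ
  haveI : (ρ.tprod τ).IsIrreducible :=
    isIrreducible_of_isIrrCharacter _ (by rw [Representation.char_tensor]; exact h)
  obtain ⟨c, hc⟩ := exists_scalar_of_comm (ρ.tprod τ)
    (∑ g, TensorProduct.map (ρ (g * a * g⁻¹)) (τ (g * b * g⁻¹))) fun u => by
      rw [Representation.tprod_apply, ← Module.End.mul_eq_comp, ← Module.End.mul_eq_comp, Finset.sum_mul,
        Finset.mul_sum]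
      refine (Fintype.sum_equiv (Equiv.mulLeft u) _ _ fun g => ?_).symm
      simp only [← TensorProduct.map_mul, ← map_mul, Equiv.coe_mulLeft]
      congr 2 <;> group
  have key : ∀ x y, ∑ g, ρ.character (g * a * g⁻¹ * x) * τ.character (g * b * g⁻¹ * y) =
      c * (ρ.character x * τ.character y) := fun x y => by
    have := congrArg (fun T => LinearMap.trace ℂ _ (T * TensorProduct.map (ρ x) (τ y))) hc
    simp only [Finset.sum_mul, map_sum, ← TensorProduct.map_mul, ← map_mul, smul_mul_assoc, map_smul,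
      LinearMap.trace_tensorProduct', smul_eq_mul, ← Module.End.one_eq_id, one_mul] at this
    exact this
  have h1 := key 1 1
  simp only [mul_one, Representation.char_conj, Finset.sum_const, Finset.card_univ, nsmul_eq_mul,
    ← Nat.card_eq_fintype_card] at h1
  rw [key, h1]; ring

theorem fitting_eq_center_of_prod [Finite G] (hχ : IsIrrCharacter G χ) (hf : ∀ g, χ g = χ 1 → g = 1) {k : ℕ}
    (hk : k.Coprime (Nat.card G)) (h : IsIrrCharacter G fun g => χ g * χ (g ^ k)) :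
    fittingSubgroup G = Subgroup.center G := by
  classical
  letI := Fintype.ofFinite G
  have hψ : IsCharacter G fun g => χ (g ^ k) := (hχ.pow_comp hk).isCharacter
  obtain ⟨j, hj⟩ : ∃ j : ℕ, ∀ x : G, (x ^ j) ^ k = x⁻¹ := by
    obtain ⟨j, -, hj⟩ := Nat.exists_mul_mod_eq_of_coprime (Nat.card G - 1) hk Nat.card_pos.ne'
    refine ⟨j, fun x => eq_inv_of_mul_eq_one_left ?_⟩
    rw [← pow_mul, mul_comm j, ← pow_mod_natCard, hj, pow_mod_natCard, ← pow_succ,
      Nat.sub_add_cancel Nat.card_pos, pow_card_eq_one']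
  have hw : ∀ x, χ x * χ x⁻¹ = ((‖χ x‖ ^ 2 : ℝ) : ℂ) := fun x => by
    rw [hχ.apply_inv, Complex.mul_conj, Complex.normSq_eq_norm_sq]
  have key := fun n x => prod_irr_sum hχ.isCharacter hψ h n (n ^ j) x (x ^ j)
  simp only [one_pow, hj, hw] at key
  have hZ : charCenter χ = Subgroup.center G :=
    charCenter_eq_center (eq_bot_iff.2 fun g hg => hf g (hχ.isCharacter.mem_charKer.1 hg))
  have hd : (0 : ℝ) < charDegree χ := by exact_mod_cast hχ.charDegree_pos
  have hG : (0 : ℝ) < Nat.card G := by exact_mod_cast Nat.card_pos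
  have h1 : ‖χ 1‖ = charDegree χ := by rw [← hχ.charDegree_eq]; simp
  have hA : ∀ A : Subgroup G, A.Normal → (∀ a ∈ A, ∀ b ∈ A, a * b = b * a) → A ≤ Subgroup.center G := by
    intro A hA hab n hn
    have h2 : ∀ x : A, (charDegree χ : ℝ) ^ 2 * ∑ g : G, ‖χ (g * n * g⁻¹ * x)‖ ^ 2 =
        Nat.card G * ‖χ n‖ ^ 2 * ‖χ x‖ ^ 2 := fun x => by
      have h3 := key n x
      rw [Finset.sum_congr rfl (g := fun g => ((‖χ (g * n * g⁻¹ * x)‖ ^ 2 : ℝ) : ℂ)) fun g _ => by
        rw [← conj_pow, ← Commute.mul_pow (hab _ (hA.conj_mem n hn g) _ x.2), hj, hw],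
        ← hχ.charDegree_eq, ← sq] at h3
      exact_mod_cast h3
    have h3 := Finset.sum_congr rfl fun x (_ : x ∈ Finset.univ) => h2 x
    rw [← Finset.mul_sum, ← Finset.mul_sum, Finset.sum_comm,
      Finset.sum_congr rfl (f := fun g : G => ∑ x : A, ‖χ (g * n * g⁻¹ * x)‖ ^ 2)
        (g := fun _ => ∑ x : A, ‖χ x‖ ^ 2) fun g _ =>
        Fintype.sum_equiv (Equiv.mulLeft (⟨_, hA.conj_mem n hn g⟩ : A)) _ _ fun _ => rfl,
      Finset.sum_const, Finset.card_univ, nsmul_eq_mul, ← Nat.card_eq_fintype_card] at h3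
    have h4 : 0 < ∑ x : A, ‖χ x‖ ^ 2 := Finset.sum_pos' (fun _ _ => by positivity)
      ⟨1, Finset.mem_univ _, by rw [OneMemClass.coe_one, h1]; positivity⟩
    have h5 : (charDegree χ : ℝ) ^ 2 = ‖χ n‖ ^ 2 :=
      mul_right_cancel₀ (mul_pos hG h4).ne' (by linarith)
    rw [← hZ, hχ.mem_charCenter]
    exact ((pow_left_inj₀ hd.le (norm_nonneg _) two_ne_zero).1 h5).symm
  refine le_antisymm ?_ (H02.le_fitting (H02.isNilpotent_of_isMulCommutative _))
  by_contra hne
  let π := QuotientGroup.mk' (Subgroup.center G)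
  haveI : ((fittingSubgroup G).map π).Normal :=
    Subgroup.Normal.map inferInstance _ (QuotientGroup.mk'_surjective _)
  obtain ⟨⟨y, hy1, hy2⟩, hy3⟩ := Subgroup.ne_bot_iff_exists_ne_one.1
    (BG.nil_center_ne_bot (H02.isNilpotent_map π (fittingSubgroup G)) fun e => hne (by
      rwa [Subgroup.map_eq_bot_iff, QuotientGroup.ker_mk'] at e))
  obtain ⟨n, rfl⟩ := QuotientGroup.mk'_surjective _ y
  set N := ((fittingSubgroup G).map π ⊓ Subgroup.centralizer ((fittingSubgroup G).map π : Set _)).comap π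
  haveI hN : N.Normal := Subgroup.Normal.comap inferInstance π
  have hnN : n ∈ N := ⟨hy1, hy2⟩
  have hnZ : n ∉ Subgroup.center G := fun c => hy3 (Subtype.ext ((QuotientGroup.eq_one_iff n).2 c))
  have h2 := hA (N ⊓ Subgroup.centralizer (N : Set G)) inferInstance fun a ha b hb => hb.2 a ha.1
  have h3 : ∀ x ∈ N, x ∉ Subgroup.center G → χ x = 0 := by
    intro x hx hxZ
    obtain ⟨y, hy, hxy⟩ : ∃ y ∈ N, y * x ≠ x * y := by
      by_contra c; push Not at c; exact hxZ (h2 ⟨hx, c⟩)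
    have h4 : ⁅y, x⁆ ∈ Subgroup.center G := (QuotientGroup.eq_one_iff _).1
      (commutatorElement_eq_one_iff_mul_comm.2 (hx.2 _ hy.1) : ⁅π y, π x⁆ = 1)
    have h5 := hχ.apply_mul_of_mem_charCenter (hZ ▸ h4) x
    rw [show ⁅y, x⁆ * x = y * x * y⁻¹ by group, hχ.isClassFunction] at h5
    by_contra h6
    have h7 : χ ⁅y, x⁆ / χ 1 = 1 := by simpa [h6] using h5.symm
    exact hxy (commutatorElement_eq_one_iff_mul_comm.1 (hf _ (eq_of_div_eq_one h7)))
  have h4 := key n n⁻¹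
  rw [h3 n hnN hnZ, Finset.sum_congr rfl (g := fun g => ((‖χ (g * n * g⁻¹ * n⁻¹)‖ ^ 2 : ℝ) : ℂ))
    fun g _ => ?_, ← hχ.charDegree_eq, ← sq] at h4
  · have h5 : (charDegree χ : ℝ) ^ 2 * ∑ g : G, ‖χ (g * n * g⁻¹ * n⁻¹)‖ ^ 2 = 0 := by
      simp only [norm_zero, ne_eq, OfNat.ofNat_ne_zero, not_false_eq_true, zero_pow, Complex.ofReal_zero,
        mul_zero, zero_mul] at h4
      exact_mod_cast h4
    have h6 : 0 < ∑ g : G, ‖χ (g * n * g⁻¹ * n⁻¹)‖ ^ 2 := Finset.sum_pos' (fun _ _ => by positivity)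
      ⟨1, Finset.mem_univ _, by simp only [one_mul, inv_one, mul_one, mul_inv_cancel, h1]; positivity⟩
    exact (mul_pos (pow_pos hd 2) h6).ne' h5
  · by_cases h5 : g * n * g⁻¹ * n⁻¹ ∈ Subgroup.center G
    · rw [← hw, ← hj (g * n * g⁻¹ * n⁻¹), ← conj_pow]
      congr 3
      rw [← Commute.mul_pow]
      have := Subgroup.mem_center_iff.1 h5 n
      calc g * n * g⁻¹ * n⁻¹ = n⁻¹ * (n * (g * n * g⁻¹ * n⁻¹)) := by group
        _ = _ := by rw [this]; group
    · rw [h3 _ (N.mul_mem (hN.conj_mem n hnN g) (N.inv_mem hnN)) h5]; simp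

end H07
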