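import Cfsg.Agent.H07.RealP
import Cfsg.Agent.H24.PSolv

/-! Odd-degree characters of solvable groups and linear characters of Sylow `2`-subgroups. -/

namespace H07
open Cfsg H05 H06 H01
open scoped ComplexConjugate commutatorElement Pointwise

variable {G : Type*} [Group G] {χ : G → ℂ}

theorem exists_mem_normalizer_lift [Finite G] {p : ℕ} [Fact p.Prime] {S : Subgroup G} (hS : H26.IsSyl p S ⊤)
    (Y : Subgroup G) [Y.Normal] {x : G ⧸ Y}
    (hx : x ∈ Subgroup.normalizer ((S.map (QuotientGroup.mk' Y) : Subgroup _) : Set (G ⧸ Y))) :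
    ∃ n ∈ Subgroup.normalizer (S : Set G), (n : G ⧸ Y) = x := by
  obtain ⟨g, rfl⟩ := QuotientGroup.mk_surjective x
  have h1 : g ∈ Subgroup.normalizer ((S ⊔ Y : Subgroup G) : Set G) := by
    rw [← QuotientGroup.ker_mk' Y, ← Subgroup.comap_map_eq,
      ← Subgroup.comap_normalizer_eq_of_surjective _ (QuotientGroup.mk'_surjective Y)]
    exact hx
  obtain ⟨m, hm, y, hy, rfl⟩ := (hS.mono le_sup_left le_top).frattini le_rfl h1
  obtain ⟨k, hk, s, hs, rfl⟩ := Subgroup.mem_sup_of_normal_left.1 (sup_comm S Y ▸ hm)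
  exact ⟨s * y, mul_mem (Subgroup.le_normalizer hs) hy, by simp [(QuotientGroup.eq_one_iff k).2 hk]⟩

theorem odd_le_ker [Finite G] {S : Subgroup G} (hS : IsPGroup 2 S) (V : Subgroup G) [V.Normal]
    (hV : Odd (Nat.card V)) (hχ : IsIrrCharacter G χ) (ho : Odd (charDegree χ))
    (h : (∀ g, (χ g).im = 0) ∨ Subgroup.normalizer (S : Set G) ≤ S) : ∀ v ∈ V, χ v = χ 1 := by
  classical
  letI := Fintype.ofFinite G
  haveI := Fact.mk Nat.prime_two
  rw [degree_eq_sum_mult V.subtype hχ.isCharacter] at ho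
  suffices ∃ η : V → ℂ, η = 1 ∧ Odd (mult V.subtype χ η * charDegree η) by
    obtain ⟨_, rfl, h1⟩ := this
    exact (res_inner_one_ne_zero_iff V hχ).1 ((mult_sub_ne_zero V hχ.isCharacter isCharacter_one).1
      fun e => by simp [e] at h1)
  rcases h with h | h
  · obtain ⟨η, h1, h2⟩ := exists_real_odd (fun η => mult V.subtype χ η * charDegree η) (fun η hη => by
      rw [charDegree_conj, ← mult_conj _ hχ.isCharacter hη.isCharacter, (conj_eq_iff_forall_im χ).2 h]) ho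
    exact ⟨η.1, η.2.eq_one_of_real_of_odd hV h1, h2⟩
  have hc := coprime_card_of_isPGroup hS (Nat.coprime_two_right.2 hV)
  haveI := isSolvable_of_isPGroup hS
  have h1 := card_irrInv_eq (le_normalizer_of_normal S V) hc
  have h2 : V ⊓ Subgroup.centralizer (S : Set G) = ⊥ := eq_bot_iff.2 ((inf_le_inf_left V
    ((Subgroup.centralizer_le_normalizer _).trans h)).trans (Subgroup.disjoint_of_coprime_natCard hc).le_bot)
  rw [h2, card_irr_eq_card_conjClasses, Nat.card_eq_one_iff_unique.2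
    ⟨ConjClasses.mk_surjective.subsingleton, inferInstance⟩, Nat.card_eq_one_iff_unique] at h1
  by_contra h3
  push Not at h3
  refine Nat.not_even_iff_odd.2 ho (even_iff_two_dvd.2 (dvd_sum_irr hS (le_normalizer_of_normal S V)
    (fun η => mult V.subtype χ η * charDegree η) (fun t ht η hη => ?_) fun η hη => even_iff_two_dvd.1
    (Nat.not_odd_iff_even.1 (h3 η (congrArg Subtype.val (h1.1.elim ⟨η, hη⟩ ⟨1, isIrrCharacter_one,
      fun s hs => ⟨le_normalizer_of_normal S V hs, fun _ => rfl⟩⟩))))))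
  congr 1
  · exact mult_congr (cjA _).toEquiv (fun c => (hχ.isClassFunction c t).symm) fun _ => rfl
  · simp [charDegree]

theorem le_ker_of_over [Finite G] {E : Subgroup G} (μ : E →* ℂˣ) [(μ.ker.map E.subtype).Normal]
    (hχ : IsIrrCharacter G χ) (h : mult E.subtype χ (fun e => μ e) ≠ 0) : ∀ y ∈ μ.ker.map E.subtype, χ y = χ 1 := by
  classical
  letI := Fintype.ofFinite G
  refine (res_inner_one_ne_zero_iff _ hχ).1 ((mult_sub_ne_zero _ hχ.isCharacter isCharacter_one').1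
    (mult_trans (ι₂ := Subgroup.inclusion (Subgroup.map_subtype_le _)) hχ.isCharacter (isIrrCharacter_monoidHom μ)
      isCharacter_one' h ((mult_of_comp_eq isIrrCharacter_one' ?_).trans_ne one_ne_zero)))
  rintro ⟨_, c, hc, rfl⟩
  exact congrArg Units.val hc

theorem clifford_mult [Finite G] {E S T : Subgroup G} [E.Normal] (hES : E ≤ S) (hST : S ≤ T) (ν : S →* ℂˣ)
    (hT : T = stab fun e => (ν (Subgroup.inclusion hES e) : ℂ)) (hχ : IsIrrCharacter G χ)
    (h : mult S.subtype χ (fun x => ν x) ≠ 0) : ∃ ψ, IsIrrCharacter T ψ ∧ charDegree ψ ∣ charDegree χ ∧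
      mult (S.subgroupOf T).subtype ψ (fun x => ν (Subgroup.subgroupOfEquivOfLe hST x)) =
        mult S.subtype χ (fun x => ν x) ∧ mult T.subtype χ ψ ≠ 0 ∧
      mult (Subgroup.inclusion (hES.trans hST)) ψ (fun e => ν (Subgroup.inclusion hES e)) ≠ 0 ∧
      (∀ χ', IsIrrCharacter G χ' → mult T.subtype χ' ψ ≠ 0 → χ' = χ) ∧
      ∀ ψ', IsIrrCharacter T ψ' → mult T.subtype χ ψ' ≠ 0 →
        mult (Subgroup.inclusion (hES.trans hST)) ψ' (fun e => ν (Subgroup.inclusion hES e)) ≠ 0 → ψ' = ψ := by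
  classical
  letI := Fintype.ofFinite G
  have hμ : IsIrrCharacter E fun e => (ν (Subgroup.inclusion hES e) : ℂ) :=
    isIrrCharacter_monoidHom (ν.comp (Subgroup.inclusion hES))
  have hν := isIrrCharacter_monoidHom ν
  have h0 : mult (Subgroup.inclusion hES) (fun x => (ν x : ℂ)) (fun e => ν (Subgroup.inclusion hES e)) ≠ 0 :=
    (mult_of_comp_eq hμ fun _ => rfl).trans_ne one_ne_zero
  rw [stab_eq_inertia] at hT
  have h1 := (mult_sub_ne_zero E hχ.isCharacter hμ.isCharacter).1 (mult_trans hχ.isCharacter hν hμ.isCharacter h h0)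
  obtain ⟨ψ, h2, rfl, h3⟩ := clifford_corr_surj E T (hES.trans hST) hμ hT hχ h1
  rw [← h3] at h1
  have h4 : ∀ ψ', IsIrrCharacter T ψ' → mult T.subtype (indFun T ψ) ψ' ≠ 0 →
      mult (Subgroup.inclusion (hES.trans hST)) ψ' (fun e => ν (Subgroup.inclusion hES e)) ≠ 0 → ψ' = ψ :=
    fun ψ' h5 h6 h7 => (clifford_corr_inj E T (hES.trans hST) hμ hT h2 h1 h5
      ((mult_ne_zero_iff _ h5.isCharacter hμ.isCharacter).1 h7)
      ((mult_sub_ne_zero T hχ.isCharacter h5.isCharacter).1 h6)).symm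
  have h5 : mult T.subtype (indFun T ψ) ψ = 1 := mult_of_eq
    ((frobenius_reciprocity_right T ψ _ hχ.isClassFunction).symm.trans (hχ.classInner_self.trans Nat.cast_one.symm))
  refine ⟨ψ, h2, charDegree_indFun T h2.isCharacter ▸ dvd_mul_left _ _, ?_, h5.trans_ne one_ne_zero,
    (mult_ne_zero_iff _ h2.isCharacter hμ.isCharacter).2 h1, fun χ' h6 h7 => h6.eq_of_classInner_ne_zero hχ ?_, h4⟩
  · rw [mult_subgroupOf hST ψ fun x => ν x, mult_comp' T.subtype (Subgroup.inclusion hST) hχ.isCharacter hν.isCharacter,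
      Finset.sum_eq_single ⟨ψ, h2⟩ (fun η _ hη => ?_) (by simp), h5, one_mul]
    by_contra h6
    exact hη (Subtype.ext (h4 _ η.2 (left_ne_zero_of_mul h6)
      (mult_trans η.2.isCharacter hν hμ.isCharacter (right_ne_zero_of_mul h6) h0)))
  · rw [frobenius_reciprocity_right T ψ _ h6.isClassFunction]
    exact (mult_sub_ne_zero T h6.isCharacter h2.isCharacter).1 h7

/-- conjugacy of linear characters of `S` under its normaliser -/
def NC {S : Subgroup G} (ν ν' : S →* ℂˣ) : Prop :=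
  ∃ n ∈ Subgroup.normalizer (S : Set G), ∀ x y : S, (y : G) = n * x * n⁻¹ → ν' y = ν x

universe u in
theorem odd_corr (c : ℕ) : ∀ (G : Type u) [Group G] [Finite G] [Group.IsSolvable G], Nat.card G = c →
    ∀ (S : Subgroup G) (χ χ' : G → ℂ) (ν ν' : S →* ℂˣ), H26.IsSyl 2 S ⊤ → IsIrrCharacter G χ → IsIrrCharacter G χ' →
    Odd (charDegree χ) → Odd (charDegree χ') → Odd (mult S.subtype χ fun x => ν x) →
    Odd (mult S.subtype χ' fun x => ν' x) → (((∀ g, (χ g).im = 0) ∧ (∀ g, (χ' g).im = 0) ∧ ∀ x, (ν x : ℂ).im = 0) ∨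
      Subgroup.normalizer (S : Set G) ≤ S) → χ = χ' ∨ ν = ν' → χ = χ' ∧ NC ν ν' := by
  induction c using Nat.strong_induction_on with | _ c ih => ?_
  intro G _ _ _ hc S χ χ' ν ν' hS hχ hχ' ho ho' hm hm' hH hE
  haveI := Fact.mk Nat.prime_two
  have irr : ∀ {X : Type u} [Group X] (φ : X →* ℂˣ), IsIrrCharacter X fun x => (φ x : ℂ) := isIrrCharacter_monoidHom
  by_cases h0 : ∃ Y : Subgroup G, Y.Normal ∧ Y ≠ ⊥ ∧ (∀ y ∈ Y, χ y = χ 1) ∧ ∀ y ∈ Y, χ' y = χ' 1
  · obtain ⟨Y, _, h1, h2, h3⟩ := h0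
    let π := QuotientGroup.mk' Y
    have hf := π.subgroupMap_surjective S
    have h4 : ∀ {χ : G → ℂ} (ν : S →* ℂˣ), IsIrrCharacter G χ → (∀ y ∈ Y, χ y = χ 1) →
        Odd (mult S.subtype χ fun x => ν x) → ∃ ν₁ : S.map π →* ℂˣ, ν = ν₁.comp (π.subgroupMap S) :=
      fun ν hχ h hm => ⟨MonoidHom.liftOfSurjective _ hf ⟨ν, fun x hx => Units.ext ((apply_eq_of_mult hχ.isCharacter
        (irr ν) hm.pos.ne' (h _ ((QuotientGroup.eq_one_iff _).1 (congrArg Subtype.val hx)))).trans (by simp))⟩,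
        (MonoidHom.liftOfRightInverse_comp _ _ _ ⟨ν, _⟩).symm⟩
    obtain ⟨ν, rfl⟩ := h4 ν hχ h2 hm
    obtain ⟨ν', rfl⟩ := h4 ν' hχ' h3 hm'
    obtain ⟨χ, h5, rfl⟩ := hχ.exists_quotient Y h2
    obtain ⟨χ', h6, rfl⟩ := hχ'.exists_quotient Y h3
    have h9 : ∀ (χ : G ⧸ Y → ℂ) (ν : S.map π →* ℂˣ), mult S.subtype (fun g : G => χ g)
        (fun x => ν.comp (π.subgroupMap S) x) = mult (S.map π).subtype χ fun x => ν x := fun χ ν =>
      mult_comp_surj (ψ := fun x => ν x) _ hf fun _ => rfl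
    obtain ⟨rfl, n, hn, h7⟩ := ih _ (hc ▸ card_quotient_lt Y h1) (G ⧸ Y) rfl (S.map π) χ χ' ν ν'
      (Subgroup.map_top_of_surjective π (QuotientGroup.mk'_surjective Y) ▸ hS.map π) h5 h6 ho ho'
      (h9 _ _ ▸ hm) (h9 _ _ ▸ hm')
      (hH.imp (fun h => ⟨fun g => by obtain ⟨g, rfl⟩ := QuotientGroup.mk_surjective g; exact h.1 g,
        fun g => by obtain ⟨g, rfl⟩ := QuotientGroup.mk_surjective g; exact h.2.1 g,
        fun x => by obtain ⟨x, rfl⟩ := hf x; exact h.2.2 x⟩) fun h x hx => by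
          obtain ⟨n, hn, rfl⟩ := exists_mem_normalizer_lift hS Y hx
          exact ⟨n, h hn, rfl⟩)
      (hE.imp (fun e => funext fun g => by obtain ⟨g, rfl⟩ := QuotientGroup.mk_surjective g; exact congrFun e g)
        fun e => (MonoidHom.cancel_right hf).1 e)
    obtain ⟨n, h8, rfl⟩ := exists_mem_normalizer_lift hS Y hn
    exact ⟨rfl, n, h8, fun x y e => h7 _ _ (congrArg π e)⟩
  push Not at h0
  have hO := Nat.coprime_two_right.1 (H02.pPrimeCore_coprime 2 G)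
  have h1 := H24.PS.centralizer_pCore_le (p := 2) (G := G) H24.PS.of_solvable (by_contra fun h => by
    obtain ⟨y, hy, h⟩ := h0 _ inferInstance h (odd_le_ker hS.pg _ hO hχ ho (hH.imp_left (·.1)))
    exact h (odd_le_ker hS.pg _ hO hχ' ho' (hH.imp_left (·.2.1)) y hy))
  set E := pCore 2 G
  have nE : ∀ X : Subgroup G, X ≤ Subgroup.normalizer (E : Set G) := fun X => le_normalizer_of_normal X E
  have hES : E ≤ S := hS.le_of_le_normalizer (H02.pCore_isPGroup 2 G) le_top (nE _)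
  have h2 : ∀ ν : S →* ℂˣ, S ≤ stab fun e => (ν (Subgroup.inclusion hES e) : ℂ) := fun ν s hs =>
    mem_stab_res hES (le_stab_self (irr ν).isClassFunction hs) (nE _ hs)
  have h3 : ∀ {χ : G → ℂ} (ν : S →* ℂˣ), IsIrrCharacter G χ → Odd (mult S.subtype χ fun x => ν x) →
      mult E.subtype χ (fun e => ν (Subgroup.inclusion hES e)) ≠ 0 := fun ν hχ hm =>
    mult_trans hχ.isCharacter (irr ν) (irr (ν.comp _)).isCharacter hm.pos.ne'
      ((mult_of_comp_eq (irr (ν.comp (Subgroup.inclusion hES))) fun _ => rfl).trans_ne one_ne_zero)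
  wlog h4 : ν.comp (Subgroup.inclusion hES) = ν'.comp (Subgroup.inclusion hES) generalizing ν
  · obtain rfl := hE.resolve_right fun e => h4 (e ▸ rfl)
    classical
    letI := Fintype.ofFinite G
    obtain ⟨g, hg⟩ := exists_conj_of_constituent E hχ (irr (ν.comp (Subgroup.inclusion hES)))
      (irr (ν'.comp (Subgroup.inclusion hES)))
      ((mult_sub_ne_zero E hχ.isCharacter (irr _).isCharacter).1 (h3 ν hχ hm))
      ((mult_sub_ne_zero E hχ.isCharacter (irr _).isCharacter).1 (h3 ν' hχ hm'))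
    obtain ⟨P, rfl⟩ := hS.exists_sylow_top
    obtain ⟨n, hn, hn', e⟩ := exists_norm_cjA P (h2 ν) (nE ⊤ (Subgroup.mem_top g)) ((h2 ν').trans (congrArg stab hg).ge)
    have h7 : mult (P : Subgroup G).subtype χ (fun x => ν.comp (cjA hn).toMonoidHom x) =
        mult (P : Subgroup G).subtype χ fun x => ν x :=
      mult_congr (cjA hn).toEquiv (fun c => (hχ.isClassFunction c n).symm) fun _ => rfl
    obtain ⟨-, m, h5, h6⟩ := this (ν.comp (cjA hn).toMonoidHom) (h7 ▸ hm)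
      (hH.imp_left fun h => ⟨h.1, h.2.1, fun x => h.2.2 _⟩) (Or.inl rfl)
      (MonoidHom.ext fun x => Units.ext (congrFun (e.trans hg) x))
    refine ⟨rfl, m * n⁻¹, mul_mem h5 (inv_mem hn), fun x y e => (h6 (cjA (inv_mem hn) x) y ?_).trans
      (congrArg ν (Subtype.ext ?_))⟩ <;> simp [*, mul_assoc]
  have h5 : (fun e => (ν (Subgroup.inclusion hES e) : ℂ)) = fun e => (ν' (Subgroup.inclusion hES e) : ℂ) :=
    funext fun e => congrArg Units.val (DFunLike.congr_fun h4 e)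
  obtain ⟨T, hT⟩ : ∃ T, T = stab fun e => (ν (Subgroup.inclusion hES e) : ℂ) := ⟨_, rfl⟩
  have hST : S ≤ T := hT ▸ h2 ν
  by_cases h6 : T = ⊤
  · let μ := ν.comp (Subgroup.inclusion hES)
    have h7 : ∀ g (e : E), μ (cjA (nE ⊤ (Subgroup.mem_top g)) e) = μ e := fun g e =>
      Units.ext ((hT.le (h6.ge (Subgroup.mem_top g))).2 e)
    haveI : (μ.ker.map E.subtype).Normal := ⟨by
      rintro _ ⟨e, he, rfl⟩ g
      exact ⟨_, (h7 g e).trans he, rfl⟩⟩
    have h8 : μ.ker.map E.subtype = ⊥ := by_contra fun h => by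
      obtain ⟨y, hy, h⟩ := h0 _ this h (le_ker_of_over μ hχ (h3 ν hχ hm))
      exact h (le_ker_of_over μ hχ' (h5 ▸ h3 ν' hχ' hm') y hy)
    have h9 : ∀ g, g ∈ E := fun g => h1 fun e he => (commutatorElement_eq_one_iff_mul_comm.1 (h8.le
      ⟨_ * (⟨e, he⟩ : E)⁻¹, (map_mul_inv μ _ _).trans (mul_inv_eq_one.2 (h7 g _)), rfl⟩)).symm
    obtain rfl : ν = ν' := MonoidHom.ext fun x => DFunLike.congr_fun h4 ⟨x, h9 x⟩
    have h10 : Function.Surjective S.subtype := fun g => ⟨⟨g, hES (h9 g)⟩, rfl⟩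
    refine ⟨funext fun g => ?_, 1, one_mem _, fun x y e => congrArg ν (Subtype.ext (by simpa using e))⟩
    exact congrFun ((eq_of_mult_ne_zero (hχ.comp_of_surjective _ h10) (irr ν) hm.pos.ne').trans
      (eq_of_mult_ne_zero (hχ'.comp_of_surjective _ h10) (irr ν) hm'.pos.ne').symm) ⟨g, hES (h9 g)⟩
  obtain ⟨ψ, a1, a2, a3, a4, a5, a6, a7⟩ := clifford_mult hES hST ν hT hχ hm.pos.ne'
  obtain ⟨ψ', b1, b2, b3, b4, b5, -, b7⟩ := clifford_mult hES hST ν' (h5 ▸ hT) hχ' hm'.pos.ne'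
  rw [← h5] at b5 b7
  have h7 : ∀ {χ : G → ℂ} {ψ : T → ℂ}, IsIrrCharacter G χ → IsIrrCharacter T ψ → (∀ g, (χ g).im = 0) →
      (∀ x, (ν x : ℂ).im = 0) → mult T.subtype χ ψ ≠ 0 →
      mult (Subgroup.inclusion (hES.trans hST)) ψ (fun e => ν (Subgroup.inclusion hES e)) ≠ 0 →
      mult T.subtype χ (fun t => conj (ψ t)) ≠ 0 ∧ mult (Subgroup.inclusion (hES.trans hST)) (fun t => conj (ψ t))
        (fun e => ν (Subgroup.inclusion hES e)) ≠ 0 := fun h1 h2 h3 h4 h5 h6 => by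
    rw [← mult_conj _ h1.isCharacter h2.isCharacter, (conj_eq_iff_forall_im _).2 h3] at h5
    rw [← mult_conj _ h2.isCharacter (ψ := fun e => ν (Subgroup.inclusion hES e)) (irr (ν.comp _)).isCharacter,
      (conj_eq_iff_forall_im (fun e => (ν (Subgroup.inclusion hES e) : ℂ))).2 fun _ => h4 _] at h6
    exact ⟨h5, h6⟩
  let e := Subgroup.subgroupOfEquivOfLe hST
  obtain ⟨rfl, n, hn, h8⟩ := ih _ (hc ▸ card_lt_of_ne_top h6) T rfl (S.subgroupOf T) ψ ψ' (ν.comp e.toMonoidHom)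
    (ν'.comp e.toMonoidHom) (Subgroup.subgroupOf_self T ▸ (hS.mono hST le_top).subgroupOf le_rfl) a1 b1
    (ho.of_dvd_nat a2) (ho'.of_dvd_nat b2) (a3 ▸ hm) (b3 ▸ hm') (hH.imp (fun h =>
      ⟨(conj_eq_iff_forall_im _).1 ((h7 hχ a1 h.1 h.2.2 a4 a5).elim (a7 _ a1.conj)),
        (conj_eq_iff_forall_im _).1 ((h7 hχ' b1 h.2.1 h.2.2 b4 b5).elim (b7 _ b1.conj)), fun x => h.2.2 _⟩)
      fun h x hx => h (by rwa [← Subgroup.subgroupOf_normalizer_eq hST] at hx))
    (hE.imp (fun e : χ = χ' => (a7 _ b1 (e ▸ b4) b5).symm) fun h => congrArg (·.comp e.toMonoidHom) h)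
  rw [← Subgroup.subgroupOf_normalizer_eq hST] at hn
  exact ⟨(a6 _ hχ' b4).symm, n, hn, fun x y h => h8 (e.symm x) (e.symm y) (Subtype.ext h)⟩

theorem exists_odd_over [Finite G] (H : Subgroup G) (hH : Odd H.index) {ψ : H → ℂ} (hψ : IsIrrCharacter H ψ)
    (ho : Odd (charDegree ψ)) : ∃ χ, IsIrrCharacter G χ ∧ Odd (charDegree χ) ∧ Odd (mult H.subtype χ ψ) ∧
      ((∀ h, (ψ h).im = 0) → ∀ g, (χ g).im = 0) := by
  classical
  letI := Fintype.ofFinite G
  have h1 : Odd (∑ χ : IrrCharacter G, mult H.subtype χ.1 ψ * charDegree χ.1) := by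
    have := hH.mul ho
    rw [← charDegree_indFun H hψ.isCharacter,
      degree_eq_sum_mult (MonoidHom.id G) (isCharacter_indFun H hψ.isCharacter)] at this
    refine (congrArg Odd (Finset.sum_congr rfl fun χ _ => congrArg (· * _) (mult_of_eq ?_))).mp this
    exact (frobenius_reciprocity H ψ _ χ.2.isClassFunction).trans
      ((hψ.isCharacter.classInner_comm (χ.2.isCharacter.restrict H)).trans
        (mult_sub_eq H χ.2.isCharacter hψ.isCharacter).symm)
  by_cases hr : ∀ h, (ψ h).im = 0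
  · obtain ⟨χ, h2, h3⟩ := exists_real_odd (fun χ => mult H.subtype χ ψ * charDegree χ) (fun χ hχ => by
      rw [charDegree_conj, ← mult_conj _ hχ.isCharacter hψ.isCharacter, (conj_eq_iff_forall_im ψ).2 hr]) h1
    exact ⟨χ.1, χ.2, (Nat.odd_mul.1 h3).2, (Nat.odd_mul.1 h3).1, fun _ => h2⟩
  · obtain ⟨χ, -, h3⟩ := exists_fixed_odd id (fun _ => rfl) _ (fun _ => rfl) h1
    exact ⟨χ.1, χ.2, (Nat.odd_mul.1 h3).2, (Nat.odd_mul.1 h3).1, fun h => absurd h hr⟩

theorem exists_odd_under {P : Type*} [Group P] [Finite P] (hP : IsPGroup 2 P) (ι : P →* G) (hχ : IsCharacter G χ)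
    (ho : Odd (charDegree χ)) (hr : ∀ g, (χ g).im = 0) :
    ∃ ν : P →* ℂˣ, (∀ x, (ν x : ℂ).im = 0) ∧ Odd (mult ι χ fun x => ν x) := by
  haveI := Fact.mk Nat.prime_two
  obtain ⟨η, h1, h2⟩ := exists_real_odd (fun η => mult ι χ η * charDegree η) (fun η hη => by
    rw [charDegree_conj, ← mult_conj _ hχ hη.isCharacter, (conj_eq_iff_forall_im χ).2 hr]) (degree_eq_sum_mult ι hχ ▸ ho)
  obtain ⟨ν, e⟩ := exists_hom_of_not_dvd hP η.2 (Nat.odd_mul.1 h2).2.not_two_dvd_nat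
  exact ⟨ν, fun x => congrFun e x ▸ h1 x, e ▸ (Nat.odd_mul.1 h2).1⟩

theorem odd_index_sylow [Finite G] {S : Subgroup G} (hS : H26.IsSyl 2 S ⊤) : Odd S.index :=
  haveI := Fact.mk Nat.prime_two
  Nat.not_even_iff_odd.1 fun h => hS.not_dvd (S.relIndex_top_right ▸ h.two_dvd)

theorem deg_hom (φ : G →* ℂˣ) : charDegree (fun x => (φ x : ℂ)) = 1 := by simp [charDegree]

theorem card_real_odd [Finite G] [Group.IsSolvable G] (P : Sylow 2 G) {N : Subgroup G}
    (hN : N = Subgroup.normalizer ((P : Subgroup G) : Set G)) :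
    Nat.card {χ : IrrCharacter G // (∀ g, (χ.1 g).im = 0) ∧ Odd (charDegree χ.1)} =
      Nat.card {ψ : IrrCharacter N // (∀ g, (ψ.1 g).im = 0) ∧ Odd (charDegree ψ.1)} := by
  have hPN : (P : Subgroup G) ≤ N := hN ▸ Subgroup.le_normalizer
  have hP := H26.isSyl_top P
  have hP' : H26.IsSyl 2 ((P : Subgroup G).subgroupOf N) ⊤ :=
    Subgroup.subgroupOf_self N ▸ (hP.mono hPN le_top).subgroupOf le_rfl
  let e := Subgroup.subgroupOfEquivOfLe hPN
  have h1 : ∀ (ξ : N → ℂ) (ν : (P : Subgroup G) →* ℂˣ), mult ((P : Subgroup G).subgroupOf N).subtype ξ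
      (fun x => ν.comp e.toMonoidHom x) = mult (Subgroup.inclusion hPN) ξ fun x => ν x := fun ξ ν =>
    mult_subgroupOf hPN ξ fun x => ν x
  refine Bij.card_eq (I := {χ : IrrCharacter G | (∀ g, (χ.1 g).im = 0) ∧ Odd (charDegree χ.1)})
    (J := {ψ : IrrCharacter N | (∀ g, (ψ.1 g).im = 0) ∧ Odd (charDegree ψ.1)})
    (R := fun χ ξ => ∃ ν : (P : Subgroup G) →* ℂˣ, (∀ x, (ν x : ℂ).im = 0) ∧
      Odd (mult (P : Subgroup G).subtype χ.1 fun x => ν x) ∧ Odd (mult (Subgroup.inclusion hPN) ξ.1 fun x => ν x))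
    ⟨fun χ hχ => ?_, fun ξ hξ => ?_, ?_, ?_⟩
  · obtain ⟨ν, h2, h3⟩ := exists_odd_under P.2 (P : Subgroup G).subtype χ.2.isCharacter hχ.2 hχ.1
    obtain ⟨ξ, h4, h5, h6, h7⟩ := exists_odd_over _ (odd_index_sylow hP')
      (isIrrCharacter_monoidHom (ν.comp e.toMonoidHom)) (deg_hom (ν.comp e.toMonoidHom) ▸ odd_one)
    exact ⟨⟨ξ, h4⟩, ⟨h7 fun _ => h2 _, h5⟩, ν, h2, h3, h1 _ _ ▸ h6⟩
  · obtain ⟨ν, h2, h3⟩ := exists_odd_under P.2 (Subgroup.inclusion hPN) ξ.2.isCharacter hξ.2 hξ.1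
    obtain ⟨χ, h4, h5, h6, h7⟩ := exists_odd_over _ (odd_index_sylow hP) (isIrrCharacter_monoidHom ν)
      (deg_hom ν ▸ odd_one)
    exact ⟨⟨χ, h4⟩, ⟨h7 h2, h5⟩, ν, h2, h6, h3⟩
  · rintro χ hχ χ' hχ' ξ hξ ⟨ν, h2, h3, h4⟩ ⟨ν', h2', h3', h4'⟩
    obtain ⟨-, n, -, h5⟩ := odd_corr _ N rfl _ ξ.1 ξ.1 _ _ hP' ξ.2 ξ.2 hξ.2 hξ.2 (h1 _ _ ▸ h4) (h1 _ _ ▸ h4')
      (Or.inl ⟨hξ.1, hξ.1, fun _ => h2 _⟩) (Or.inl rfl)
    have h6 : mult (P : Subgroup G).subtype χ.1 (fun x => ν x) = mult (P : Subgroup G).subtype χ.1 fun x => ν' x :=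
      mult_congr (cjA (hN.le n.2)).toEquiv (fun c => (χ.2.isClassFunction c n).symm) fun c =>
        congrArg Units.val (h5 (e.symm c) (e.symm (cjA (hN.le n.2) c)) rfl).symm
    exact Subtype.ext (odd_corr _ G rfl _ χ.1 χ'.1 _ _ hP χ.2 χ'.2 hχ.2 hχ'.2 (h6 ▸ h3) h3'
      (Or.inl ⟨hχ.1, hχ'.1, h2'⟩) (Or.inr rfl)).1
  · rintro χ hχ ξ hξ ξ' hξ' ⟨ν, h2, h3, h4⟩ ⟨ν', h2', h3', h4'⟩
    obtain ⟨-, n, hn, h5⟩ := odd_corr _ G rfl _ χ.1 χ.1 _ _ hP χ.2 χ.2 hχ.2 hχ.2 h3 h3'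
      (Or.inl ⟨hχ.1, hχ.1, h2⟩) (Or.inl rfl)
    have h6 : mult (Subgroup.inclusion hPN) ξ.1 (fun x => ν x) = mult (Subgroup.inclusion hPN) ξ.1 fun x => ν' x :=
      mult_congr (cjA hn).toEquiv (fun c => (ξ.2.isClassFunction _ ⟨n, hN.ge hn⟩).symm) fun c =>
        congrArg Units.val (h5 c (cjA hn c) rfl).symm
    exact Subtype.ext (odd_corr _ N rfl _ ξ.1 ξ'.1 _ _ hP' ξ.2 ξ'.2 hξ.2 hξ'.2 (h1 _ _ ▸ h6 ▸ h4) (h1 _ _ ▸ h4')
      (Or.inl ⟨hξ.1, hξ'.1, fun _ => h2' _⟩) (Or.inr rfl)).1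

universe u in
theorem normalizer_le_of_real (c : ℕ) : ∀ (G : Type u) [Group G] [Finite G] [Group.IsSolvable G], Nat.card G = c →
    (∀ χ, IsIrrCharacter G χ → Odd (charDegree χ) → ∀ g, (χ g).im = 0) →
    ∀ S : Subgroup G, H26.IsSyl 2 S ⊤ → Subgroup.normalizer (S : Set G) ≤ S := by
  induction c using Nat.strong_induction_on with | _ c ih => ?_
  intro G _ _ _ hc h S hS n hn
  haveI := Fact.mk Nat.prime_two
  rcases subsingleton_or_nontrivial G with _ | _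
  · exact Subsingleton.elim 1 n ▸ one_mem _
  obtain ⟨V, _, h1, -, _, q, hq, h2⟩ := H02.exists_minimal_normal_elementary (G := G)
  let π := QuotientGroup.mk' V
  have hπ := QuotientGroup.mk'_surjective V
  have h3 : n ∈ S ⊔ V := by
    rw [← QuotientGroup.ker_mk' V, ← Subgroup.comap_map_eq]
    exact ih _ (hc ▸ card_quotient_lt V h1) (G ⧸ V) rfl (fun χ hχ ho g => by
      obtain ⟨g, rfl⟩ := hπ g
      exact h _ (hχ.comp_of_surjective π hπ) ho g) (S.map π) (Subgroup.map_top_of_surjective π hπ ▸ hS.map π)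
      (H26.le_normalizer_map π le_rfl ⟨n, hn, rfl⟩)
  have h4 := H02.isPGroup_of_pow_eq_one h2
  have nV := le_normalizer_of_normal S V
  by_cases h5 : q = 2
  · exact sup_le le_rfl (hS.le_of_le_normalizer (h5 ▸ h4) le_top nV) h3
  haveI := Fact.mk hq
  have h6 := IsPGroup.coprime_card_of_ne 2 q (Ne.symm h5) _ _ hS.pg h4
  have h7 : Odd (Nat.card V) := by
    obtain ⟨k, hk⟩ := h4.exists_card_eq
    exact hk ▸ (hq.odd_of_ne_two h5).pow
  obtain ⟨s, hs, v, hv, rfl⟩ := Subgroup.mem_sup_of_normal_right.1 h3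
  replace hn := (Subgroup.mul_mem_cancel_left _ (Subgroup.le_normalizer hs)).1 hn
  have h8 : v ∈ V ⊓ Subgroup.centralizer (S : Set G) := ⟨hv, fun x hx => commutatorElement_eq_one_iff_mul_comm.1
    ((Subgroup.disjoint_of_coprime_natCard h6).le_bot ⟨by
      rw [commutatorElement_def, mul_assoc, mul_assoc, ← mul_assoc v]
      exact mul_mem hx (conj_mem_of_le_normalizer le_rfl hn (inv_mem hx)),
      V.mul_mem (‹V.Normal›.conj_mem v hv x) (V.inv_mem hv)⟩)⟩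
  by_contra h9
  obtain ⟨β, hβ⟩ := exists_hom_apply_ne_one (x := (⟨v, h8⟩ : (V ⊓ Subgroup.centralizer (S : Set G) : Subgroup G)))
    fun e => h9 (by
      rw [(commutator_eq_bot_iff (V ⊓ Subgroup.centralizer (S : Set G) : Subgroup G)).2
        (IsMulCommutative.of_setLike_mul_comm fun _ ha _ hb => setLike_mul_comm (s := V) ha.1 hb.1)] at e
      rw [show v = 1 from congrArg Subtype.val e, mul_one]; exact hs)
  obtain ⟨η, hη, h10⟩ := (corr_pgroup hS.pg nV h7.not_two_dvd_nat rfl inf_le_left).surj _ (isIrrCharacter_monoidHom β)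
  obtain ⟨ξ, h11, h12⟩ := exists_ext_le_of_coprime V hη.1 (T := S ⊔ V) (stab_eq_inertia V η ▸ sup_le hη.2
    (le_stab_self hη.1.isClassFunction)) le_sup_right (by
      rw [Subgroup.relIndex_sup_right]
      exact h6.coprime_dvd_left (Subgroup.relIndex_dvd_card _ _))
  obtain ⟨χ, h13, h14, h15, -⟩ := exists_odd_over (S ⊔ V) ((odd_index_sylow hS).of_dvd_nat
    (Subgroup.index_dvd_of_le le_sup_left)) h11 (by
      rw [show charDegree ξ = charDegree η from congrArg (fun z : ℂ => ⌊z.re⌋₊) (h12 1)]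
      exact h7.of_dvd_nat hη.1.charDegree_dvd_card)
  have h16 := mult_trans (ι := (V ⊓ Subgroup.centralizer (S : Set G)).subtype) h13.isCharacter hη.1
    (isCharacter_monoidHom β) (mult_trans (ι := V.subtype) (ι₂ := Subgroup.inclusion le_sup_right) h13.isCharacter h11
      hη.1.isCharacter h15.pos.ne' ((mult_of_comp_eq hη.1 h12).trans_ne one_ne_zero)) fun e => h10 (e ▸ dvd_zero _)
  exact hβ (Units.ext ((apply_eq_of_mult h13.isCharacter (isIrrCharacter_monoidHom β) h16 (c := ⟨v, h8⟩)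
    (odd_le_ker hS.pg V h7 h13 h14 (Or.inl (h χ h13 h14)) v hv)).trans (by simp)))

theorem hom_real_iff [Finite G] (ν : G →* ℂˣ) (x : G) : (ν x : ℂ).im = 0 ↔ ν (x ^ 2) = 1 := by
  rw [← Complex.conj_eq_iff_im, ← (isCharacter_monoidHom ν).apply_inv, Units.val_inj, sq, map_mul, map_inv,
    inv_eq_iff_mul_eq_one]

theorem all_odd_real_iff [Finite G] [Group.IsSolvable G] (P : Sylow 2 G) :
    (∀ χ : IrrCharacter G, Odd (charDegree χ.1) → ∀ g, (χ.1 g).im = 0) ↔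
      commutator (P : Subgroup G) = frattini (P : Subgroup G) ∧
        Subgroup.normalizer ((P : Subgroup G) : Set G) = (P : Subgroup G) := by
  haveI := Fact.mk Nat.prime_two
  have hP := H26.isSyl_top P
  refine ⟨fun h => ?_, fun ⟨h1, h2⟩ χ ho => ?_⟩
  · have h1 := normalizer_le_of_real _ G rfl (fun χ hχ => h ⟨χ, hχ⟩) P hP
    refine ⟨(H04.commutator_le_frattini P.2).antisymm (H04.frattini_le (p := 2) _ le_rfl fun x => by_contra fun hx => ?_),
      h1.antisymm Subgroup.le_normalizer⟩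
    obtain ⟨ν, hν⟩ := exists_hom_apply_ne_one hx
    obtain ⟨χ, h2, h3, h4, -⟩ := exists_odd_over _ (odd_index_sylow hP) (isIrrCharacter_monoidHom ν)
      (deg_hom ν ▸ odd_one)
    obtain ⟨-, n, hn, h5⟩ := odd_corr _ G rfl _ χ χ ν ν⁻¹ hP h2 h2 h3 h3 h4 (by
      rw [← mult_conj _ h2.isCharacter (isCharacter_monoidHom ν), (conj_eq_iff_forall_im χ).2 (h ⟨χ, h2⟩ h3)] at h4
      convert h4 using 3 with y
      exact (congrArg Units.val (map_inv ν y)).symm.trans ((isCharacter_monoidHom ν).apply_inv y)) (Or.inr h1) (Or.inl rfl)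
    have := h5 x (⟨n, h1 hn⟩ * x * (⟨n, h1 hn⟩ : (P : Subgroup G))⁻¹) rfl
    rw [map_mul, map_mul, map_inv, mul_inv_cancel_comm, MonoidHom.inv_apply, inv_eq_iff_mul_eq_one] at this
    exact hν (by rwa [sq, map_mul])
  · obtain ⟨ν, h3⟩ := exists_lin_of_not_dvd P.2 (P : Subgroup G).subtype χ.2.isCharacter ho.not_two_dvd_nat
    rw [← even_iff_two_dvd, Nat.not_even_iff_odd] at h3
    refine (conj_eq_iff_forall_im _).1 (odd_corr _ G rfl _ _ χ.1 ν ν hP χ.2.conj χ.2 (charDegree_conj χ.1 ▸ ho) ho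
      ?_ h3 (Or.inr h2.le) (Or.inr rfl)).1
    rwa [← mult_conj _ χ.2.isCharacter (isCharacter_monoidHom ν), (conj_eq_iff_forall_im _).2 fun x =>
      (hom_real_iff ν x).2 (Abelianization.commutator_subset_ker ν (h1 ▸ H04.pow_mem_frattini P.2 x))] at h3

end H07
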