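import Cfsg.Agent.H07.S7D
import Cfsg.Agent.S3035
import Cfsg.Agent.S0058
import Cfsg.Agent.H08.Dih
import Cfsg.Agent.H02.PPrimeCore

/-! Part `X` of S5573: recognition of `S₅`. -/

set_option autoImplicit false
open Cfsg BG Subgroup

namespace H07.S7X
universe u

theorem cj {X Y : Type*} [Group X] [Group Y] (e : X ≃* Y) (w : X) : Nat.card C_[w] = Nat.card C_[e w] :=
  Nat.card_congr (e.toEquiv.subtypeEquiv fun x => by
    rw [mem_cent1, mem_cent1]; simp only [MulEquiv.toEquiv_eq_coe, EquivLike.coe_coe, ← map_mul, e.apply_eq_iff_eq])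

theorem three {X : Type*} [Group X] [Finite X] {w : X} (h : 3 ∣ Nat.card C_[w]) : ∃ y, y * y * y = 1 ∧ y ≠ 1 ∧ y * w = w * y := by
  haveI : Fact (Nat.Prime 3) := ⟨Nat.prime_three⟩
  obtain ⟨y, hy⟩ := exists_prime_orderOf_dvd_card' 3 h
  rw [← orderOf_coe] at hy
  refine ⟨y, ?_, fun e => by simp [e] at hy, mem_cent1.1 y.2⟩
  rw [← pow_three', ← hy, pow_orderOf_eq_one]

theorem o2 {X : Type*} [Group X] {w : X} : orderOf w = 2 ↔ w * w = 1 ∧ w ≠ 1 := by
  haveI : Fact (Nat.Prime 2) := ⟨Nat.prime_two⟩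
  rw [orderOf_eq_prime_iff, pow_two]

theorem no6 {X Y : Type*} [Group X] [Finite X] [Group Y] (e : X ≃* Y) (n : N6 Y) {z : X} (hz : orderOf z = 2)
    (h : 3 ∣ Nat.card C_[z]) : False := by
  obtain ⟨y, y3, y1, c⟩ := three h
  obtain ⟨z2, z1⟩ := o2.1 hz
  have c' : Commute y z := c
  have a2 : y * z * (y * z) = y * y := by rw [c'.symm.mul_mul_mul_comm, z2, mul_one]
  have a3 : y * z * (y * z) * (y * z) = z := by rw [a2, ← mul_assoc, y3, one_mul]
  have := n (e (y * z))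
  simp only [← map_mul, a3, z2, map_eq_one_iff e e.injective] at this
  rcases this trivial with h | h
  · rw [a2] at h; rw [h, one_mul] at y3; exact y1 y3
  · exact z1 h

theorem x : L.Js.XStmt.{u} := by
  intro X _ _ U z h cU hU hz h3
  haveI : Fact (Nat.Prime 2) := ⟨Nat.prime_two⟩
  have sq : ∀ w ∈ U, w * w = 1 := fun w i => by
    by_cases e : w = 1
    exacts [by simp [e], (o2.1 (hU w i e).1).1]
  have ab : ∀ a ∈ U, ∀ b ∈ U, a * b = b * a := fun a i b j => by
    rw [eq_inv_of_mul_eq_one_left (sq _ (mul_mem i j)), mul_inv_rev, ← eq_inv_of_mul_eq_one_left (sq _ i),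
      ← eq_inv_of_mul_eq_one_left (sq _ j)]
  obtain ⟨P, UP⟩ := (IsPGroup.of_card (n := 2) cU : IsPGroup 2 U).exists_le_sylow
  obtain ⟨P', zP⟩ := (IsPGroup.of_card (n := 1) (by rw [Nat.card_zpowers, hz]; rfl) : IsPGroup 2 (zpowers z)).exists_le_sylow
  obtain ⟨g, rfl⟩ := MulAction.exists_smul_eq X P' P
  set y := g * z * g⁻¹ with hy
  have yP : y ∈ g • P' := Subgroup.smul_mem_pointwise_smul z (MulAut.conj g) _ (zP (mem_zpowers z))
  generalize g • P' = P at UP yP
  have y3 : 3 ∣ Nat.card C_[y] := (cj (MulAut.conj g) z) ▸ h3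
  have y2 : orderOf y = 2 := ((MulAut.conj g).orderOf_eq z).trans hz
  clear hy
  clear_value y
  have y8 : ¬ 8 ∣ Nat.card C_[y] := fun k => by
    rcases h y y2 with l | ⟨-, l⟩
    exacts [absurd (y3.trans l) (by decide), absurd (k.trans l) (by decide)]
  have yU : y ∉ U := fun i => absurd (y3.trans (hU y i fun e => by simp [e] at y2).2) (by decide)
  have big : ∀ R : Subgroup X, U ≤ R → y ∈ R → R ≤ P → 8 ∣ Nat.card R := fun R a b c => by
    obtain ⟨k, hk⟩ := (P.isPGroup'.to_le c).exists_card_eq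
    have : Nat.card U < Nat.card R := lt_of_not_ge fun l => yU ((eq_of_le_of_card_ge a l).symm ▸ b)
    rw [hk, cU] at *
    exact pow_dvd_pow 2 (show 3 ≤ k from (Nat.pow_lt_pow_iff_right (a := 2) (n := 2) (by decide)).1 this)
  haveI : Nontrivial (P : Subgroup X) := ⟨⟨⟨y, yP⟩, 1, fun e => yU ((show y = 1 from congrArg Subtype.val e).symm ▸ one_mem _)⟩⟩
  haveI := P.isPGroup'.center_nontrivial
  obtain ⟨k, k0, hk⟩ := (P.isPGroup'.to_subgroup (center _)).nontrivial_iff_card.1 inferInstance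
  obtain ⟨t0, ht⟩ := exists_prime_orderOf_dvd_card' (G := center (P : Subgroup X)) 2 (hk ▸ dvd_pow_self 2 k0.ne')
  rw [← orderOf_coe, ← orderOf_coe] at ht
  set t : X := t0.1.1
  have Pt : (P : Subgroup X) ≤ C_[t] := fun a i => mem_cent1.2 (congrArg Subtype.val (mem_center_iff.1 t0.2 ⟨a, i⟩))
  have P8 := (big P UP yP le_rfl).trans (card_dvd_of_le Pt)
  have c8 : Nat.card C_[t] = 8 := Nat.dvd_antisymm ((h t ht).resolve_right fun l => absurd (P8.trans l.2) (by decide)) P8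
  obtain ⟨w, wU, nc⟩ : ∃ w ∈ U, w * y ≠ y * w := by
    by_contra! n
    exact y8 ((big (P ⊓ C_[y]) (le_inf UP fun a i => mem_cent1.2 (n a i)) ⟨yP, mem_cent1.2 rfl⟩ inf_le_left).trans
      (card_dvd_of_le inf_le_right))
  have yy := (o2.1 y2).1
  have wi := eq_inv_of_mul_eq_one_left (sq w wU)
  have yi := eq_inv_of_mul_eq_one_left yy
  have nm : y ∉ zpowers (w * y) := by
    rintro ⟨i, e⟩
    have : Commute (w * y) y := by
      have := (Commute.refl (w * y)).zpow_right i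
      rwa [show (w * y) ^ i = y from e] at this
    exact nc (mul_right_cancel (b := y) (by rw [this.eq, mul_assoc]))
  have st : w * y ∈ C_[t] := Pt (mul_mem (UP wU) yP)
  obtain ⟨j, -, hj⟩ := (Nat.dvd_prime_pow Nat.prime_two (m := 3)).1 ((orderOf_dvd_natCard _ st).trans c8.dvd)
  have j2 : 2 ≤ j := by
    by_contra! l
    have : (w * y) ^ 2 = 1 := orderOf_dvd_iff_pow_eq_one.1 (hj ▸ pow_dvd_pow 2 (show j ≤ 1 by omega))
    exact nc (by rw [eq_inv_of_mul_eq_one_left ((pow_two _).symm.trans this), mul_inv_rev, ← wi, ← yi])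
  obtain ⟨m, rfl⟩ : ∃ m, j = m + 1 := ⟨j - 1, by omega⟩
  have D := H08.dih_closure hj yy (by rw [mul_inv_rev, ← wi, ← mul_assoc, mul_inv_cancel_right, ← yi]) nm
  have le : closure {w * y, y} ≤ C_[t] := (closure_le _).2 (by rintro _ (rfl | rfl); exacts [st, Pt yP])
  have dv := card_dvd_of_le le
  rw [D.card, c8] at dv
  obtain rfl : m = 1 := by
    have := (Nat.pow_dvd_pow_iff_le_right (x := 2) (l := 3) (by decide)).1 dv
    omega
  have eq : closure {w * y, y} = C_[t] := eq_of_le_of_card_ge le (by rw [D.card, c8]; rfl)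
  rcases Cfsg.Agent.S3035.result t ht (eq ▸ D.nonempty_equiv) with e | ⟨⟨e⟩⟩ | ⟨⟨e⟩⟩ | ⟨⟨e⟩⟩ | ⟨⟨e⟩⟩
  · haveI : IsMulCommutative U := ⟨⟨fun a b => Subtype.ext (ab _ a.2 _ b.2)⟩⟩
    have co := H02.pPrimeCore_coprime 2 X
    have := Cfsg.Agent.S0058.result U (oddCore X) (fun c => by
      obtain ⟨a, ha⟩ := c.exists_ofOrder_eq_natCard
      rw [cU, ← orderOf_coe] at ha
      have := orderOf_dvd_of_pow_eq_one ((pow_two _).trans (sq _ a.2))
      rw [ha] at this; exact absurd this (by decide)) (by rw [normalizer_eq_top]; exact le_top)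
      (cU ▸ (co.pow_right 2).symm)
    have o : oddCore X = ⊥ := by
      rw [← this, eq_bot_iff]
      refine iSup₂_le fun a i => (Subgroup.card_eq_one.1 (Nat.eq_one_of_dvd_coprimes (co.pow_right 3) (card_dvd_of_le inf_le_left)
        ((card_dvd_of_le inf_le_right).trans (hU a i.1 i.2).2))).le
    rw [o, sup_bot_eq] at e
    exact absurd (h3.trans ((card_dvd_of_le (e ▸ le_top)).trans c8.dvd)) (by decide)
  · exact (no6 e n4 hz h3).elim
  · have key : ∀ w : X, orderOf w = 2 → 3 ∣ Nat.card C_[w] → ∃ g, g * e w * g⁻¹ = Equiv.swap 0 1 := fun w a b => by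
      obtain ⟨v, v3, v1, c⟩ := three b
      obtain ⟨a2, a1⟩ := o2.1 a
      exact s5 (e w) (by rw [← map_mul, a2, map_one]) (by simpa using a1) (e v) (by rw [← map_mul, ← map_mul, v3, map_one])
        (by simpa using v1) (by rw [← map_mul, c, map_mul])
    obtain ⟨g, hg⟩ := key z hz h3
    refine ⟨⟨e⟩, (cj (e.trans (MulAut.conj g)) z).trans (by rw [← c12, ← hg]; rfl), fun w a b => ?_⟩
    obtain ⟨g', hg'⟩ := key w a b
    have : IsConj (e z) (e w) := (isConj_iff.2 ⟨g, hg⟩).trans (isConj_iff.2 ⟨g', hg'⟩).symm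
    simpa using e.symm.toMonoidHom.map_isConj this
  · exact (no6 e n3 hz h3).elim
  · exact (no6 e n6 hz h3).elim

end H07.S7X
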