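import Cfsg.Agent.H07.MinNA
import Cfsg.Agent.H07.Glb1
import Cfsg.Agent.H24.PSolv
import Cfsg.Agent.H04.Critical

/-! Degree bound for groups acting with constant centralizers: `card_lt_deg_sq`; `exists_min_noncent`. -/

namespace H07
open Cfsg H05 H06 H01 Subgroup
open scoped ComplexConjugate commutatorElement Pointwise

variable {G : Type*} [Group G] {χ : G → ℂ}

theorem deg_le_of_mult {C : Type*} [Group C] [Finite C] {ι : C →* G} (hχ : IsCharacter G χ) {η : C → ℂ}
    (hη : IsIrrCharacter C η) (h : mult ι χ η ≠ 0) : charDegree η ≤ charDegree χ := by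
  have h1 : ∀ ξ : IrrCharacter C, mult ι χ ξ * charDegree (ξ : C → ℂ) ≤ charDegree χ := fun ξ => by
    rw [degree_eq_sum_mult ι hχ]
    exact Finset.single_le_sum (f := fun η : IrrCharacter C => mult ι χ η * charDegree (η : C → ℂ))
      (fun _ _ => Nat.zero_le _) (Finset.mem_univ ξ)
  exact (Nat.le_mul_of_pos_left _ (Nat.pos_of_ne_zero h)).trans (h1 ⟨η, hη⟩)

theorem exists_mult_apply_ne {C : Type*} [Group C] [Finite C] (ι : C →* G) (hχ : IsCharacter G χ) {c : C}
    (h : χ (ι c) ≠ χ 1) : ∃ η, IsIrrCharacter C η ∧ mult ι χ η ≠ 0 ∧ η c ≠ η 1 := by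
  by_contra h1
  push Not at h1
  apply h
  rw [← map_one ι, congrFun (comp_eq_sum_mult ι hχ) c, congrFun (comp_eq_sum_mult ι hχ) 1,
    Finset.sum_apply, Finset.sum_apply]
  refine Finset.sum_congr rfl fun η _ => ?_
  by_cases h2 : mult ι χ η = 0
  · simp [h2]
  · simp [h1 η η.2 h2]

/-- a minimal invariant subgroup on which `P` acts nontrivially -/
theorem exists_min_noncent [Finite G] {P K : Subgroup G} (hPK : P ≤ normalizer (K : Set G))
    (hcop : (Nat.card P).Coprime (Nat.card K)) (hs : Group.IsSolvable P ∨ Group.IsSolvable K)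
    (h : ¬ P ≤ centralizer (K : Set G)) :
    ∃ R : Subgroup G, R ≤ K ∧ P ≤ normalizer (R : Set G) ∧ ¬ P ≤ centralizer (R : Set G) ∧
      (∀ U < R, P ≤ normalizer (U : Set G) → P ≤ centralizer (U : Set G)) ∧ ⁅R, P⁆ = R ∧
      (∃ q : ℕ, q.Prime ∧ IsPGroup q R) ∧ P ≤ centralizer (⁅R, R⁆ : Subgroup G) ∧
      R ≤ centralizer (⁅R, R⁆ : Subgroup G) := by
  obtain ⟨R, ⟨h1, h2, h3⟩, h4⟩ := (Finite.to_wellFoundedLT (α := Subgroup G)).wf.has_min
    {R | R ≤ K ∧ P ≤ normalizer (R : Set G) ∧ ¬ P ≤ centralizer (R : Set G)} ⟨K, le_rfl, hPK, h⟩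
  have h5 : ∀ U < R, P ≤ normalizer (U : Set G) → P ≤ centralizer (U : Set G) := fun U a b =>
    by_contra fun c => h4 U ⟨a.le.trans h1, b, c⟩ a
  have hc := coprime_of_le_right hcop h1
  have hs' := solvable_or_of_le hs h1
  have h6 : ⁅R, P⁆ = R := by_contra fun c => h3 (le_centralizer_of_commutator_commutator_eq_bot h2 hc hs'
    (commutator_eq_bot_iff_le_centralizer.2 (le_centralizer_iff.1 (h5 _
      ((commutator_le_left_of_le_normalizer h2).lt_of_ne c) (right_le_normalizer_commutator R P)))))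
  obtain ⟨q, hq, h7⟩ : ∃ q : ℕ, q.Prime ∧ IsPGroup q R := by
    by_contra c
    push Not at c
    refine h3 (le_centralizer_iff.1 (relIndex_eq_one.1 (by_contra fun e => ?_)))
    obtain ⟨q, hq, h7⟩ := Nat.exists_prime_and_dvd e
    haveI := Fact.mk hq
    obtain ⟨Q, a, b, d, f⟩ := exists_invariant_sylow h2 hc hs' q
    exact d (h7.trans (relIndex_dvd_of_le_left R (le_centralizer_iff.1
      (h5 Q (a.lt_of_ne fun g => c q hq (g ▸ b)) f))))
  haveI := Fact.mk hq
  haveI := isSolvable_of_isPGroup h7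
  have h8 := h5 _ (commutator_lt_of_isPGroup h7 h7 le_normalizer (by
    rintro rfl; exact h3 (by simp))) (le_normalizer_commutator h2 h2)
  refine ⟨R, h1, h2, h3, h5, h6, ⟨q, hq, h7⟩, h8, ?_⟩
  rw [← commutator_eq_bot_iff_le_centralizer]
  nth_rewrite 1 [← h6]
  refine commutator_commutator_eq_bot_of_rotate ?_ ?_
  · rw [commutator_eq_bot_iff_le_centralizer.2 h8, commutator_bot_left]
  · exact eq_bot_iff.2 ((commutator_mono (commutator_le_left_of_le_normalizer
      (left_le_normalizer_commutator R R)) le_rfl).trans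
      (commutator_eq_bot_iff_le_centralizer.2 (le_centralizer_iff.1 h8)).le)

theorem card_lt_relIndex [Finite G] {P R : Subgroup G} (h2 : P ≤ normalizer (R : Set G))
    (hcop : (Nat.card P).Coprime (Nat.card R)) (h3 : ¬ P ≤ centralizer (R : Set G))
    (hC : ∀ x ∈ P, x ≠ 1 → ∀ k ∈ R, x * k = k * x → k ∈ centralizer (P : Set G)) :
    Nat.card P < (centralizer (P : Set G)).relIndex R := by
  obtain ⟨r, hr, hr'⟩ := SetLike.not_le_iff_exists.1 (mt le_centralizer_iff.1 h3)
  let f : Option P → R ⧸ (centralizer (P : Set G)).subgroupOf R := fun o =>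
    o.elim ((1 : R) : R ⧸ _) fun x => ((⟨_, conj_mem_of_le_normalizer h2 x.2 hr⟩ : R) : R ⧸ _)
  have h4 : ∀ x : P, (x : G) * r * (x : G)⁻¹ ∉ centralizer (P : Set G) := fun x c => hr' (by
    simpa [mul_assoc] using conj_mem_of_le_normalizer' (le_normalizer_centralizer le_normalizer) x.2 c)
  have hf : Function.Injective f := by
    rintro (_ | x) (_ | y) e
    · rfl
    · exact absurd (by simpa [mem_subgroupOf] using QuotientGroup.eq.1 e) (h4 y)
    · exact absurd (by simpa [mem_subgroupOf] using QuotientGroup.eq.1 e.symm) (h4 x)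
    have h5 : ((x : G) * r * (x : G)⁻¹)⁻¹ * (y * r * (y : G)⁻¹) ∈ centralizer (P : Set G) :=
      (QuotientGroup.eq (s := (centralizer (P : Set G)).subgroupOf R)).1 e
    have h6 := conj_mem_of_le_normalizer' (le_normalizer_centralizer le_normalizer) x.2 h5
    have hu : (x : G)⁻¹ * y ∈ P := mul_mem (inv_mem x.2) y.2
    have h7 := H04.aut_apply_eq_of_coprime' (a := MulAut.conj ((x : G)⁻¹ * y)) (x := r)
      (c := (x : G)⁻¹ * (((x : G) * r * (x : G)⁻¹)⁻¹ * (y * r * (y : G)⁻¹)) * x)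
      (by simp [mul_assoc]) (mul_inv_eq_iff_eq_mul.2 (h6 _ hu))
      ((hcop.coprime_dvd_left ((orderOf_map_dvd _ _).trans (orderOf_dvd_natCard _ hu))).coprime_dvd_right
        (orderOf_dvd_natCard _ (conj_mem_of_le_normalizer' h2 x.2 (mul_mem
          (inv_mem (conj_mem_of_le_normalizer h2 x.2 hr)) (conj_mem_of_le_normalizer h2 y.2 hr)))))
    by_contra c
    exact hr' (hC _ hu (fun e => c (congrArg some (Subtype.ext (inv_mul_eq_one.1 e)))) r hr
      (mul_inv_eq_iff_eq_mul.1 h7))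
  have := Nat.card_le_card_of_injective f hf
  rw [Finite.card_option] at this
  exact this

/-- if all nonidentity elements of `P` have the same centralizer in the coprime group `K` on which `P` acts
nontrivially, faithful characters have `χ(1)² > |P|` -/
theorem card_lt_deg_sq [Finite G] {P K : Subgroup G} (hPK : P ≤ normalizer (K : Set G))
    (hcop : (Nat.card P).Coprime (Nat.card K)) (hs : Group.IsSolvable P ∨ Group.IsSolvable K)
    (h : ¬ P ≤ centralizer (K : Set G))
    (hC : ∀ x ∈ P, x ≠ 1 → ∀ k ∈ K, x * k = k * x → k ∈ centralizer (P : Set G))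
    (hχ : IsCharacter G χ) (hf : ∀ g, χ g = χ 1 → g = 1) : Nat.card P < charDegree χ ^ 2 := by
  classical
  obtain ⟨R, h1, h2, h3, h5, h6, -, h7, h8⟩ := exists_min_noncent hPK hcop hs h
  have hc := coprime_of_le_right hcop h1
  by_cases h0 : ⁅R, R⁆ = ⊥
  · haveI : IsMulCommutative R := ⟨⟨fun a b => Subtype.ext
      (commutator_eq_bot_iff_le_centralizer.1 h0 b.2 a a.2)⟩⟩
    have h9 := centralizer_inf_commutator_eq_bot h2 hc
    rw [h6, inf_assoc, inf_comm _ R, ← inf_assoc, inf_idem] at h9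
    haveI := normal_subgroupOf_sup h2
    letI := Fintype.ofFinite (P ⊔ R : Subgroup G)
    obtain ⟨⟨r, hr⟩, hr1⟩ := ne_bot_iff_exists_ne_one.1 (show R ≠ ⊥ by rintro rfl; exact h3 (by simp))
    obtain ⟨ψ, a1, a2, a3⟩ := exists_mult_apply_ne (P ⊔ R).subtype hχ (c := ⟨r, mem_sup_right hr⟩)
      fun e => hr1 (Subtype.ext (hf _ e))
    obtain ⟨θ, b1, b2, b3⟩ := exists_irr_under_ne_one (R.subgroupOf (P ⊔ R)) a1 ⟨_, hr, a3⟩
    have c1 := inertia_le_of_centralizer_le (R.subgroupOf (P ⊔ R)) (fun n hn hn1 g hg => ?_) b1 b2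
    · have c2 := (index_dvd_of_le c1).trans
        ((Dvd.intro _ rfl).trans (index_inertia_dvd (R.subgroupOf (P ⊔ R)) a1 b1 b3))
      have c3 := (Nat.le_of_dvd a1.charDegree_pos c2).trans (deg_le_of_mult hχ a1 a2)
      rw [(isComplement'_subgroupOf_sup h2 (disjoint_of_coprime_natCard hc.symm)).symm.index_eq_card,
        card_subgroupOf_of_le le_sup_left] at c3
      have c4 : 1 < Nat.card P := (one_lt_card_iff_ne_bot P).2 (by rintro rfl; exact h3 bot_le)
      nlinarith
    · obtain ⟨⟨⟨a, ha⟩, ⟨x, hx⟩⟩, rfl⟩ :=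
        (isComplement'_subgroupOf_sup h2 (disjoint_of_coprime_natCard hc.symm)).2 g
      by_cases c : (x : G) = 1
      · exact mul_mem ha (show (x : G) ∈ R from c ▸ one_mem R)
      exfalso
      have d1 : (a : G) * x * n = n * (a * x) := congrArg Subtype.val (mem_centralizer_singleton_iff.1 hg)
      have d2 : (n : G) * a = a * n := setLike_mul_comm (s := R) hn ha
      have d3 : (n : G) ∈ R ⊓ centralizer (P : Set G) := ⟨hn, hC x hx c n (h1 hn) (by
        rw [← mul_assoc, d2, mul_assoc, mul_assoc] at d1; exact mul_left_cancel d1)⟩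
      rw [h9] at d3
      exact hn1 (Subtype.ext d3)
  obtain ⟨⟨c, hc1⟩, hc2⟩ := ne_bot_iff_exists_ne_one.1 h0
  have hcR : ⁅R, R⁆ ≤ R := commutator_le_left_of_le_normalizer le_normalizer
  obtain ⟨θ, a1, a2, a3⟩ := exists_mult_apply_ne R.subtype hχ (c := ⟨c, hcR hc1⟩)
    fun e => hc2 (Subtype.ext (hf _ e))
  have b0 : ∀ x : R, x ∈ commutator R ↔ (x : G) ∈ ⁅R, R⁆ := fun x => by
    rw [← R.map_subtype_commutator]
    exact (mem_map_iff_mem R.subtype_injective).symm
  have b1 : commutator R ≤ charCenter θ := fun x hx => center_le_charCenter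
    (mem_center_iff.2 fun g => Subtype.ext (h8 g.2 x ((b0 x).1 hx)).symm)
  have b2 := deg_sq_eq_index a1 b1
  have b3 := h5 ((charCenter θ).map R.subtype) ((map_subtype_le _).lt_of_ne fun e => ?_)
    (le_normalizer_of_conj_mem ?_)
  · have b4 : charCenter θ ≤ (centralizer (P : Set G)).subgroupOf R := fun x hx =>
      le_centralizer_iff.1 b3 ⟨x, hx, rfl⟩
    have b5 := Nat.le_of_dvd (Nat.pos_of_ne_zero index_ne_zero_of_finite) (index_dvd_of_le b4)
    exact ((card_lt_relIndex h2 hc h3 fun x a b k d => hC x a b k (h1 d)).trans_le b5).trans_le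
      (b2 ▸ Nat.pow_le_pow_left (deg_le_of_mult hχ a1 a2) 2)
  · have : charCenter θ = ⊤ := map_injective R.subtype_injective (by rw [e, ← MonoidHom.range_eq_map, range_subtype])
    rw [this, index_top] at b2
    replace b2 := (Nat.pow_eq_one.1 b2).resolve_right two_ne_zero
    exact a3 (a1.isCharacter.mem_charKer.1 ((commutator_le_charKer_iff a1).2
      (by rw [← a1.charDegree_eq, b2, Nat.cast_one]) ((b0 _).2 hc1)))
  · rintro x hx _ ⟨r, hr, rfl⟩
    refine ⟨⟨_, conj_mem_of_le_normalizer h2 hx r.2⟩, mem_charCenter_iff.2 fun g => ?_, rfl⟩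
    have d1 := mem_charCenter_iff.1 hr ⟨_, conj_mem_of_le_normalizer' h2 hx g.2⟩
    convert d1 using 1
    refine Subtype.ext ?_
    have d2 := h7 hx _ (commutator_mem_commutator (conj_mem_of_le_normalizer' h2 hx g.2) r.2)
    simp only [Subgroup.coe_mul, Subgroup.coe_inv, coe_subtype]
    rw [← commutatorElement_def (x⁻¹ * g * x), ← mul_inv_eq_iff_eq_mul.2 d2.symm]
    group

end H07
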