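import Cfsg.Agent.S3773
import Cfsg.Agent.S3774
import Cfsg.Agent.H04.Critical
import Cfsg.Agent.H01.Basic

/-!
2-groups of exponent 4 with central involutions permuted transitively by automorphisms:
an odd automorphism `a ≠ 1` fixing all involutions fixes only involutions (`Thom.SQ.fpf`), and its prime
order divides `q + 1` (`Thom.SQ.prime_dvd`).
-/

set_option autoImplicit false
open Cfsg Subgroup Finset
open scoped commutatorElement

namespace H07
namespace Thom

structure SQ (D : Type*) [Group D] : Prop where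
  pg : IsPGroup 2 D
  cen : ∀ x : D, x ^ 2 = 1 → x ∈ center D
  sq : ∀ x : D, (x ^ 2) ^ 2 = 1
  com : ∀ x y : D, ⁅x, y⁆ ^ 2 = 1
  trans : ∀ x y : D, x ≠ 1 → x ^ 2 = 1 → y ≠ 1 → y ^ 2 = 1 → ∃ a : MulAut D, a x = y

variable {D : Type*} [Group D]

/-- the involutions with 1 -/
def SQ.V (h : SQ D) : Subgroup D where
  carrier := {x | x ^ 2 = 1}
  one_mem' := one_pow 2
  mul_mem' := fun {x y} hx hy => show (x * y) ^ 2 = 1 by
    rw [(H04.commute_of_mem_center (h.cen x hx) y).mul_pow, show x ^ 2 = 1 from hx,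
      show y ^ 2 = 1 from hy, one_mul]
  inv_mem' := fun {x} (hx : x ^ 2 = 1) => show x⁻¹ ^ 2 = 1 by rw [inv_pow, hx, inv_one]

theorem SQ.mem_V (h : SQ D) {x : D} : x ∈ h.V ↔ x ^ 2 = 1 := Iff.rfl

theorem SQ.V_le (h : SQ D) : h.V ≤ center D := fun x hx => h.cen x hx

theorem SQ.mul_sq (h : SQ D) (x y : D) : (x * y) ^ 2 = x ^ 2 * y ^ 2 * ⁅y, x⁆ := by
  have := h.cen _ (h.com y x)
  rw [H04.mul_pow_eq_of_commute (H04.commute_of_mem_center this x)
    (H04.commute_of_mem_center this y)]
  simp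

theorem SQ.sum_sq [Fintype D] [DecidableEq D] (h : SQ D) : ∃ f : ℕ,
    (∀ v : D, v ^ 2 = 1 → v ≠ 1 → #{x : D | x ^ 2 = v} = f) ∧
    ∀ F : D → ℤ, ∑ x, F (x ^ 2) =
      Nat.card h.V * F 1 + f * (∑ v with v ^ 2 = 1, F v - F 1) := by
  have key : ∀ u v : D, u ^ 2 = 1 → u ≠ 1 → v ^ 2 = 1 → v ≠ 1 →
      #{x : D | x ^ 2 = u} = #{x : D | x ^ 2 = v} := by
    intro u v h1 h2 h3 h4
    obtain ⟨a, rfl⟩ := h.trans u v h2 h1 h4 h3
    refine Finset.card_bij (fun x _ => a x) ?_ (fun _ _ _ _ e => a.injective e) ?_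
    · intro x hx
      simp only [Finset.mem_filter, Finset.mem_univ, true_and] at hx ⊢
      rw [← map_pow, hx]
    · intro y hy
      simp only [Finset.mem_filter, Finset.mem_univ, true_and] at hy
      refine ⟨a.symm y, ?_, by simp⟩
      simp only [Finset.mem_filter, Finset.mem_univ, true_and]
      rw [← map_pow, hy]; simp
  obtain ⟨f, hf⟩ : ∃ f : ℕ, ∀ v : D, v ^ 2 = 1 → v ≠ 1 → #{x : D | x ^ 2 = v} = f := by
    by_cases h0 : ∃ u : D, u ^ 2 = 1 ∧ u ≠ 1
    · obtain ⟨u, h1, h2⟩ := h0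
      exact ⟨_, fun v h3 h4 => key v u h3 h4 h1 h2⟩
    · exact ⟨0, fun v h3 h4 => absurd ⟨v, h3, h4⟩ h0⟩
  refine ⟨f, hf, fun F => ?_⟩
  have h1 : (1 : D) ∈ (univ.filter fun v : D => v ^ 2 = 1) := by simp
  have h2 : Nat.card h.V = #{x : D | x ^ 2 = 1} := by
    rw [← Fintype.card_subtype, ← Nat.card_eq_fintype_card]; rfl
  rw [← Finset.sum_fiberwise_of_maps_to (s := univ) (t := univ.filter fun v : D => v ^ 2 = 1)
    (g := fun x => x ^ 2) (fun x _ => by simpa using h.sq x), ← Finset.add_sum_erase _ F h1,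
    ← Finset.add_sum_erase _ (fun v => ∑ i with i ^ 2 = v, F (i ^ 2)) h1, add_sub_cancel_left,
    Finset.mul_sum, h2]
  congr 1
  · rw [Finset.sum_congr rfl (g := fun _ => F 1) (fun x hx => by rw [(Finset.mem_filter.1 hx).2])]
    simp
  · refine Finset.sum_congr rfl fun v hv => ?_
    rw [Finset.sum_congr rfl (g := fun _ => F v) (fun x hx => by rw [(Finset.mem_filter.1 hx).2]),
      Finset.sum_const, hf v (Finset.mem_filter.1 (Finset.mem_erase.1 hv).2).2 (Finset.mem_erase.1 hv).1]
    simp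

theorem SQ.card_cases [Finite D] [Nontrivial D] (h : SQ D) :
    Nat.card D = Nat.card h.V ∨ Nat.card D = Nat.card h.V ^ 2 ∨ Nat.card D = Nat.card h.V ^ 3 := by
  obtain ⟨-, m, hm⟩ := Cfsg.Agent.S3774.result h.pg h.trans
  have h3 := (Cfsg.Agent.S3773.result h.pg (by
      rw [show (2 : ℕ) = 1 + 1 from rfl, Subgroup.lowerCentralSeries_succ, eq_bot_iff,
        commutator_le]
      intro x hx y _
      have h1 : (⊤ : Subgroup D).lowerCentralSeries 1 ≤ center D := by
        rw [show (1 : ℕ) = 0 + 1 from rfl, Subgroup.lowerCentralSeries_succ, commutator_le]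
        exact fun a _ b _ => h.cen _ (h.com a b)
      exact (H04.commute_of_mem_center (h1 hx) y).commutator_eq)
    (fun x => by rw [show 4 = 2 * 2 from rfl, pow_mul, h.sq]) (fun x y hx hy => h.V.mul_mem hx hy)).1
  change Nat.card D = Nat.card h.V ^ m at hm
  change Nat.card D ≤ Nat.card h.V ^ 3 at h3
  have h1 : 1 < Nat.card D := Finite.one_lt_card
  have h2 : 1 < Nat.card h.V := by
    by_contra h4
    have : Nat.card h.V = 1 := by have := Nat.card_pos (α := h.V); omega
    rw [this, one_pow] at hm; omega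
  rw [hm] at h3 h1 ⊢
  have h4 := (Nat.pow_le_pow_iff_right h2).1 h3
  have h5 : m ≠ 0 := by rintro rfl; simp at h1
  obtain rfl | rfl | rfl : m = 1 ∨ m = 2 ∨ m = 3 := by omega
  all_goals simp

theorem SQ.one_lt [Finite D] [Nontrivial D] (h : SQ D) : 1 < Nat.card h.V := by
  have h1 : 1 < Nat.card D := Finite.one_lt_card
  by_contra h4
  have : Nat.card h.V = 1 := by have := Nat.card_pos (α := h.V); omega
  have h2 := h.card_cases
  rw [this] at h2; omega

/-- the order is `q³` and the fibres of squaring have size `q(q+1)` -/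
theorem SQ.cube [Fintype D] [DecidableEq D] (h : SQ D) {a : MulAut D} (ha : a ≠ 1)
    (ho : (orderOf a).Coprime 2) (hv : ∀ v : D, v ^ 2 = 1 → a v = v) :
    Nat.card D = Nat.card h.V ^ 3 ∧
    (∀ v : D, v ^ 2 = 1 → v ≠ 1 → #{x : D | x ^ 2 = v} = Nat.card h.V * (Nat.card h.V + 1)) ∧
    ∀ F : D → ℤ, ∑ x, F (x ^ 2) = Nat.card h.V * F 1 +
      Nat.card h.V * (Nat.card h.V + 1) * (∑ v with v ^ 2 = 1, F v - F 1) := by
  haveI : Nontrivial D := by
    by_contra h0
    rw [not_nontrivial_iff_subsingleton] at h0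
    exact ha (by ext x; exact Subsingleton.elim _ _)
  obtain ⟨f, h1, h2⟩ := h.sum_sq
  have h3 := h2 fun _ => 1
  have h4 : Nat.card h.V = #{x : D | x ^ 2 = 1} := by
    rw [← Fintype.card_subtype, ← Nat.card_eq_fintype_card]; rfl
  simp only [Finset.sum_const, Finset.card_univ, nsmul_eq_mul, mul_one, ← h4,
    ← Nat.card_eq_fintype_card] at h3
  have h5 := h.one_lt
  have h6 : Nat.card h.V < f := by
    by_contra h6
    apply ha
    refine H04.aut_eq_one_of_trivial_on_quotient h.pg ho h.V hv fun x => ?_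
    by_cases hx : x ^ 2 = 1
    · rw [hv x hx, inv_mul_cancel]; exact h.V.one_mem
    have h7 : (univ.filter fun v : D => v ^ 2 = 1).image (fun v => x * v) =
        univ.filter fun y : D => y ^ 2 = x ^ 2 := by
      refine Finset.eq_of_subset_of_card_le ?_ ?_
      · intro y hy
        obtain ⟨v, hv', rfl⟩ := Finset.mem_image.1 hy
        have h8 := (Finset.mem_filter.1 hv').2
        simp only [Finset.mem_filter, Finset.mem_univ, true_and]
        rw [(H04.commute_of_mem_center (h.cen v h8) x).symm.mul_pow, h8, mul_one]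
      · rw [h1 _ (h.sq x) hx, Finset.card_image_of_injective _ (mul_right_injective x), ← h4]
        omega
    have h8 : a x ∈ univ.filter fun y : D => y ^ 2 = x ^ 2 := by
      simp only [Finset.mem_filter, Finset.mem_univ, true_and]
      rw [← map_pow, hv _ (h.sq x)]
    rw [← h7] at h8
    obtain ⟨v, hv', e⟩ := Finset.mem_image.1 h8
    rw [← e, inv_mul_cancel_left]
    exact (Finset.mem_filter.1 hv').2
  have h5' : (1 : ℤ) < Nat.card h.V := by exact_mod_cast h5
  have h6' : (Nat.card h.V : ℤ) < f := by exact_mod_cast h6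
  have h7 : Nat.card D = Nat.card h.V ^ 3 := by
    rcases h.card_cases with e | e | e
    · rw [e] at h3; nlinarith
    · rw [e] at h3; push_cast at h3; nlinarith
    · exact e
  have h8 : f = Nat.card h.V * (Nat.card h.V + 1) := by
    rw [h7] at h3
    push_cast at h3
    have : ((Nat.card h.V : ℤ) - 1) * f = (Nat.card h.V - 1) * (Nat.card h.V * (Nat.card h.V + 1)) := by
      linarith
    exact_mod_cast mul_left_cancel₀ (by omega) this
  subst h8
  exact ⟨h7, h1, fun F => by rw [h2]; push_cast; rfl⟩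

/-- `g ↦ ⁅d, g⁆` -/
def SQ.φ (h : SQ D) (d : D) : D →* D where
  toFun g := ⁅d, g⁆
  map_one' := by simp
  map_mul' x y := H04.commutatorElement_mul_right_of_center (h.cen _ (h.com d y))

theorem SQ.ker_φ (h : SQ D) (d : D) : (h.φ d).ker = centralizer {d} := by
  ext g
  rw [MonoidHom.mem_ker, mem_centralizer_singleton_iff]
  exact commutatorElement_eq_one_iff_mul_comm.trans eq_comm

theorem SQ.range_φ [Fintype D] [DecidableEq D] (h : SQ D) (h3 : Nat.card D = Nat.card h.V ^ 3)
    (hF : ∀ F : D → ℤ, ∑ x, F (x ^ 2) = Nat.card h.V * F 1 +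
      Nat.card h.V * (Nat.card h.V + 1) * (∑ v with v ^ 2 = 1, F v - F 1))
    {d : D} (hd : d ∉ h.V) : (h.φ d).range = h.V := by
  classical
  have hle : (h.φ d).range ≤ h.V := by rintro _ ⟨g, rfl⟩; exact h.com d g
  by_contra hne
  obtain ⟨M, hM, -, hi⟩ := H04.exists_index_eq_of_ne_top (h.pg.to_subgroup h.V)
    (H := (h.φ d).range.subgroupOf h.V) fun e => hne (le_antisymm hle (subgroupOf_eq_top.1 e))
  let χ : h.V →* ℤ :=
    { toFun := fun v => if v ∈ M then 1 else -1
      map_one' := if_pos M.one_mem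
      map_mul' := fun u v => by
        have := Subgroup.mul_mem_iff_of_index_two hi (a := u) (b := v)
        by_cases h1 : u ∈ M <;> by_cases h2 : v ∈ M <;> simp_all }
  have hχ : ∀ v, χ v = if v ∈ M then 1 else -1 := fun _ => rfl
  have hχ1 : χ ≠ 1 := by
    intro e
    have : M = ⊤ := eq_top_iff.2 fun v _ => by
      by_contra h1
      have := hχ v
      rw [e, if_neg h1] at this
      simp at this
    rw [this, index_top] at hi
    omega
  have hχ2 : ∀ v, χ v * χ v = 1 := fun v => by rw [hχ]; split_ifs <;> simp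
  let F : D → ℤ := fun v => if hv : v ∈ h.V then χ ⟨v, hv⟩ else 0
  have hFv : ∀ v (hv : v ∈ h.V), F v = χ ⟨v, hv⟩ := fun v hv => dif_pos hv
  have hF1 : F 1 = 1 := by rw [hFv 1 h.V.one_mem]; exact map_one χ
  have hsum : ∑ v with v ^ 2 = 1, F v = 0 := by
    rw [← sum_hom_units_eq_zero χ hχ1,
      Finset.sum_subtype (p := (· ∈ h.V)) (univ.filter fun v : D => v ^ 2 = 1)
        (fun x => by simp [h.mem_V])]
    exact Finset.sum_congr rfl fun v _ => hFv v v.2
  have hT := hF F
  rw [hsum, hF1] at hT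
  let ε : D → ℤ := fun x => χ ⟨x ^ 2, h.sq x⟩
  let β : D → D →* ℤ := fun y => χ.comp ((h.φ y).codRestrict h.V fun g => h.com y g)
  have hβ : ∀ y x, β y x = χ ⟨⁅y, x⁆, h.com y x⟩ := fun _ _ => rfl
  have hε : ∀ x y, ε (x * y) = ε x * ε y * β y x := fun x y => by
    simp only [ε, hβ, ← map_mul]
    congr 1
    exact Subtype.ext (h.mul_sq x y)
  have hT' : ∑ x, ε x = - (Nat.card h.V : ℤ) ^ 2 := by
    rw [Finset.sum_congr rfl (g := fun x => F (x ^ 2)) (fun x _ => (hFv _ (h.sq x)).symm), hT]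
    ring
  let R : Subgroup D :=
    { carrier := {y | β y = 1}
      one_mem' := by
        ext x
        rw [hβ, MonoidHom.one_apply, ← map_one χ]
        congr 1
        exact Subtype.ext (commutatorElement_one_left x)
      mul_mem' := fun {y z} hy hz => by
        ext x
        have h1 := DFunLike.congr_fun (show β y = 1 from hy) x
        have h2 := DFunLike.congr_fun (show β z = 1 from hz) x
        rw [hβ, MonoidHom.one_apply] at h1 h2 ⊢
        rw [← mul_one (1 : ℤ), ← h1]
        nth_rewrite 2 [h1]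
        rw [← h2, ← map_mul]
        congr 1
        exact Subtype.ext (H04.commutatorElement_mul_left_of_center (h.cen _ (h.com z x)))
      inv_mem' := fun {y} hy => by
        ext x
        have h1 := DFunLike.congr_fun (show β y = 1 from hy) x
        rw [hβ, MonoidHom.one_apply] at h1 ⊢
        rw [← mul_one (χ _), ← h1, ← map_mul, h1, ← map_one χ]
        congr 1
        refine Subtype.ext ?_
        have := H04.commutatorElement_mul_left_of_center (a := y⁻¹) (h.cen _ (h.com y x))
        simpa using this.symm }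
  have hR : ∀ y, y ∈ R ↔ β y = 1 := fun _ => Iff.rfl
  have hsq : (∑ x, ε x) ^ 2 = Nat.card D * ∑ y : R, ε y := by
    have h1 : ∀ x, ∑ y, ε y = ∑ y, ε (x * y) := fun x =>
      (Fintype.sum_equiv (Equiv.mulLeft x) _ _ fun _ => rfl).symm
    calc (∑ x, ε x) ^ 2 = ∑ x, ε x * ∑ y, ε (x * y) := by
          rw [pow_two, Finset.sum_mul]; exact Finset.sum_congr rfl fun x _ => by rw [← h1 x]
      _ = ∑ x, ∑ y, ε y * β y x := by
          refine Finset.sum_congr rfl fun x _ => ?_
          rw [Finset.mul_sum]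
          refine Finset.sum_congr rfl fun y _ => ?_
          have := hχ2 ⟨x ^ 2, h.sq x⟩
          rw [hε]
          calc ε x * (ε x * ε y * β y x) = (ε x * ε x) * (ε y * β y x) := by ring
            _ = _ := by rw [show ε x * ε x = 1 from this, one_mul]
      _ = ∑ y, ε y * ∑ x, β y x := by
          rw [Finset.sum_comm]; exact Finset.sum_congr rfl fun y _ => by rw [Finset.mul_sum]
      _ = ∑ y with y ∈ R, ε y * Nat.card D := by
          rw [Finset.sum_filter]
          refine Finset.sum_congr rfl fun y _ => ?_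
          split_ifs with h2
          · rw [(hR y).1 h2]; simp
          · rw [sum_hom_units_eq_zero _ (mt (hR y).2 h2), mul_zero]
      _ = _ := by
          rw [← Finset.sum_mul, mul_comm,
            Finset.sum_subtype (p := (· ∈ R)) (univ.filter fun v : D => v ∈ R) (fun x => by simp)]
  let η : R →* ℤ :=
    { toFun := fun y => ε y
      map_one' := by simp only [ε, OneMemClass.coe_one, one_pow]; exact map_one χ
      map_mul' := fun x y => by
        rw [Subgroup.coe_mul, hε, (hR _).1 y.2]; simp }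
  have hq : (0 : ℤ) < Nat.card h.V := by exact_mod_cast Nat.card_pos
  have hη : ∑ y : R, ε y = Nat.card R := by
    by_cases h1 : η = 1
    · rw [Finset.sum_congr rfl (f := fun y : R => ε y) (g := fun _ => (1 : ℤ))
        fun y _ => DFunLike.congr_fun h1 y]
      simp
    · have h2 : ∑ y : R, ε y = 0 := sum_hom_units_eq_zero η h1
      rw [h2, hT', mul_zero] at hsq
      have : (Nat.card h.V : ℤ) = 0 := by simpa using hsq
      omega
  rw [hη, hT', h3] at hsq
  push_cast at hsq
  have hRc : Nat.card R = Nat.card h.V := by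
    have : (Nat.card h.V : ℤ) ^ 3 * Nat.card R = (Nat.card h.V : ℤ) ^ 3 * Nat.card h.V := by
      rw [← hsq]; ring
    exact_mod_cast mul_left_cancel₀ (by positivity) this
  have hVR : h.V ≤ R := fun v hv => by
    rw [hR]
    ext x
    rw [hβ, MonoidHom.one_apply, ← map_one χ]
    congr 1
    exact Subtype.ext (H04.commute_of_mem_center (h.cen v hv) x).commutator_eq
  have hdR : d ∈ R := by
    rw [hR]
    ext x
    rw [hβ, MonoidHom.one_apply, hχ, if_pos (hM ⟨x, rfl⟩)]
  exact hd (Subgroup.eq_of_le_of_card_ge hVR hRc.le ▸ hdR)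

theorem SQ.fpf [Finite D] (h : SQ D) {a : MulAut D} (ha : a ≠ 1)
    (ho : (orderOf a).Coprime 2) (hv : ∀ v : D, v ^ 2 = 1 → a v = v) {x : D} (hx : a x = x) :
    x ^ 2 = 1 := by
  classical
  haveI := Fintype.ofFinite D
  obtain ⟨h3, -, hF⟩ := h.cube ha ho hv
  have hq : 0 < Nat.card h.V := Nat.card_pos
  have hC : ∀ d, d ∉ h.V → Nat.card (centralizer ({d} : Set D)) = Nat.card h.V ^ 2 := fun d hd => by
    have h1 := (h.φ d).ker.card_mul_index
    rw [Subgroup.index_ker, h.range_φ h3 hF hd, h.ker_φ, h3, pow_succ] at h1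
    exact Nat.eq_of_mul_eq_mul_right hq h1
  haveI : h.V.Normal := ⟨fun n hn g => by
    rw [← (H04.commute_of_mem_center (h.cen n hn) g).eq, mul_inv_cancel_right]; exact hn⟩
  have hcomm : ∀ u w : D, (u : D ⧸ h.V) * w = w * u := fun u w => by
    rw [← commutatorElement_eq_one_iff_mul_comm]
    exact (QuotientGroup.eq_one_iff ⁅u, w⁆).2 (h.com u w)
  let ψ : D →* D ⧸ h.V :=
    { toFun := fun g => (g⁻¹ * a g : D)
      map_one' := by simp
      map_mul' := fun u w => by
        simp only [mul_inv_rev, map_mul, QuotientGroup.mk_mul]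
        have := hcomm w⁻¹ (u⁻¹ * a u)
        simp only [QuotientGroup.mk_mul] at this
        simp only [← mul_assoc] at this ⊢
        rw [this] }
  have hψ : ∀ g, ψ g = (g⁻¹ * a g : D) := fun _ => rfl
  have hker : ψ.ker = H04.fixSub a := by
    ext g
    rw [MonoidHom.mem_ker, hψ, QuotientGroup.eq_one_iff, H04.mem_fixSub]
    refine ⟨fun h1 => H04.aut_apply_eq_of_coprime h.pg ho (c := g⁻¹ * a g) (by simp) (hv _ h1),
      fun h1 => by rw [h1, inv_mul_cancel]; exact h.V.one_mem⟩
  set B := ψ.range.comap (QuotientGroup.mk' h.V) with hB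
  have hBm : ∀ y ∈ B, ∃ g, ∃ v ∈ h.V, y = g⁻¹ * a g * v := by
    rintro y ⟨g, hg⟩
    exact ⟨g, _, QuotientGroup.eq.1 hg, (mul_inv_cancel_left _ _).symm⟩
  have hBc : Nat.card B = Nat.card ψ.range * Nat.card h.V := by
    have h1 : B.index = ψ.range.index :=
      Subgroup.index_comap_of_surjective _ (QuotientGroup.mk'_surjective _)
    have h2 := B.card_mul_index
    have h4 := ψ.range.card_mul_index
    have h5 := h.V.card_mul_index
    rw [h1, ← h5, show h.V.index = Nat.card (D ⧸ h.V) from rfl, ← h4] at h2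
    have h6 : 0 < ψ.range.index := Nat.pos_of_ne_zero Subgroup.index_ne_zero_of_finite
    refine Nat.eq_of_mul_eq_mul_right h6 ?_
    rw [h2]; ring
  have hAB : Nat.card (H04.fixSub a) * Nat.card B = Nat.card h.V ^ 2 * Nat.card h.V ^ 2 := by
    have h1 := ψ.ker.card_mul_index
    rw [Subgroup.index_ker, hker] at h1
    rw [hBc, ← mul_assoc, h1, h3]; ring
  have hcm : ∀ u ∈ H04.fixSub a, ∀ y ∈ B, u * y = y * u := by
    intro u hu y hy
    obtain ⟨g, v, hv', rfl⟩ := hBm y hy
    have h1 : ⁅u, a g⁆ = ⁅u, g⁆ := by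
      have := hv _ (h.com u g)
      rwa [map_commutatorElement, (H04.mem_fixSub.1 hu)] at this
    have h2 : h.φ u (g⁻¹ * a g * v) = 1 := by
      rw [map_mul, map_mul, map_inv, show h.φ u (a g) = h.φ u g from h1, inv_mul_cancel, one_mul]
      exact (H04.commute_of_mem_center (h.cen v hv') u).symm.commutator_eq
    exact commutatorElement_eq_one_iff_mul_comm.1 h2
  have hint : ∀ y ∈ B, y ∈ H04.fixSub a → y ∈ h.V := by
    intro y hy hy'
    obtain ⟨g, v, hv', rfl⟩ := hBm y hy
    have h1 : g⁻¹ * a g ∈ H04.fixSub a :=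
      (mul_mem_cancel_right (show v ∈ H04.fixSub a from hv v hv')).1 hy'
    rw [H04.aut_apply_eq_of_coprime h.pg ho (x := g) (c := g⁻¹ * a g) (by simp) h1]
    simpa using hv'
  by_contra hx2
  obtain ⟨e, he, heV⟩ : ∃ e ∈ B, e ∉ h.V := by
    by_contra h1
    push Not at h1
    exact ha (H04.aut_eq_one_of_trivial_on_quotient h.pg ho h.V hv fun g => h1 _ ⟨g, rfl⟩)
  have h1 : B < centralizer {x} := by
    refine lt_of_le_of_ne (fun y hy => mem_centralizer_singleton_iff.2 (hcm x hx y hy).symm) fun e1 => ?_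
    exact hx2 (hint x (e1 ▸ mem_centralizer_singleton_iff.2 rfl) hx)
  have h2 : H04.fixSub a < centralizer {e} := by
    refine lt_of_le_of_ne (fun y hy => mem_centralizer_singleton_iff.2 (hcm y hy e he)) fun e1 => ?_
    exact heV (hint e he (e1 ▸ mem_centralizer_singleton_iff.2 rfl))
  have h4 := H01.card_lt_of_lt h1
  have h5 := H01.card_lt_of_lt h2
  rw [hC x hx2] at h4
  rw [hC e heV] at h5
  exact absurd hAB (Nat.mul_lt_mul'' h5 h4).ne

theorem SQ.prime_dvd [Finite D] (h : SQ D) {a : MulAut D} (ha : a ≠ 1) {r : ℕ} (hr : r.Prime)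
    (h2 : r ≠ 2) (har : a ^ r = 1) (hv : ∀ v : D, v ^ 2 = 1 → a v = v) :
    r ∣ Nat.card h.V + 1 := by
  classical
  haveI := Fintype.ofFinite D
  haveI := Fact.mk hr
  have ho : (orderOf a).Coprime 2 := by
    rw [orderOf_eq_prime har ha]; exact (Nat.coprime_primes hr Nat.prime_two).2 h2
  obtain ⟨h3, h4, -⟩ := h.cube ha ho hv
  haveI : Nontrivial D := by
    by_contra h0
    rw [not_nontrivial_iff_subsingleton] at h0
    exact ha (by ext x; exact Subsingleton.elim _ _)
  haveI : Nontrivial h.V := Finite.one_lt_card_iff_nontrivial.1 h.one_lt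
  obtain ⟨⟨v, hv1⟩, hv2⟩ := exists_ne (1 : h.V)
  have hv3 : v ≠ 1 := fun e => hv2 (Subtype.ext e)
  let f : Function.End {x : D // x ^ 2 = v} := fun x => ⟨a x, by rw [← map_pow, x.2, hv v hv1]⟩
  have hf : ∀ n x, ((f ^ n) x : D) = (a ^ n) x := by
    intro n
    induction n with
    | zero => intro x; rfl
    | succ n ih => intro x; rw [pow_succ, pow_succ, MulAut.mul_apply]; exact ih (f x)
  have h5 := Equiv.Perm.card_fixedPoints_modEq (f := f) (p := r) (n := 1)
    (funext fun x => Subtype.ext (by rw [pow_one, hf, har]; rfl))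
  have h6 : Fintype.card f.fixedPoints = 0 := by
    rw [Fintype.card_eq_zero_iff]
    refine ⟨fun x => hv3 ?_⟩
    rw [← x.1.2]
    exact h.fpf ha ho hv (congrArg Subtype.val x.2)
  rw [h6, Fintype.card_subtype, h4 v hv1 hv3] at h5
  refine ((Nat.Prime.dvd_mul hr).1 ((Nat.modEq_zero_iff_dvd).1 h5)).resolve_left fun h7 => h2 ?_
  obtain ⟨k, hk⟩ := IsPGroup.iff_card.1 (h.pg.to_subgroup h.V)
  rw [hk] at h7
  exact (Nat.prime_dvd_prime_iff_eq hr Nat.prime_two).1 (hr.dvd_of_dvd_pow h7)

end Thom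
end H07
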