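import Cfsg.Agent.H07.Thom1
import Cfsg.Agent.H07.GY
import Cfsg.Agent.H02.Thompson
import Cfsg.Agent.H02.FrobCompl
import Cfsg.Agent.H16.Super
import Cfsg.Agent.BG.Api1

/-!
Thompson: a solvable group with one class of involutions and more than one involution in a Sylow
2-subgroup has 2-length 1 (`Thom.index_two`, `Thom.main`); `Thom.exists_crit4`, `Thom.homocyclic`.
-/

set_option autoImplicit false
open Cfsg Subgroup
open scoped commutatorElement

namespace H07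
namespace Thom

theorem exists_crit4 {E : Type*} [Group E] [Finite E] (hE : IsPGroup 2 E) :
    ∃ D : Subgroup E, D.Characteristic ∧ (∀ x ∈ D, (x ^ 2) ^ 2 = 1) ∧
      (∀ x ∈ D, ∀ y ∈ D, ⁅x, y⁆ ^ 2 = 1) ∧
      ∀ a : MulAut E, (orderOf a).Coprime 2 → (∀ x ∈ D, a x = x) → a = 1 := by
  obtain ⟨H, hH, h1, h2, h3⟩ := H04.exists_critical hE
  have hc : ∀ x ∈ H, ∀ y ∈ H, ∀ z ∈ H, Commute ⁅x, y⁆ z := fun x hx y _ z hz =>
    ((h2 (commutator_mem_commutator hx (mem_top y))).2 z hz).symm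
  have hc2 : ∀ x ∈ H, ∀ y ∈ H, ⁅x, y⁆ ^ 2 = 1 := fun x hx y hy => by
    have := H04.commutatorElement_mul_left_of_commute (hc x hx y hy x hx).symm
    rw [pow_two, ← this, ← pow_two]
    exact commutatorElement_eq_one_iff_mul_comm.2 ((h1 x hx).2 y hy).symm
  have h4 : ∀ x ∈ H, ∀ y ∈ H, (x * y) ^ 4 = x ^ 4 * y ^ 4 := fun x hx y hy => by
    rw [H04.mul_pow_eq_of_commute (hc y hy x hx x hx) (hc y hy x hx y hy),
      show Nat.choose 4 2 = 2 * 3 from rfl, pow_mul, hc2 y hy x hx, one_pow, mul_one]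
  let D : Subgroup E :=
    { carrier := {x | x ∈ H ∧ x ^ 4 = 1}
      one_mem' := ⟨H.one_mem, one_pow 4⟩
      mul_mem' := fun {x y} hx hy => ⟨H.mul_mem hx.1 hy.1, by rw [h4 x hx.1 y hy.1, hx.2, hy.2, one_mul]⟩
      inv_mem' := fun {x} hx => ⟨H.inv_mem hx.1, by rw [inv_pow, hx.2, inv_one]⟩ }
  refine ⟨D, ?_, fun x hx => by rw [← pow_mul]; exact hx.2, fun x hx y hy => hc2 x hx.1 y hy.1, ?_⟩
  · rw [characteristic_iff_map_le]
    rintro φ _ ⟨x, hx, rfl⟩
    exact ⟨characteristic_iff_map_le.1 hH φ ⟨x, hx.1, rfl⟩, by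
      rw [MulEquiv.coe_toMonoidHom, ← map_pow, hx.2, map_one]⟩
  intro a ha hD
  refine H04.aut_eq_one_of_centralizer_le hE ha H h3 ?_
  have key : ∀ k : ℕ, ∀ x ∈ H, x ^ 2 ^ k = 1 → a x = x := by
    intro k
    induction k with
    | zero => intro x _ hx; rw [pow_zero, pow_one] at hx; rw [hx, map_one]
    | succ k ih =>
      intro x hx h5
      have h6 : a (x ^ 2) = x ^ 2 := ih _ (H.pow_mem hx 2) (by rw [← pow_mul, ← pow_succ', h5])
      have h7 : a x ∈ H := characteristic_iff_map_le.1 hH a ⟨x, hx, rfl⟩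
      refine H04.aut_apply_eq_of_coprime hE ha (c := x⁻¹ * a x) (by simp)
        (hD _ ⟨H.mul_mem (H.inv_mem hx) h7, ?_⟩)
      rw [h4 _ (H.inv_mem hx) _ h7, ← map_pow, show 4 = 2 * 2 from rfl, pow_mul x, map_pow, h6,
        ← pow_mul, inv_pow, inv_mul_cancel]
  intro x hx
  obtain ⟨k, hk⟩ := hE x
  exact key k x hx hk

theorem homocyclic {A : Type*} [CommGroup A] [Finite A] {p : ℕ} [hp : Fact p.Prime] (hA : IsPGroup p A)
    (h : ∀ x y : A, x ≠ 1 → x ^ p = 1 → y ≠ 1 → y ^ p = 1 → ∃ a : MulAut A, y ∈ zpowers (a x)) :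
    ∃ m r : ℕ, Nonempty (A ≃* (Fin r → Multiplicative (ZMod (p ^ m)))) := by
  classical
  obtain ⟨ι, _, n, hn, ⟨e⟩⟩ := CommGroup.equiv_prod_multiplicative_zmod_of_finite A
  have h1 : ∀ i, ∃ k, n i = p ^ (k + 1) := fun i => by
    obtain ⟨k, hk⟩ := IsPGroup.iff_card.1 hA
    have h2 : n i ∣ p ^ k := by
      rw [← hk, Nat.card_congr e.toEquiv, Nat.card_pi]
      have := Finset.dvd_prod_of_mem (fun j => Nat.card (Multiplicative (ZMod (n j))))
        (Finset.mem_univ i)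
      rwa [show Nat.card (Multiplicative (ZMod (n i))) = n i from Nat.card_zmod _] at this
    obtain ⟨j, -, hj⟩ := (Nat.dvd_prime_pow hp.out).1 h2
    rcases j with _ | j
    · have := hn i; simp at hj; omega
    · exact ⟨j, hj⟩
  choose k hk using h1
  let g : ∀ i, (∀ j, Multiplicative (ZMod (n j))) := fun i => Pi.mulSingle i (Multiplicative.ofAdd 1)
  have hg : ∀ i (m : ℕ), (g i ^ m) i = Multiplicative.ofAdd (m : ZMod (n i)) := fun i m => by
    simp [g, ← ofAdd_nsmul]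
  have hg1 : ∀ i, e.symm (g i ^ p ^ k i) ≠ 1 := fun i h2 => by
    have h3 := congrFun ((MulEquiv.map_eq_one_iff _).1 h2) i
    rw [hg, Pi.one_apply, ofAdd_eq_one, ZMod.natCast_eq_zero_iff, hk] at h3
    exact absurd ((Nat.pow_dvd_pow_iff_le_right hp.out.one_lt).1 h3) (by omega)
  have hg2 : ∀ i, e.symm (g i ^ p ^ k i) ^ p = 1 := fun i => by
    rw [← map_pow, ← pow_mul, ← pow_succ, ← hk, MulEquiv.map_eq_one_iff, ← Pi.mulSingle_pow,
      ← ofAdd_nsmul]
    simp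
  have h2 : ∀ i j, k j ≤ k i := fun i j => by
    by_contra h3
    obtain ⟨a, ha⟩ := h _ _ (hg1 j) (hg2 j) (hg1 i) (hg2 i)
    obtain ⟨t, ht⟩ := mem_zpowers_iff.1 ha
    have h4 : g i ^ p ^ k i = (e (a (e.symm (g j))) ^ t) ^ p ^ k j := by
      rw [← e.symm.injective.eq_iff, ← ht]
      simp only [map_pow, map_zpow, MulEquiv.symm_apply_apply]
      rw [← zpow_natCast, ← zpow_natCast, ← zpow_mul, ← zpow_mul, mul_comm]
    have h5 := congrFun h4 i
    have h6 : ∀ z : Multiplicative (ZMod (n i)), z ^ p ^ k j = 1 := fun z => by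
      have : NeZero (n i) := ⟨by have := hn i; omega⟩
      apply orderOf_dvd_iff_pow_eq_one.1
      refine (orderOf_dvd_natCard z).trans ?_
      rw [show Nat.card (Multiplicative (ZMod (n i))) = n i from Nat.card_zmod _, hk]
      exact pow_dvd_pow p (by omega)
    rw [Pi.pow_apply _ (p ^ k j), h6, hg, ofAdd_eq_one, ZMod.natCast_eq_zero_iff, hk] at h5
    exact absurd ((Nat.pow_dvd_pow_iff_le_right hp.out.one_lt).1 h5) (by omega)
  obtain ⟨m, hm⟩ : ∃ m, ∀ i, n i = p ^ m := by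
    rcases isEmpty_or_nonempty ι with h0 | ⟨⟨i⟩⟩
    · exact ⟨0, fun i => h0.elim i⟩
    · exact ⟨k i + 1, fun j => by rw [hk, le_antisymm (h2 i j) (h2 j i)]⟩
  refine ⟨m, Fintype.card ι, ⟨e.trans ((MulEquiv.piCongrRight fun i =>
    (ZMod.ringEquivCongr (hm i)).toAddEquiv.toMultiplicative).trans
    (MulEquiv.arrowCongr (Fintype.equivFin ι) (MulEquiv.refl _)))⟩⟩

variable {G : Type*} [Group G]

theorem charAll_of_conj [Finite G]
    (hconj : ∀ x y : G, x ≠ 1 → x ^ 2 = 1 → y ≠ 1 → y ^ 2 = 1 → IsConj x y) : GY.CharAll 2 G := by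
  intro C hC hd x hx
  by_cases h1 : x = 1
  · rw [h1]; exact C.one_mem
  obtain ⟨y, hy⟩ := exists_prime_orderOf_dvd_card' (G := C) 2 hd
  have hy' : orderOf (y : G) = 2 := by rw [Subgroup.orderOf_coe, hy]
  obtain ⟨g, hg⟩ := isConj_iff.1 (hconj y x (by intro e; rw [e, orderOf_one] at hy'; omega)
    (by rw [← hy']; exact pow_orderOf_eq_one _) h1 hx)
  rw [← hg]
  exact (inferInstance : C.Normal).conj_mem _ y.2 g

theorem index_two [Finite G] [Group.IsSolvable G] (hO : pPrimeCore 2 G = ⊥)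
    (htwo : ∃ x y : G, x ≠ y ∧ x ≠ 1 ∧ x ^ 2 = 1 ∧ y ≠ 1 ∧ y ^ 2 = 1)
    (hconj : ∀ x y : G, x ≠ 1 → x ^ 2 = 1 → y ≠ 1 → y ^ 2 = 1 → IsConj x y) :
    ¬ 2 ∣ (pCore 2 G).index := by
  obtain ⟨v, w, hvw, hv1, hv2, hw1, hw2⟩ := htwo
  haveI : Nontrivial G := ⟨v, w, hvw⟩
  have hG : IsPSolvable 2 G := H24.PS.of_solvable
  have hC := charAll_of_conj hconj
  have hE := GY.pCore_ne_bot hG hO
  refine (GY.dichotomy hE hC).resolve_right fun hK => ?_
  have hZ := fun x => GY.mem_center_pCore hE hC (x := x)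
  have hEp := H02.pCore_isPGroup 2 G
  let V : Subgroup G :=
    { carrier := {x | x ^ 2 = 1}
      one_mem' := one_pow 2
      mul_mem' := fun {x y} hx hy => show (x * y) ^ 2 = 1 by
        rw [Commute.mul_pow ((hZ y hy).2 x (hZ x hx).1), show x ^ 2 = 1 from hx,
          show y ^ 2 = 1 from hy, one_mul]
      inv_mem' := fun {x} (hx : x ^ 2 = 1) => show x⁻¹ ^ 2 = 1 by rw [inv_pow, hx, inv_one] }
  have hV : ∀ x, x ∈ V ↔ x ^ 2 = 1 := fun _ => Iff.rfl
  have hVE : V ≤ pCore 2 G := fun x hx => (hZ x hx).1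
  haveI hVn : V.Normal := ⟨fun x hx g => by rw [hV, conj_pow, (hV x).1 hx]; simp⟩
  have hKV : ∀ y ∈ GY.opp 2 G, ∀ x, x ^ 2 = 1 → y * x = x * y := fun y hy x hx => hK x hx y hy
  -- the prime `r`
  obtain ⟨r, hr, hr2, hrq, hrG⟩ : ∃ r : ℕ, r.Prime ∧ r ≠ 2 ∧ ¬ r ∣ Nat.card V + 1 ∧ r ∣ Nat.card G := by
    have h1 : MulAction.orbit (ConjAct G) v = (V : Set G) \ {1} := by
      ext x
      rw [ConjAct.mem_orbit_conjAct]
      refine ⟨fun h => ?_, fun h => hconj x v h.2 h.1 hv1 hv2⟩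
      obtain ⟨g, rfl⟩ := isConj_iff.1 h.symm
      exact ⟨hVn.conj_mem v hv2 g, fun e => hv1 (by simpa using e)⟩
    have h2 := MulAction.index_stabilizer (ConjAct G) v
    rw [h1, Set.ncard_sdiff_singleton_of_mem V.one_mem] at h2
    change _ = Nat.card V - 1 at h2
    have h3 : Nat.card V - 1 ∣ Nat.card G := h2 ▸ Subgroup.index_dvd_card _
    have h4 : 3 ≤ Nat.card V := by
      have : ({1, v, w} : Set G) ⊆ V := by
        rintro x (rfl | rfl | rfl)
        exacts [V.one_mem, hv2, hw2]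
      have h5 := Set.ncard_le_ncard this
      rwa [Set.ncard_eq_three.2 ⟨1, v, w, hv1.symm, hw1.symm, hvw, rfl⟩] at h5
    obtain ⟨k, hk⟩ := IsPGroup.iff_card.1 (hEp.to_le hVE)
    have h5 : 2 ∣ Nat.card V := by
      rcases k with _ | k
      · omega
      · rw [hk]; exact dvd_pow_self 2 k.succ_ne_zero
    obtain ⟨r, hr, hd⟩ := Nat.exists_prime_and_dvd (n := Nat.card V - 1) (by omega)
    have h6 : r ≠ 2 := by rintro rfl; omega
    refine ⟨r, hr, h6, fun h7 => h6 ?_, hd.trans h3⟩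
    have h8 := (Nat.dvd_sub h7 hd)
    rw [show Nat.card V + 1 - (Nat.card V - 1) = 2 by omega] at h8
    exact (Nat.prime_dvd_prime_iff_eq hr Nat.prime_two).1 h8
  haveI := Fact.mk hr
  obtain ⟨y, hy⟩ := exists_prime_orderOf_dvd_card' (G := G) r hrG
  have hy1 : y ≠ 1 := by rintro rfl; rw [orderOf_one] at hy; exact hr.one_lt.ne hy
  have hyo : (orderOf y).Coprime 2 := by rw [hy]; exact (Nat.coprime_primes hr Nat.prime_two).2 hr2
  -- the subgroup `D`
  obtain ⟨D₀, hD0, hD1, hD2, hD3⟩ := exists_crit4 hEp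
  haveI hDc : (D₀.map (pCore 2 G).subtype).Characteristic := H04.characteristic_map_subtype _ _
  set D := D₀.map (pCore 2 G).subtype with hD
  have hodd : ∀ z : G, (orderOf z).Coprime 2 → (MulAut.conjNormal z : MulAut D) = 1 → z = 1 := by
    intro z hz h1
    have h2 := hD3 (MulAut.conjNormal z) (hz.coprime_dvd_left (orderOf_map_dvd _ z)) fun x hx =>
      Subtype.ext (congrArg (Subtype.val : D → G) (DFunLike.congr_fun h1 ⟨x, x, hx, rfl⟩) :)
    have h3 : z ∈ centralizer (pCore 2 G : Set G) := fun x hx => by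
      have := congrArg Subtype.val (DFunLike.congr_fun h2 ⟨x, hx⟩)
      exact (mul_inv_eq_iff_eq_mul.1 this).symm
    obtain ⟨k, hk⟩ := H02.exists_card_pCore (p := 2) (G := G)
    have h4 := Subgroup.orderOf_dvd_natCard _ (H24.PS.centralizer_pCore_le hG hO h3)
    rw [hk] at h4
    exact orderOf_eq_one_iff.1 (Nat.Coprime.eq_one_of_dvd (hz.pow_right k) h4)
  have hDp : IsPGroup 2 D := hEp.to_le (map_subtype_le _)
  have hVD : V ≤ D := by
    refine fun x hx => hC D hDc ?_ x hx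
    refine hDp.card_eq_or_dvd.resolve_left fun h1 => hy1 (hodd y hyo ?_)
    haveI := (Nat.card_eq_one_iff_unique.1 h1).1
    ext x; rw [Subsingleton.elim (MulAut.conjNormal y x) ((1 : MulAut D) x)]
  have hS : SQ D := by
    refine ⟨hDp, fun x hx => mem_center_iff.2 fun z => Subtype.ext
      ((hZ x (congrArg Subtype.val hx)).2 z (map_subtype_le _ z.2)), ?_, ?_, ?_⟩
    · rintro ⟨_, x, hx, rfl⟩
      exact Subtype.ext (congrArg (Subtype.val : pCore 2 G → G) (hD1 x hx) :)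
    · rintro ⟨_, x, hx, rfl⟩ ⟨_, z, hz, rfl⟩
      exact Subtype.ext (congrArg (Subtype.val : pCore 2 G → G) (hD2 x hx z hz) :)
    · intro x z h1 h2 h3 h4
      obtain ⟨g, hg⟩ := isConj_iff.1 (hconj x z (fun e => h1 (Subtype.ext e)) (congrArg Subtype.val h2)
        (fun e => h3 (Subtype.ext e)) (congrArg Subtype.val h4))
      exact ⟨MulAut.conjNormal g, Subtype.ext hg⟩
  have hSV : Nat.card hS.V = Nat.card V := by
    rw [← H01.card_subgroupOf_of_le hVD]
    congr 2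
    ext x
    exact ⟨fun h => congrArg Subtype.val h, fun h => Subtype.ext h⟩
  have hfix : ∀ z : G, (∀ x, x ^ 2 = 1 → z * x = x * z) → ∀ x : D, x ^ 2 = 1 →
      (MulAut.conjNormal z : MulAut D) x = x := fun z hz x hx =>
    Subtype.ext (mul_inv_eq_iff_eq_mul.2 (hz x (congrArg Subtype.val hx)))
  have hf1 : ∀ z : G, z ≠ 1 → (orderOf z).Coprime 2 → (∀ x, x ^ 2 = 1 → z * x = x * z) →
      ∀ x ∈ D, x⁻¹ * (z * x * z⁻¹) ∈ V → x ∈ V := by
    intro z h1 h2 h3 x hx h4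
    have h5 := h2.coprime_dvd_left (orderOf_map_dvd (MulAut.conjNormal : G →* MulAut D) z)
    have := hS.fpf (mt (hodd z h2) h1) h5 (hfix z h3) (x := ⟨x, hx⟩)
      (H04.aut_apply_eq_of_coprime hDp h5 (c := ⟨_, hVD h4⟩) (Subtype.ext (by simp))
        (hfix z h3 _ (Subtype.ext h4)))
    exact congrArg Subtype.val this
  have hf2 : ∀ z : G, ∀ l : ℕ, l.Prime → l ≠ 2 → orderOf z = l → (∀ x, x ^ 2 = 1 → z * x = x * z) →
      l ∣ Nat.card V + 1 := by
    intro z l hl hl2 h1 h3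
    have h2 : (orderOf z).Coprime 2 := by rw [h1]; exact (Nat.coprime_primes hl Nat.prime_two).2 hl2
    have h4 : z ≠ 1 := by rintro rfl; rw [orderOf_one] at h1; exact hl.one_lt.ne h1
    rw [← hSV]
    exact hS.prime_dvd (mt (hodd z h2) h4) hl hl2 (by rw [← map_pow, ← h1, pow_orderOf_eq_one, map_one])
      (hfix z h3)
  -- the complement `L`
  obtain ⟨k, hk⟩ := H02.exists_card_pCore (p := 2) (G := G)
  haveI := hEp.isNilpotent
  obtain ⟨L, hLK, -, hdis, hmul, -⟩ := GY.frattini_compl (GY.pCore_le_opp (p := 2) (G := G))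
    (by rw [hk, GY.relIndex_opp]; exact Nat.Coprime.pow_left _ (H02.pPrimeCore_coprime 2 _).symm)
    inferInstance
  set π := QuotientGroup.mk' (pCore 2 G) with hπ
  have hF : fittingSubgroup (G ⧸ pCore 2 G) ≤ pPrimeCore 2 (G ⧸ pCore 2 G) := by
    have := H02.fitting_le_pCore_sup_pPrimeCore (G := G ⧸ pCore 2 G) Nat.prime_two
    rwa [H02.pCore_quotient_pCore, bot_sup_eq] at this
  have hP : ∀ l : ℕ, l.Prime → l ≠ 2 → ∃ P : Subgroup G, IsPGroup l P ∧ P ≤ GY.opp 2 G ∧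
      P.map π = pCore l (G ⧸ pCore 2 G) := by
    intro l hl hl2
    haveI := Fact.mk hl
    refine ⟨L ⊓ (pCore l _).comap π, ?_, inf_le_left.trans hLK,
      le_antisymm (map_le_iff_le_comap.2 inf_le_right) fun x hx => ?_⟩
    · rintro ⟨x, h1, h2⟩
      obtain ⟨j, hj⟩ := H02.pCore_isPGroup l _ ⟨π x, h2⟩
      refine ⟨j, Subtype.ext ?_⟩
      have h3 : x ^ l ^ j ∈ pCore 2 G ⊓ L :=
        ⟨(QuotientGroup.eq_one_iff _).1 (congrArg Subtype.val hj), L.pow_mem h1 _⟩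
      rwa [hdis] at h3
    · obtain ⟨g, rfl⟩ := QuotientGroup.mk_surjective x
      obtain ⟨e, he, a, ha, rfl⟩ := hmul g (hF (H02.pCore_le_fitting hx))
      have h1 : π (e * a) = π a := by
        rw [map_mul, show π e = 1 from (QuotientGroup.eq_one_iff e).2 he, one_mul]
      have h2 : π a ∈ pCore l (G ⧸ pCore 2 G) := by rw [← h1]; exact hx
      exact ⟨a, ⟨ha, h2⟩, h1.symm⟩
  have hcyc : ∀ l : ℕ, l.Prime → IsCyclic (pCore l (G ⧸ pCore 2 G)) := by
    intro l hl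
    by_cases hl2 : l = 2
    · rw [hl2, H02.pCore_quotient_pCore]; infer_instance
    haveI := Fact.mk hl
    obtain ⟨P, h1, h2, h3⟩ := hP l hl hl2
    have hPo : ∀ a ∈ P, (orderOf a).Coprime 2 := fun a ha => by
      obtain ⟨j, hj⟩ := IsPGroup.iff_card.1 h1
      exact (((Nat.coprime_primes hl Nat.prime_two).2 hl2).pow_left j).coprime_dvd_left
        (hj ▸ Subgroup.orderOf_dvd_natCard _ ha)
    by_cases h0 : P = ⊥
    · rw [← h3, h0, Subgroup.map_bot]; infer_instance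
    obtain ⟨⟨a, ha⟩, ha1⟩ := ne_bot_iff_exists_ne_one.1 h0
    have h4 : D.map (QuotientGroup.mk' V) ≠ ⊥ := fun e => ha1 (Subtype.ext (hodd a (hPo a ha) (by
      rw [Subgroup.map_eq_bot_iff, QuotientGroup.ker_mk'] at e
      ext x
      rw [hfix a (hKV a (h2 ha)) x (Subtype.ext (e x.2))]; rfl)))
    have h5 := H02.isCyclic_of_fpf_odd_pGroup hl2 (h1.map (QuotientGroup.mk' V)) h4
      (by rw [normalizer_eq_top]; exact le_top) (by
        rintro _ ⟨b, hb, rfl⟩ hb1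
        rw [eq_bot_iff]
        rintro _ ⟨⟨x, hx, rfl⟩, h6⟩
        refine (QuotientGroup.eq_one_iff x).2 (hf1 b (by rintro rfl; exact hb1 (map_one _)) (hPo b hb)
          (hKV b (h2 hb)) x hx ?_)
        rw [← QuotientGroup.eq, QuotientGroup.mk_mul, QuotientGroup.mk_mul, QuotientGroup.mk_inv,
          eq_mul_inv_iff_mul_eq]
        exact mem_centralizer_singleton_iff.1 h6)
    let φ : G ⧸ V →* G ⧸ pCore 2 G := QuotientGroup.map V _ (MonoidHom.id G) hVE
    have h6 : (P.map (QuotientGroup.mk' V)).map φ = P.map π := by rw [Subgroup.map_map]; rfl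
    rw [← h3, ← h6]
    exact isCyclic_of_surjective _ (φ.subgroupMap_surjective _)
  have hcent : ∀ x : G ⧸ pCore 2 G, (∀ l : ℕ, l.Prime → x ∈ centralizer (pCore l (G ⧸ pCore 2 G) : Set _)) →
      x ∈ pPrimeCore 2 (G ⧸ pCore 2 G) := by
    intro x hx
    refine hF (H02.centralizer_fitting_le _ ?_)
    rw [← zpowers_le, le_centralizer_iff, H02.fitting_eq_iSup_pCore]
    exact iSup_le fun l => le_centralizer_iff.1 (zpowers_le.2 (hx l l.2))
  have hcomm : ∀ g h : G, ⁅g, h⁆ ∈ GY.opp 2 G := fun g h => hcent _ fun l hl => by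
    haveI := hcyc l hl
    exact H16.commutator_le_centralizer_of_isCyclic _
      (commutator_mem_commutator (mem_top (π g)) (mem_top (π h)))
  have hyV : ¬ ∀ x, x ^ 2 = 1 → y * x = x * y := fun h => hrq (hf2 y r hr hr2 hy h)
  have hyC : ∀ x : G, x ^ 2 = 1 → y * x = x * y → x = 1 := by
    intro x h1 h2
    by_contra h3
    refine hyV fun z hz => ?_
    by_cases h4 : z = 1
    · simp [h4]
    obtain ⟨g, rfl⟩ := isConj_iff.1 (hconj x z h3 h1 h4 hz)
    have h5 := hKV _ (hcomm g⁻¹ y) x h1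
    calc y * (g * x * g⁻¹) = g * (⁅g⁻¹, y⁆ * (y * x)) * g⁻¹ := by group
      _ = g * (x * ⁅g⁻¹, y⁆ * y) * g⁻¹ := by rw [h2, ← mul_assoc ⁅g⁻¹, y⁆, h5]
      _ = _ := by group
  obtain ⟨l, hl, hyl⟩ : ∃ l : ℕ, l.Prime ∧ π y ∉ centralizer (pCore l (G ⧸ pCore 2 G) : Set _) := by
    by_contra h
    push Not at h
    exact hyV (hKV y (hcent _ h))
  haveI := Fact.mk hl
  have hne : pCore l (G ⧸ pCore 2 G) ≠ ⊥ := fun e => hyl (by rw [e]; simp)
  have hl2 : l ≠ 2 := by rintro rfl; exact hne (H02.pCore_quotient_pCore 2 G)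
  have hlr : r ≠ l := by
    rintro rfl
    obtain ⟨P, h1, h2, h3⟩ := hP r hr hr2
    have h4 : r ∣ Nat.card P := h1.card_eq_or_dvd.resolve_left fun e =>
      hne (by rw [← h3, Subgroup.card_eq_one.1 e, Subgroup.map_bot])
    obtain ⟨a, ha⟩ := exists_prime_orderOf_dvd_card' (G := P) r h4
    exact hrq (hf2 a r hr hr2 (by rw [Subgroup.orderOf_coe, ha]) (hKV a (h2 a.2)))
  have hM : (pCore l (G ⧸ pCore 2 G)).comap π ⊓ centralizer {y} = ⊥ := by
    by_contra h
    obtain ⟨x, ⟨h1, h2⟩, h3, s, hs, h4⟩ := H02.exists_prime_order_mem h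
    have h5 : y * x = x * y := (mem_centralizer_singleton_iff.1 h2).symm
    by_cases h6 : π x = 1
    · have h7 := Subgroup.orderOf_dvd_natCard _ ((QuotientGroup.eq_one_iff x).1 h6)
      rw [hk, h4] at h7
      rw [(Nat.prime_dvd_prime_iff_eq hs Nat.prime_two).1 (hs.dvd_of_dvd_pow h7)] at h4
      exact h3 (hyC x (h4 ▸ pow_orderOf_eq_one x) h5)
    haveI := Fact.mk hs
    have h7 : orderOf (π x) = s := orderOf_eq_prime (by rw [← map_pow, ← h4, pow_orderOf_eq_one, map_one]) h6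
    obtain ⟨j, hj⟩ := H02.exists_card_pCore (p := l) (G := G ⧸ pCore 2 G)
    have h8 := Subgroup.orderOf_dvd_natCard _ (show π x ∈ pCore l (G ⧸ pCore 2 G) from h1)
    rw [hj, h7] at h8
    rw [(Nat.prime_dvd_prime_iff_eq hs hl).1 (hs.dvd_of_dvd_pow h8)] at h7
    refine hyl (H17.mem_centralizer_of_omegaOne hl2 (H02.pCore_isPGroup l _)
      (by rw [normalizer_eq_top]; trivial) (((Nat.coprime_primes hr hl).2 hlr).coprime_dvd_left
        (hy ▸ orderOf_map_dvd π y)) ?_)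
    rw [← zpowers_le, le_centralizer_iff, H04.omegaOne_le_iff]
    intro z hz hz'
    have h9 : zpowers z ≤ zpowers (π x) := BG.le_of_card_dvd_of_cyclic (hcyc l hl) (zpowers_le.2 hz)
      (zpowers_le.2 h1) (by rw [Nat.card_zpowers, Nat.card_zpowers, h7]; exact orderOf_dvd_of_pow_eq_one hz')
    refine (?_ : zpowers (π x) ≤ _) (h9 (mem_zpowers z))
    rw [zpowers_le, ← zpowers_le, le_centralizer_iff, zpowers_le]
    rintro _ ⟨n, rfl⟩
    have : Commute (π x) (π y) := by rw [commute_iff_eq, ← map_mul, ← map_mul, h5]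
    exact this.zpow_left n
  have hN := H02.isNilpotent_of_fpf hr (by rw [normalizer_eq_top]; trivial)
    (hy ▸ pow_orderOf_eq_one y) hM
  have h1 := (H02.le_fitting hN).trans (H02.fitting_le_pCore_sup_pPrimeCore Nat.prime_two)
  rw [hO, sup_bot_eq] at h1
  refine hne (eq_bot_iff.2 fun x hx => ?_)
  obtain ⟨g, rfl⟩ := QuotientGroup.mk_surjective x
  exact (QuotientGroup.eq_one_iff g).2 (h1 hx)

theorem main [Finite G] (hG : Group.IsSolvable G) (S : Sylow 2 G)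
    (htwo : ∃ x y : G, x ∈ (S : Subgroup G) ∧ y ∈ (S : Subgroup G) ∧ x ≠ y ∧ x ≠ 1 ∧ x ^ 2 = 1 ∧
      y ≠ 1 ∧ y ^ 2 = 1)
    (hconj : ∀ x y : G, x ≠ 1 → x ^ 2 = 1 → y ≠ 1 → y ^ 2 = 1 → IsConj x y) :
    PLengthLE 2 1 G ∧ ∃ Y : Subgroup (MulAut ↥(S : Subgroup G)), Group.IsSolvable Y ∧
      ∀ x y : ↥(S : Subgroup G), x ≠ 1 → x ^ 2 = 1 → y ≠ 1 → y ^ 2 = 1 → ∃ a ∈ Y, a x = y := by
  set π := QuotientGroup.mk' (pPrimeCore 2 G) with hπ
  have hinj : ∀ x ∈ (S : Subgroup G), π x = 1 → x = 1 := fun x hx h => by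
    have : x ∈ (S : Subgroup G) ⊓ pPrimeCore 2 G := ⟨hx, (QuotientGroup.eq_one_iff x).1 h⟩
    rwa [H02.isPGroup_inf_pPrimeCore S.2] at this
  have hc' : ∀ x y : G ⧸ pPrimeCore 2 G, x ≠ 1 → x ^ 2 = 1 → y ≠ 1 → y ^ 2 = 1 → IsConj x y := by
    intro x y h1 h2 h3 h4
    obtain ⟨a, ha, rfl⟩ := GY.exists_lift _ (H02.pPrimeCore_coprime 2 G) x h2
    obtain ⟨b, hb, rfl⟩ := GY.exists_lift _ (H02.pPrimeCore_coprime 2 G) y h4
    exact π.map_isConj (hconj a b (by rintro rfl; exact h1 rfl) ha (by rintro rfl; exact h3 rfl) hb)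
  obtain ⟨v, w, hvS, hwS, hvw, hv1, hv2, hw1, hw2⟩ := htwo
  have hO := H02.pPrimeCore_quotient_pPrimeCore 2 G
  have h1 := index_two hO ⟨π v, π w, fun e => hvw (by
      have := hinj (v * w⁻¹) (mul_mem hvS (inv_mem hwS)) (by rw [map_mul, map_inv, e, mul_inv_cancel])
      exact mul_inv_eq_one.1 this), mt (hinj v hvS) hv1, by rw [← map_pow, hv2, map_one],
      mt (hinj w hwS) hw1, by rw [← map_pow, hw2, map_one]⟩ hc'
  refine ⟨GY.plen_of_quot h1, ((S : Subgroup G).normalizerMonoidHom).range,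
    Group.isSolvable_of_surjective (MonoidHom.rangeRestrict_surjective _), ?_⟩
  haveI : Nontrivial (G ⧸ pPrimeCore 2 G) := ⟨π v, 1, mt (hinj v hvS) hv1⟩
  have hE := GY.pCore_ne_bot (H24.PS.of_solvable (p := 2)) hO
  have hSE : ∀ s ∈ (S : Subgroup G), π s ∈ pCore 2 (G ⧸ pPrimeCore 2 G) := by
    intro s hs
    obtain ⟨j, hj⟩ := S.2 ⟨s, hs⟩
    have h2 : (π s) ^ 2 ^ j = 1 := by
      rw [← map_pow, show s ^ 2 ^ j = 1 from congrArg Subtype.val hj, map_one]
    rw [← QuotientGroup.eq_one_iff, ← orderOf_eq_one_iff]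
    refine Nat.Coprime.eq_one_of_dvd (m := (pCore 2 (G ⧸ pPrimeCore 2 G)).index) ?_
      (orderOf_dvd_natCard _)
    refine (((Nat.Prime.coprime_iff_not_dvd Nat.prime_two).2 h1).pow_left j).coprime_dvd_left ?_
    exact orderOf_dvd_of_pow_eq_one (by rw [← QuotientGroup.mk_pow, h2]; rfl)
  have hcen : ∀ x ∈ (S : Subgroup G), x ^ 2 = 1 → x ∈ centralizer ((S : Subgroup G) : Set G) := by
    intro x hx h2 s hs
    have h3 := (GY.mem_center_pCore hE (charAll_of_conj hc') (x := π x)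
      (by rw [← map_pow, h2, map_one])).2 _ (hSE s hs)
    rw [← commutatorElement_eq_one_iff_mul_comm] at h3 ⊢
    exact hinj _ (mul_mem (mul_mem (mul_mem hs hx) (inv_mem hs)) (inv_mem hx))
      (by rw [map_commutatorElement, h3])
  intro x y h2 h3 h4 h5
  obtain ⟨g, hg⟩ := isConj_iff.1 (hconj x y (fun e => h2 (Subtype.ext e)) (congrArg Subtype.val h3)
    (fun e => h4 (Subtype.ext e)) (congrArg Subtype.val h5))
  obtain ⟨n, hn, e⟩ := S.conj_eq_normalizer_conj_of_mem_centralizer x g⁻¹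
    (hcen x x.2 (congrArg Subtype.val h3))
    (by rw [inv_inv, hg]; exact hcen y y.2 (congrArg Subtype.val h5))
  refine ⟨_, ⟨⟨n⁻¹, inv_mem hn⟩, rfl⟩, Subtype.ext ?_⟩
  rw [inv_inv, hg] at e
  rw [e]
  exact congrArg (fun t => n⁻¹ * (x : G) * t) (inv_inv n)

end Thom
end H07
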